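import Cfsg.Agent.Lib.AutPSL.Classes
import Cfsg.Agent.Lib.AutPSL.Congruence

/-!
Involutory graph automorphisms of `PSL_n` as symmetric or alternating matrices up to scalars.
-/

set_option autoImplicit false

namespace Cfsg.Agent.Lib.AutPSL

open Matrix

universe u

variable {F : Type u} [Field F]

section sim

variable {κ ι : Type} [Fintype κ] [DecidableEq κ] [Fintype ι] [DecidableEq ι]

/-- The similitudes of a bilinear form given by a matrix. -/
def sim (M : Matrix κ κ F) : Subgroup (GL κ F) where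
  carrier := {h | ∃ c : Fˣ, (h : Matrix κ κ F)ᵀ * M * h = (c : F) • M}
  one_mem' := ⟨1, by simp⟩
  mul_mem' {a b} ha hb := by
    obtain ⟨c, hc⟩ := ha
    obtain ⟨d, hd⟩ := hb
    refine ⟨c * d, ?_⟩
    calc ((a * b : GL κ F) : Matrix κ κ F)ᵀ * M * ((a * b : GL κ F) : Matrix κ κ F)
        = (b : Matrix κ κ F)ᵀ * ((a : Matrix κ κ F)ᵀ * M * a) * b := by
          simp only [Units.val_mul, transpose_mul, mul_assoc]
      _ = _ := by rw [hc, Matrix.mul_smul, Matrix.smul_mul, hd, smul_smul, Units.val_mul]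
  inv_mem' {a} ha := by
    obtain ⟨c, hc⟩ := ha
    refine ⟨c⁻¹, ?_⟩
    have h := congrArg (fun X => ((a⁻¹ : GL κ F) : Matrix κ κ F)ᵀ * X * ((a⁻¹ : GL κ F) : Matrix κ κ F)) hc
    simp only [Matrix.mul_smul, Matrix.smul_mul] at h
    rw [show ((a⁻¹ : GL κ F) : Matrix κ κ F)ᵀ * ((a : Matrix κ κ F)ᵀ * M * a) * ((a⁻¹ : GL κ F) : Matrix κ κ F) =
      ((a : Matrix κ κ F) * ((a⁻¹ : GL κ F) : Matrix κ κ F))ᵀ * M * ((a : Matrix κ κ F) * ((a⁻¹ : GL κ F) : Matrix κ κ F)) by
        simp only [transpose_mul, mul_assoc]] at h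
    simp only [← Units.val_mul, mul_inv_cancel, Units.val_one, transpose_one, one_mul, mul_one] at h
    conv_rhs => rw [h]
    rw [smul_smul, ← Units.val_mul, inv_mul_cancel, Units.val_one, one_smul]

theorem mem_sim {M : Matrix κ κ F} {h : GL κ F} :
    h ∈ sim M ↔ ∃ c : Fˣ, (h : Matrix κ κ F)ᵀ * M * h = (c : F) • M := Iff.rfl

theorem scalar_val (c : Fˣ) :
    ((GeneralLinearGroup.scalar κ c : GL κ F) : Matrix κ κ F) = (c : F) • (1 : Matrix κ κ F) := by
  rw [Matrix.smul_one_eq_diagonal]; rfl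

theorem scalar_mem_sim (M : Matrix κ κ F) (c : Fˣ) : GeneralLinearGroup.scalar κ c ∈ sim M :=
  ⟨c * c, by rw [scalar_val, transpose_smul, transpose_one, Matrix.smul_mul, one_mul, Matrix.smul_mul,
    Matrix.mul_smul, mul_one, smul_smul, Units.val_mul]⟩

theorem sim_smul {c : F} (hc : c ≠ 0) (M : Matrix κ κ F) : sim (c • M) = sim M := by
  ext h
  simp only [mem_sim, Matrix.mul_smul, Matrix.smul_mul, smul_comm _ c M]
  exact ⟨fun ⟨d, hd⟩ => ⟨d, smul_right_injective _ hc hd⟩, fun ⟨d, hd⟩ => ⟨d, by rw [hd]⟩⟩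

theorem conj_mem_sim_iff (g : Matrix κ κ F) (P k : GL κ F) :
    P * k * P⁻¹ ∈ sim g ↔ k ∈ sim ((P : Matrix κ κ F)ᵀ * g * (P : Matrix κ κ F)) := by
  have hP : ((P : Matrix κ κ F) * ((P⁻¹ : GL κ F) : Matrix κ κ F)) = 1 := by
    rw [← Units.val_mul, mul_inv_cancel, Units.val_one]
  have hP' : (((P⁻¹ : GL κ F) : Matrix κ κ F) * (P : Matrix κ κ F)) = 1 := by
    rw [← Units.val_mul, inv_mul_cancel, Units.val_one]
  constructor
  · rintro ⟨c, hc⟩
    refine ⟨c, ?_⟩
    have h := congrArg (fun X => (P : Matrix κ κ F)ᵀ * X * P) hc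
    simp only [Matrix.mul_smul, Matrix.smul_mul] at h
    have e : ((P * k * P⁻¹ : GL κ F) : Matrix κ κ F) * (P : Matrix κ κ F) =
        (P : Matrix κ κ F) * (k : Matrix κ κ F) := by
      rw [← Units.val_mul, inv_mul_cancel_right, Units.val_mul]
    rw [← h]
    calc (k : Matrix κ κ F)ᵀ * ((P : Matrix κ κ F)ᵀ * g * (P : Matrix κ κ F)) * (k : Matrix κ κ F)
        = ((P : Matrix κ κ F) * (k : Matrix κ κ F))ᵀ * g * ((P : Matrix κ κ F) * (k : Matrix κ κ F)) := by
          simp only [transpose_mul, mul_assoc]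
      _ = _ := by rw [← e]; simp only [transpose_mul, mul_assoc]
  · rintro ⟨c, hc⟩
    refine ⟨c, ?_⟩
    have h := congrArg (fun X => ((P⁻¹ : GL κ F) : Matrix κ κ F)ᵀ * X * ((P⁻¹ : GL κ F) : Matrix κ κ F)) hc
    simp only [Matrix.mul_smul, Matrix.smul_mul] at h
    have e : ((P⁻¹ : GL κ F) : Matrix κ κ F)ᵀ * ((P : Matrix κ κ F)ᵀ * g * P) *
        ((P⁻¹ : GL κ F) : Matrix κ κ F) = g := by
      calc _ = ((P : Matrix κ κ F) * ((P⁻¹ : GL κ F) : Matrix κ κ F))ᵀ * g * ((P : Matrix κ κ F) * ((P⁻¹ : GL κ F) : Matrix κ κ F)) := by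
            simp only [transpose_mul, mul_assoc]
        _ = g := by rw [hP, transpose_one, one_mul, mul_one]
    rw [e] at h
    rw [← h]
    simp only [Units.val_mul, transpose_mul, mul_assoc]

/-- Reindexing invertible matrices. -/
noncomputable def glReindex (e : κ ≃ ι) : GL κ F ≃* GL ι F :=
  Units.mapEquiv (Matrix.reindexAlgEquiv F F e).toMulEquiv

theorem glReindex_val (e : κ ≃ ι) (k : GL κ F) :
    ((glReindex e k : GL ι F) : Matrix ι ι F) = Matrix.reindex e e (k : Matrix κ κ F) := rfl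

theorem glReindex_mem_iff (e : κ ≃ ι) (M : Matrix κ κ F) (k : GL κ F) :
    glReindex e k ∈ sim (Matrix.reindex e e M) ↔ k ∈ sim M := by
  have key : ∀ c : F, ((glReindex e k : GL ι F) : Matrix ι ι F)ᵀ * Matrix.reindex e e M *
      ((glReindex e k : GL ι F) : Matrix ι ι F) = c • Matrix.reindex e e M ↔
      (k : Matrix κ κ F)ᵀ * M * k = c • M := fun c => by
    rw [glReindex_val, Matrix.reindex_apply, Matrix.reindex_apply, Matrix.transpose_submatrix,
      Matrix.submatrix_mul_equiv, Matrix.submatrix_mul_equiv]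
    show _ = (c • M).submatrix _ _ ↔ _
    exact ⟨fun h => (Matrix.reindex e e).injective (by simpa only [Matrix.reindex_apply] using h), fun h => by rw [h]⟩
  exact exists_congr fun c => key c

theorem glReindex_scalar (e : κ ≃ ι) (c : Fˣ) :
    glReindex e (GeneralLinearGroup.scalar κ c) = GeneralLinearGroup.scalar ι c := Units.ext (by
  rw [glReindex_val, scalar_val, scalar_val, Matrix.reindex_apply]
  simp [Matrix.submatrix_smul])

theorem det_glReindex (e : κ ≃ ι) (k : GL κ F) :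
    GeneralLinearGroup.det (glReindex e k) = GeneralLinearGroup.det k := Units.ext (by
  rw [GeneralLinearGroup.val_det_apply, GeneralLinearGroup.val_det_apply, glReindex_val,
    Matrix.det_reindex_self])

theorem mem_scalars {h : GL κ F} :
    h ∈ Cfsg.Geo.scalars κ F ↔ ∃ c : Fˣ, h = GeneralLinearGroup.scalar κ c :=
  ⟨fun ⟨c, hc⟩ => ⟨c, hc.symm⟩, fun ⟨c, hc⟩ => ⟨c, hc.symm⟩⟩

end sim

section graph

variable {n : ℕ} [NeZero n]

/-- The graph automorphism of a matrix. -/
noncomputable def gr (g : GL (Fin n) F) : MulAut (P n F) := conjHom n F g * D graphSL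

theorem graph_conjHom (h : GL (Fin n) F) :
    (D graphSL * conjHom n F h : MulAut (P n F)) = conjHom n F (contragredient h) * D graphSL :=
  graph_conj_D h

theorem graph_mul_self : (D graphSL * D graphSL : MulAut (P n F)) = 1 := by
  rw [← map_mul, graphSL_sq, map_one]

theorem contra_val (h : GL (Fin n) F) :
    (contragredient h : Matrix (Fin n) (Fin n) F) = ((h⁻¹ : GL (Fin n) F) : Matrix (Fin n) (Fin n) F)ᵀ :=
  rfl

theorem contra_inv_val (h : GL (Fin n) F) :
    (((contragredient h)⁻¹ : GL (Fin n) F) : Matrix (Fin n) (Fin n) F) = (h : Matrix (Fin n) (Fin n) F)ᵀ :=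
  rfl

theorem conj_gr (h g : GL (Fin n) F) :
    conjHom n F h * gr g * (conjHom n F h)⁻¹ = conjHom n F (h * g * (contragredient h)⁻¹) * D graphSL := by
  rw [gr, ← map_inv, mul_assoc, mul_assoc, graph_conjHom, ← mul_assoc, ← mul_assoc, ← map_mul,
    ← map_mul]
  congr 2

theorem gr_eq_iff (hn : 2 ≤ n) {g g' : GL (Fin n) F} :
    gr g = gr g' ↔ ∃ c : Fˣ, (g : Matrix (Fin n) (Fin n) F) = (c : F) • (g' : Matrix (Fin n) (Fin n) F) := by
  rw [gr, gr, mul_left_inj, conjHom_eq_iff hn]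
  refine exists_congr fun c => ⟨fun h => ?_, fun h => Units.ext ?_⟩
  · rw [h, Units.val_mul, scalar_val, Matrix.smul_mul, one_mul]
  · rw [Units.val_mul, scalar_val, Matrix.smul_mul, one_mul, h]

theorem gr_mul_self (g : GL (Fin n) F) :
    gr g * gr g = conjHom n F (g * contragredient g) := by
  rw [gr, mul_assoc, ← mul_assoc (D graphSL), graph_conjHom, mul_assoc (conjHom n F (contragredient g)),
    graph_mul_self, mul_one, map_mul]

theorem gr_ne_one (hn : 3 ≤ n) (g : GL (Fin n) F) : gr g ≠ 1 := fun h => by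
  refine conj_field_ne_graph hn g⁻¹ 1 ?_
  rw [show (fieldSL (1 : F ≃+* F) : MulAut (S n F)) = 1 from map_one _, map_one, mul_one]
  rw [gr, ← inv_inv (conjHom n F g), ← map_inv, inv_mul_eq_one] at h
  exact h

theorem orderOf_gr (hn : 3 ≤ n) {g : GL (Fin n) F} {ε : F}
    (hg : (g : Matrix (Fin n) (Fin n) F)ᵀ = ε • (g : Matrix (Fin n) (Fin n) F)) :
    orderOf (gr g) = 2 := by
  refine orderOf_eq_prime ?_ (gr_ne_one hn g)
  have hε : ε ≠ 0 := fun h => g.ne_zero (transpose_eq_zero.1 (by rw [hg, h, zero_smul]))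
  rw [pow_two, gr_mul_self]
  refine (conjHom_eq_iff (n := n) (by omega) (h := 1)).2 ⟨(Units.mk0 ε hε)⁻¹, ?_⟩ |>.trans (map_one _)
  rw [mul_one]
  apply Units.ext
  rw [Units.val_mul, scalar_val, contra_val, Units.val_inv_eq_inv_val, Units.val_mk0]
  have hinv : (g : Matrix (Fin n) (Fin n) F) * ((g⁻¹ : GL (Fin n) F) : Matrix (Fin n) (Fin n) F) = 1 := by
    rw [← Units.val_mul, mul_inv_cancel, Units.val_one]
  have h1 := congrArg Matrix.transpose hinv
  rw [transpose_mul, transpose_one, hg, Matrix.mul_smul] at h1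
  have h2 : ((g⁻¹ : GL (Fin n) F) : Matrix (Fin n) (Fin n) F)ᵀ =
      ε⁻¹ • ((g⁻¹ : GL (Fin n) F) : Matrix (Fin n) (Fin n) F) := by
    calc _ = ε⁻¹ • ((ε • (((g⁻¹ : GL (Fin n) F) : Matrix (Fin n) (Fin n) F)ᵀ * g)) *
          ((g⁻¹ : GL (Fin n) F) : Matrix (Fin n) (Fin n) F)) := by
          rw [Matrix.smul_mul, mul_assoc, hinv, mul_one, smul_smul, inv_mul_cancel₀ hε, one_smul]
      _ = _ := by rw [h1, one_mul]
  rw [h2, Matrix.mul_smul, hinv]

/-- The involutory graph automorphisms. -/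
theorem exists_gr (hn : 3 ≤ n) {γ : MulAut (P n F)} (hγ : Cfsg.IsGraphAutClassPSL γ)
    (hγ2 : orderOf γ = 2) : ∃ (g : GL (Fin n) F) (ε : F), γ = gr g ∧ ε * ε = 1 ∧
      (g : Matrix (Fin n) (Fin n) F)ᵀ = ε • (g : Matrix (Fin n) (Fin n) F) := by
  obtain ⟨-, δ, ι', hδ, hι, rfl⟩ := hγ
  obtain ⟨g, rfl⟩ := innerDiag_iff.1 hδ
  obtain rfl := invTranspose_iff.1 hι
  have h : gr g * gr g = conjHom n F 1 := by
    rw [map_one, ← pow_two, ← hγ2]
    exact pow_orderOf_eq_one _
  rw [gr_mul_self, conjHom_eq_iff (by omega)] at h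
  obtain ⟨c, hc⟩ := h
  rw [mul_one] at hc
  have h1 : (g : Matrix (Fin n) (Fin n) F) = (c : F) • (g : Matrix (Fin n) (Fin n) F)ᵀ := by
    calc (g : Matrix (Fin n) (Fin n) F)
        = ((g * contragredient g : GL (Fin n) F) : Matrix (Fin n) (Fin n) F) *
            (g : Matrix (Fin n) (Fin n) F)ᵀ := by
          rw [← contra_inv_val, ← Units.val_mul, mul_inv_cancel_right]
      _ = _ := by rw [hc, scalar_val, Matrix.smul_mul, one_mul]
  have h2 : (g : Matrix (Fin n) (Fin n) F)ᵀ = (c : F) • (g : Matrix (Fin n) (Fin n) F) := by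
    conv_lhs => rw [h1, transpose_smul, transpose_transpose]
  refine ⟨g, c, rfl, ?_, h2⟩
  have h3 := h1
  rw [h2, smul_smul] at h3
  by_contra hcc
  have h4 : ((c : F) * c - 1) • (g : Matrix (Fin n) (Fin n) F) = 0 := by
    rw [sub_smul, ← h3, one_smul, sub_self]
  exact g.ne_zero ((smul_eq_zero.1 h4).resolve_left (sub_ne_zero.2 hcc))

theorem isGraph_gr (hn : 3 ≤ n) (g : GL (Fin n) F) : Cfsg.IsGraphAutClassPSL (gr g) :=
  ⟨hn, _, _, innerDiag_iff.2 ⟨g, rfl⟩, invTranspose_iff.2 rfl, rfl⟩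

/-- Conjugacy under inner-diagonal automorphisms is congruence up to scalars. -/
theorem gr_conj_iff (hn : 2 ≤ n) {g g' : GL (Fin n) F} :
    Cfsg.IsConjUnder (Cfsg.inndiagPSL n F) (gr g) (gr g') ↔
      ∃ c : F, c ≠ 0 ∧ Congr (g : Matrix (Fin n) (Fin n) F) (c • (g' : Matrix (Fin n) (Fin n) F)) := by
  rw [inndiag_eq]
  constructor
  · rintro ⟨_, ⟨h, rfl⟩, e⟩
    rw [conj_gr] at e
    obtain ⟨c, hc⟩ := (gr_eq_iff hn).1 e
    refine ⟨(c : F)⁻¹, inv_ne_zero c.ne_zero, (contragredient h)⁻¹, ?_⟩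
    rw [contra_inv_val, transpose_transpose, hc, smul_smul, inv_mul_cancel₀ c.ne_zero, one_smul,
      Units.val_mul, Units.val_mul, contra_inv_val]
  · rintro ⟨c, hc, P', hP'⟩
    let h : GL (Fin n) F :=
      { val := (P' : Matrix (Fin n) (Fin n) F)ᵀ
        inv := ((P'⁻¹ : GL (Fin n) F) : Matrix (Fin n) (Fin n) F)ᵀ
        val_inv := by rw [← transpose_mul, ← Units.val_mul, inv_mul_cancel, Units.val_one, transpose_one]
        inv_val := by rw [← transpose_mul, ← Units.val_mul, mul_inv_cancel, Units.val_one, transpose_one] }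
    refine ⟨conjHom n F h, ⟨h, rfl⟩, ?_⟩
    rw [conj_gr]
    refine (gr_eq_iff hn).2 ⟨Units.mk0 c⁻¹ (inv_ne_zero hc), ?_⟩
    rw [Units.val_mk0, Units.val_mul, Units.val_mul, contra_inv_val]
    show _ = c⁻¹ • ((P' : Matrix (Fin n) (Fin n) F)ᵀ * g * (P' : Matrix (Fin n) (Fin n) F)ᵀᵀ)
    rw [transpose_transpose, hP', smul_smul, inv_mul_cancel₀ hc, one_smul]

theorem mem_centralizer_gr (hn : 2 ≤ n) {g h : GL (Fin n) F} :
    conjHom n F h ∈ Subgroup.centralizer {gr g} ↔
      contragredient h ∈ sim (g : Matrix (Fin n) (Fin n) F) := by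
  rw [Subgroup.mem_centralizer_singleton_iff, ← mul_inv_eq_iff_eq_mul, conj_gr,
    ← gr, gr_eq_iff hn, mem_sim]
  have hh : (((contragredient h) : GL (Fin n) F) : Matrix (Fin n) (Fin n) F) *
      (h : Matrix (Fin n) (Fin n) F)ᵀ = 1 := by
    rw [← contra_inv_val, ← Units.val_mul, mul_inv_cancel, Units.val_one]
  constructor
  · rintro ⟨c, hc⟩
    refine ⟨c⁻¹, ?_⟩
    rw [Units.val_mul, Units.val_mul, contra_inv_val] at hc
    have e := congrArg (fun X => ((contragredient h : GL (Fin n) F) : Matrix (Fin n) (Fin n) F)ᵀ * X *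
      ((contragredient h : GL (Fin n) F) : Matrix (Fin n) (Fin n) F)) hc
    simp only [Matrix.mul_smul, Matrix.smul_mul] at e
    have e' : ((contragredient h : GL (Fin n) F) : Matrix (Fin n) (Fin n) F)ᵀ *
        ((h : Matrix (Fin n) (Fin n) F) * g * (h : Matrix (Fin n) (Fin n) F)ᵀ) *
        ((contragredient h : GL (Fin n) F) : Matrix (Fin n) (Fin n) F) = g := by
      calc _ = (((h⁻¹ : GL (Fin n) F) : Matrix (Fin n) (Fin n) F) * (h : Matrix (Fin n) (Fin n) F)) * (g : Matrix (Fin n) (Fin n) F) *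
          (((h⁻¹ : GL (Fin n) F) : Matrix (Fin n) (Fin n) F) * (h : Matrix (Fin n) (Fin n) F))ᵀ := by
            rw [contra_val, transpose_transpose]; simp only [transpose_mul, mul_assoc]
        _ = g := by rw [← Units.val_mul, inv_mul_cancel, Units.val_one, transpose_one, one_mul, mul_one]
    rw [e'] at e
    conv_rhs => rw [e]
    rw [smul_smul, ← Units.val_mul, inv_mul_cancel, Units.val_one, one_smul]
  · rintro ⟨c, hc⟩
    refine ⟨c⁻¹, ?_⟩
    rw [Units.val_mul, Units.val_mul, contra_inv_val]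
    have e := congrArg (fun X => (h : Matrix (Fin n) (Fin n) F) * X * (h : Matrix (Fin n) (Fin n) F)ᵀ) hc
    simp only [Matrix.mul_smul, Matrix.smul_mul] at e
    have e' : (h : Matrix (Fin n) (Fin n) F) * (((contragredient h : GL (Fin n) F) : Matrix (Fin n) (Fin n) F)ᵀ *
        g * ((contragredient h : GL (Fin n) F) : Matrix (Fin n) (Fin n) F)) *
          (h : Matrix (Fin n) (Fin n) F)ᵀ = g := by
      calc _ = ((h : Matrix (Fin n) (Fin n) F) * ((h⁻¹ : GL (Fin n) F) : Matrix (Fin n) (Fin n) F)) * (g : Matrix (Fin n) (Fin n) F) *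
          ((h : Matrix (Fin n) (Fin n) F) * ((h⁻¹ : GL (Fin n) F) : Matrix (Fin n) (Fin n) F))ᵀ := by
            rw [contra_val, transpose_transpose]; simp only [transpose_mul, mul_assoc]
        _ = g := by rw [← Units.val_mul, mul_inv_cancel, Units.val_one, transpose_one, one_mul, mul_one]
    rw [e'] at e
    conv_rhs => rw [e]
    rw [smul_smul, Units.val_inv_eq_inv_val, inv_mul_cancel₀ c.ne_zero, one_smul]

theorem contra_contra (h : GL (Fin n) F) : contragredient (contragredient h) = h := Units.ext (by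
  rw [contra_val, contra_inv_val, transpose_transpose])

variable {κ : Type} [Fintype κ] [DecidableEq κ]

theorem exists_transport {g : GL (Fin n) F} {M : Matrix κ κ F} (e : κ ≃ Fin n) {c : F} (hc : c ≠ 0)
    (h : Congr (g : Matrix (Fin n) (Fin n) F) (c • Matrix.reindex e e M)) :
    ∃ ψ : GL κ F ≃* GL (Fin n) F, (∀ k, k ∈ sim M ↔ ψ k ∈ sim (g : Matrix (Fin n) (Fin n) F)) ∧
      (∀ a, ψ (GeneralLinearGroup.scalar κ a) = GeneralLinearGroup.scalar (Fin n) a) ∧
      ∀ k, GeneralLinearGroup.det (ψ k) = GeneralLinearGroup.det k := by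
  obtain ⟨P', hP'⟩ := h
  refine ⟨(glReindex e).trans (MulAut.conj P'), fun k => ?_, fun a => ?_, fun k => ?_⟩
  · rw [MulEquiv.trans_apply, MulAut.conj_apply, conj_mem_sim_iff, hP', sim_smul hc, glReindex_mem_iff]
  · rw [MulEquiv.trans_apply, glReindex_scalar, MulAut.conj_apply,
      show P' * GeneralLinearGroup.scalar (Fin n) a = GeneralLinearGroup.scalar (Fin n) a * P' from
        (scalar_commute a P').eq.symm, mul_inv_cancel_right]
  · rw [MulEquiv.trans_apply, MulAut.conj_apply, map_mul, map_mul, map_inv, mul_right_comm,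
      mul_inv_cancel, one_mul, det_glReindex]

theorem contra_scalar (a : Fˣ) :
    contragredient (GeneralLinearGroup.scalar (Fin n) a) = GeneralLinearGroup.scalar (Fin n) a⁻¹ :=
  Units.ext (by rw [contra_val, ← map_inv, scalar_val, transpose_smul, transpose_one])

/-- The centraliser of a graph automorphism. -/
theorem centralizer_gr (hn : 2 ≤ n) {g : GL (Fin n) F} {M : Matrix κ κ F} (e : κ ≃ Fin n) {c : F}
    (hc : c ≠ 0) (h : Congr (g : Matrix (Fin n) (Fin n) F) (c • Matrix.reindex e e M)) :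
    Nonempty (↥(Cfsg.inndiagPSL n F ⊓ Subgroup.centralizer {gr g}) ≃* Cfsg.projQuot (sim M)) := by
  obtain ⟨ψ, hψ, hψs, -⟩ := exists_transport e hc h
  let Φ : ↥(sim M) →* ↥(Cfsg.inndiagPSL n F ⊓ Subgroup.centralizer {gr g}) :=
    (((conjHom n F).comp contraHom).comp ψ.toMonoidHom |>.comp (sim M).subtype).codRestrict _ fun k =>
      Subgroup.mem_inf.2 ⟨by rw [inndiag_eq]; exact ⟨_, rfl⟩, (mem_centralizer_gr hn).2 (by
        show contragredient (contragredient (ψ k.1)) ∈ _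
        rw [contra_contra]
        exact (hψ k.1).1 k.2)⟩
  have hsurj : Function.Surjective Φ := by
    rintro ⟨x, hx⟩
    obtain ⟨hx1, hx2⟩ := Subgroup.mem_inf.1 hx
    rw [inndiag_eq] at hx1
    obtain ⟨h', rfl⟩ := hx1
    refine ⟨⟨ψ.symm (contragredient h'), (hψ _).2 ?_⟩, Subtype.ext ?_⟩
    · rw [MulEquiv.apply_symm_apply]
      exact (mem_centralizer_gr hn).1 hx2
    · show conjHom n F (contragredient (ψ (ψ.symm (contragredient h')))) = _
      rw [MulEquiv.apply_symm_apply, contra_contra]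
  have hker : Φ.ker = (Cfsg.Geo.scalars κ F).subgroupOf (sim M) := by
    ext k
    rw [MonoidHom.mem_ker, ← Subtype.coe_inj, Subgroup.mem_subgroupOf, mem_scalars]
    show conjHom n F (contragredient (ψ k.1)) = 1 ↔ _
    rw [← map_one (conjHom n F), conjHom_eq_iff hn]
    constructor
    · rintro ⟨a, ha⟩
      rw [mul_one] at ha
      refine ⟨a⁻¹, ψ.injective ?_⟩
      rw [hψs, ← contra_scalar, ← ha, contra_contra]
    · rintro ⟨a, ha⟩
      exact ⟨a⁻¹, by rw [ha, hψs, contra_scalar, mul_one]⟩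
  exact ⟨((QuotientGroup.quotientMulEquivOfEq hker.symm).trans
    (QuotientGroup.quotientKerEquivOfSurjective Φ hsurj)).symm⟩

/-- The number of classes of inner automorphisms. -/
theorem split_gr (hn : 2 ≤ n) {g : GL (Fin n) F} {M : Matrix κ κ F} (e : κ ≃ Fin n) {c : F}
    (hc : c ≠ 0) (h : Congr (g : Matrix (Fin n) (Fin n) F) (c • Matrix.reindex e e M)) :
    Cfsg.splitClassCount (Cfsg.inndiagPSL n F) (Cfsg.Inn (P n F)) (gr g) =
      ((sim M).map GeneralLinearGroup.det).index := by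
  obtain ⟨ψ, hψ, -, hψd⟩ := exists_transport e hc h
  rw [splitClassCount_eq hn]
  congr 1
  have hdet : ∀ k : GL (Fin n) F, GeneralLinearGroup.det (contragredient k) =
      (GeneralLinearGroup.det k)⁻¹ := fun k => by
    refine eq_inv_of_mul_eq_one_left (Units.ext ?_)
    rw [Units.val_mul, GeneralLinearGroup.val_det_apply, GeneralLinearGroup.val_det_apply, contra_val,
      det_transpose, ← det_mul, ← Units.val_mul, inv_mul_cancel, Units.val_one, det_one, Units.val_one]
  ext a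
  constructor
  · rintro ⟨k, hk, rfl⟩
    rw [← inv_inv (GeneralLinearGroup.det k)]
    refine inv_mem ⟨ψ.symm (contragredient k), (hψ _).2 ?_, ?_⟩
    · rw [MulEquiv.apply_symm_apply]
      exact (mem_centralizer_gr hn).1 (Subgroup.mem_comap.1 hk)
    · rw [← hψd, MulEquiv.apply_symm_apply, hdet]
  · rintro ⟨k, hk, rfl⟩
    rw [← inv_inv (GeneralLinearGroup.det k)]
    refine inv_mem ⟨contragredient (ψ k), Subgroup.mem_comap.2 ((mem_centralizer_gr hn).2 ?_), ?_⟩
    · rw [contra_contra]; exact (hψ k).1 hk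
    · rw [hdet, hψd]

end graph

end Cfsg.Agent.Lib.AutPSL
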