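import Cfsg.Agent.Lib.AutPSL.Field
import Cfsg.Agent.Lib.AutPSL.Graph
import Cfsg.Agent.Lib.Balance.Core2
import Cfsg.Agent.Lib.Balance.FixPow
import Cfsg.Agent.Lib.Classical.Simple
import Cfsg.Agent.Lib.Classical.Order

/-!
Local balance at field automorphisms of `PSL_n(F)`.
-/

set_option autoImplicit false

namespace Cfsg.Agent.Lib.AutPSL

open Matrix

variable {n : ℕ} {F : Type*} [Field F]

theorem center_P (hn : 2 ≤ n) : Subgroup.center (P n F) = ⊥ := by
  haveI : NeZero n := ⟨by omega⟩
  rw [Subgroup.eq_bot_iff_forall]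
  intro a ha
  obtain ⟨s, rfl⟩ := pr_surjective a
  have h : (MulAut.conj (pr s) : MulAut (P n F)) = 1 := MulEquiv.ext fun z => by
    rw [MulAut.conj_apply, ← Subgroup.mem_center_iff.1 ha z, mul_inv_cancel_right, MulAut.one_apply]
  rw [inn_eq] at h
  have hc : Matrix.SpecialLinearGroup.toGL s ∈ Subgroup.center (GL (Fin n) F) := by
    rw [← ker_conjHom hn]; exact h
  refine (QuotientGroup.eq_one_iff s).2 (Subgroup.mem_center_iff.2 fun t => ?_)
  have h' := congrArg Units.val (Subgroup.mem_center_iff.1 hc (Matrix.SpecialLinearGroup.toGL t))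
  exact Subtype.ext h'

/-- Inner automorphisms determine their elements. -/
theorem conj_inj (hn : 2 ≤ n) {a b : P n F} (h : MulAut.conj a = MulAut.conj b) : a = b := by
  have hc : a⁻¹ * b ∈ Subgroup.center (P n F) := Subgroup.mem_center_iff.2 fun z => by
    have := DFunLike.congr_fun h z
    simp only [MulAut.conj_apply] at this
    calc z * (a⁻¹ * b) = a⁻¹ * (a * z * a⁻¹) * b := by group
      _ = a⁻¹ * (b * z * b⁻¹) * b := by rw [this]
      _ = _ := by group
  rw [center_P hn, Subgroup.mem_bot, inv_mul_eq_one] at hc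
  exact hc

/-- An automorphism commuting with an inner one fixes its element. -/
theorem fix_of_commute (hn : 2 ≤ n) {c : MulAut (P n F)} {z : P n F}
    (h : c * MulAut.conj z = MulAut.conj z * c) : c z = z := by
  refine conj_inj hn ?_
  refine MulEquiv.ext fun w => ?_
  have e := DFunLike.congr_fun h (c.symm w)
  simp only [MulAut.mul_apply, MulAut.conj_apply, map_mul, map_inv, MulEquiv.apply_symm_apply] at e
  simpa using e

/-- No inner-diagonal map sends elementary transvections to their graph images. -/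
theorem no_graph_key (hn : 3 ≤ n) (g : GL (Fin n) F)
    (key : ∀ i j : Fin n, i ≠ j → (g : Matrix (Fin n) (Fin n) F) * Matrix.single i j (1 : F) =
      -(Matrix.single j i (1 : F) * (g : Matrix (Fin n) (Fin n) F))) : False := by
  haveI : NeZero n := ⟨by omega⟩
  apply g.ne_zero
  ext k r
  obtain ⟨i, hi⟩ : ∃ i, i ∉ ({k} : Finset (Fin n)) := by
    by_contra hh; push Not at hh
    have := Finset.card_le_card (s := Finset.univ) (fun x _ => hh x)
    simp at this; omega
  obtain ⟨j, hj⟩ : ∃ j, j ∉ ({k, i} : Finset (Fin n)) := by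
    by_contra hh; push Not at hh
    have := (Finset.card_le_card (s := Finset.univ) (fun x _ => hh x)).trans Finset.card_le_two
    simp at this; omega
  simp only [Finset.mem_insert, Finset.mem_singleton, not_or] at hi hj
  have h0 : Matrix.single i k (1 : F) * (g : Matrix (Fin n) (Fin n) F) = 0 := by
    calc Matrix.single i k (1 : F) * (g : Matrix (Fin n) (Fin n) F)
        = Matrix.single i j (1 : F) * (Matrix.single j k (1 : F) * (g : Matrix (Fin n) (Fin n) F)) := by
          rw [← mul_assoc, Matrix.single_mul_single_same, one_mul]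
      _ = (g : Matrix (Fin n) (Fin n) F) * (Matrix.single j i (1 : F) * Matrix.single k j (1 : F)) := by
          rw [← mul_assoc (g : Matrix (Fin n) (Fin n) F), key j i hj.2,
            Matrix.neg_mul, mul_assoc, key k j (Ne.symm hj.1), Matrix.mul_neg, neg_neg]
      _ = 0 := by rw [Matrix.single_mul_single_of_ne (1 : F) j i k hi (1 : F), mul_zero]
  have h2 := congrFun (congrFun h0 i) r
  rw [Matrix.single_mul_apply_same, one_mul] at h2
  exact h2

/-- The standard form without graph part for `n = 2`. -/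
theorem exists_no_graph [Fintype F] (hn : 2 ≤ n) (c : MulAut (P n F)) :
    ∃ (x : GL (Fin n) F) (τ : F ≃+* F) (e : Bool),
      (e = true → 3 ≤ n) ∧
        c = conjHom n F x * D (fieldSL τ) * (if e then D graphSL else 1) := by
  haveI : NeZero n := ⟨by omega⟩
  obtain ⟨x, τ, e, rfl⟩ := std_all hn c
  rcases (show n = 2 ∨ 3 ≤ n by omega) with h2 | h3
  swap
  · exact ⟨x, τ, e, fun _ => h3, rfl⟩
  cases e
  · exact ⟨x, τ, false, fun h => Bool.noConfusion h, rfl⟩
  obtain ⟨w, hw⟩ := graph_eq n F h2
  refine ⟨x * GeneralLinearGroup.map τ.toRingHom w, τ, false, fun h => Bool.noConfusion h, ?_⟩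
  rw [mkAut, if_pos rfl, hw, mul_assoc, field_conj_D, map_mul, ← mul_assoc]
  simp

variable {F₀ : Type*} [Field F₀] (ι : F₀ →+* F)

/-- The subfield group acting by conjugation. -/
noncomputable def subHom (n : ℕ) : S n F₀ →* MulAut (P n F) :=
  (conjHom n F).comp (Matrix.SpecialLinearGroup.toGL.comp (Matrix.SpecialLinearGroup.map ι))

theorem subHom_apply (s : S n F₀) :
    subHom ι n s = MulAut.conj (pr (Matrix.SpecialLinearGroup.map ι s)) := (inn_eq _).symm

theorem subHom_eq_one (hn : 2 ≤ n) {s : S n F₀} :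
    subHom ι n s = 1 ↔ ∃ r : F₀, (s : Matrix (Fin n) (Fin n) F₀) = r • 1 := by
  haveI : NeZero n := ⟨by omega⟩
  constructor
  · intro h
    obtain ⟨c, hc⟩ := (conjHom_eq_iff hn (h := 1)).1 (h.trans (map_one _).symm)
    refine ⟨(s : Matrix (Fin n) (Fin n) F₀) 0 0, Matrix.ext fun i j => ι.injective ?_⟩
    have hc' : ∀ a b, ι ((s : Matrix (Fin n) (Fin n) F₀) a b) = if a = b then (c : F) else 0 := fun a b => by
      have := congrArg (fun g : GL (Fin n) F => (g : Matrix (Fin n) (Fin n) F) a b) hc
      simpa [GeneralLinearGroup.scalar, Matrix.diagonal_apply] using this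
    rw [Matrix.smul_apply, Matrix.one_apply, hc' i j, smul_eq_mul, map_mul, hc' 0 0, if_pos rfl]
    split_ifs <;> simp
  · rintro ⟨r, hr⟩
    have hr0 : r ≠ 0 := fun h => by
      have := s.2
      rw [hr, h, zero_smul, Matrix.det_zero] at this
      exact zero_ne_one this
    refine ((conjHom_eq_iff hn (h := 1)).2 ⟨Units.mk0 (ι r) ((map_ne_zero ι).2 hr0), ?_⟩).trans (map_one _)
    refine Units.ext (Matrix.ext fun i j => ?_)
    show ι ((s : Matrix (Fin n) (Fin n) F₀) i j) = _
    rw [hr, mul_one]
    by_cases h : i = j <;> simp [h, GeneralLinearGroup.scalar]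

theorem center_le_ker (hn : 2 ≤ n) : Subgroup.center (S n F₀) ≤ (subHom ι n).ker := fun s hs => by
  obtain ⟨r, -, hr⟩ := Matrix.SpecialLinearGroup.mem_center_iff.1 hs
  exact (subHom_eq_one ι hn).2 ⟨r, by rw [← hr, Matrix.scalar_apply, Matrix.smul_one_eq_diagonal]⟩

theorem map_el_sub {i j : Fin n} (hij : i ≠ j) (a : F₀) :
    Matrix.SpecialLinearGroup.map ι (el i j hij a) = el i j hij (ι a) := by
  apply Subtype.ext
  ext k l
  show ι ((el i j hij a : S n F₀) k l) = _
  rw [el_coe, el_coe]
  simp [Matrix.one_apply, Matrix.single_apply, apply_ite ι]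

/-- Only Galois elements centralise the subfield group. -/
theorem cent_subHom [Fintype F] (hn : 2 ≤ n) {c : MulAut (P n F)}
    (h : ∀ t ∈ (subHom ι n).range, c * t = t * c) :
    ∃ τ : F ≃+* F, c = D (fieldSL τ) ∧ ∀ a, τ (ι a) = ι a := by
  haveI : NeZero n := ⟨by omega⟩
  have hfix : ∀ (i j : Fin n) (hij : i ≠ j) (a : F₀), c (pr (el i j hij (ι a))) = pr (el i j hij (ι a)) :=
    fun i j hij a => fix_of_commute hn (by
      have := h _ ⟨el i j hij a, rfl⟩
      rwa [subHom_apply, map_el_sub] at this)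
  obtain ⟨x, τ, e, he, rfl⟩ := exists_no_graph hn c
  cases e
  · simp only [Bool.false_eq_true, if_false, mul_one] at hfix ⊢
    have key : ∀ (i j : Fin n) (hij : i ≠ j) (a : F₀), (x : Matrix (Fin n) (Fin n) F) *
        Matrix.single i j (τ (ι a)) = Matrix.single i j (ι a) * (x : Matrix (Fin n) (Fin n) F) := by
      intro i j hij a
      refine conj_el_mul hij hij ?_
      have := hfix i j hij a
      rwa [MulAut.mul_apply, D_pr, map_el] at this
    obtain ⟨k, hk⟩ := Matrix.mem_range_scalar_of_commute_single (M := (x : Matrix (Fin n) (Fin n) F))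
      fun i j hij => by
        have := key i j hij 1
        rw [map_one, map_one] at this
        exact this.symm
    have hg : (x : Matrix (Fin n) (Fin n) F) = k • (1 : Matrix (Fin n) (Fin n) F) := by
      rw [← hk, Matrix.scalar_apply, Matrix.smul_one_eq_diagonal]
    have hk0 : k ≠ 0 := fun h0 => x.ne_zero (by rw [hg, h0, zero_smul])
    have hx1 : conjHom n F x = 1 := by
      refine ((conjHom_eq_iff hn (h := 1)).2 ⟨Units.mk0 k hk0, Units.ext ?_⟩).trans (map_one _)
      rw [mul_one, hg, scalar_val]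
      rfl
    refine ⟨τ, by rw [hx1, one_mul], fun a => ?_⟩
    obtain ⟨i, j, hij⟩ : ∃ i j : Fin n, i ≠ j :=
      ⟨⟨0, by omega⟩, ⟨1, by omega⟩, by simp [Fin.ext_iff]⟩
    have h1 := congrFun (congrFun (key i j hij a) i) j
    rw [hg, Matrix.smul_mul, Matrix.one_mul, Matrix.mul_smul, Matrix.mul_one, Matrix.smul_apply,
      Matrix.smul_apply, Matrix.single_apply, Matrix.single_apply, if_pos ⟨rfl, rfl⟩,
      if_pos ⟨rfl, rfl⟩] at h1
    exact (smul_right_injective F hk0) h1
  · exfalso
    refine no_graph_key (he rfl) x fun i j hij => ?_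
    have h2 : D (conjSL x) (pr (el i j hij (-1 : F))) = pr (el j i hij.symm (1 : F)) := by
      have h1 := hfix j i hij.symm 1
      rw [map_one, if_pos rfl, MulAut.mul_apply, MulAut.mul_apply, D_pr graphSL, graph_el, D_pr (fieldSL τ),
        map_el, map_neg, map_one] at h1
      exact h1
    have := conj_el_mul hij hij.symm h2
    rw [show Matrix.single i j (-1 : F) = -Matrix.single i j 1 from by
      ext r s; simp [Matrix.single_apply]; split_ifs <;> simp, Matrix.mul_neg] at this
    rw [← this, neg_neg]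

/-- Normal subgroups of coprime order in the image of the subfield group. -/
theorem bot_of_subHom [Fintype F₀] [Finite (MulAut (P n F))] (hn : 2 ≤ n) {p r : ℕ} [Fact p.Prime] [CharP F₀ r]
    (hr : r.Prime) (hpr : p ≠ r) (hdvd : p ∣ Nat.card (subHom ι n).range)
    (hcent : ∀ c, (orderOf c).Coprime p → (∀ t ∈ (subHom ι n).range, c * t = t * c) → c = 1)
    {R : Subgroup (MulAut (P n F))} (hR : R ≤ (subHom ι n).range)
    (hRn : ∀ t ∈ (subHom ι n).range, ∀ r ∈ R, t * r * t⁻¹ ∈ R) (hc : (Nat.card R).Coprime p) : R = ⊥ := by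
  classical
  haveI : NeZero n := ⟨by omega⟩
  haveI : Fact r.Prime := ⟨hr⟩
  have hp : p.Prime := Fact.out
  by_cases hsmall : n = 2 ∧ Fintype.card F₀ ≤ 3
  swap
  · haveI : IsSimpleGroup (P n F₀) := by
      rcases (show n = 2 ∨ 3 ≤ n by omega) with rfl | h3
      · exact Matrix.ProjectiveSpecialLinearGroup.rank_two_simple
          (by rw [Nat.card_eq_fintype_card]; omega)
      · exact Classical.isSimpleGroup_PSL (by rwa [Fintype.card_fin])
    have hH : ∀ K : Subgroup (S n F₀), K.Normal → K ≤ (subHom ι n).ker ∨ K ⊔ (subHom ι n).ker = ⊤ := by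
      intro K hK
      rcases (hK.map pr pr_surjective).eq_bot_or_eq_top with h | h
      · left
        refine le_trans ?_ (center_le_ker ι hn)
        rw [Subgroup.map_eq_bot_iff, QuotientGroup.ker_mk'] at h
        exact h
      · right
        rw [eq_top_iff]
        refine le_trans ?_ (sup_le_sup_left (center_le_ker ι hn) K)
        have := Subgroup.comap_map_eq (pr (n := n) (F := F₀)) K
        rw [h, Subgroup.comap_top, QuotientGroup.ker_mk'] at this
        exact this.le
    rcases Balance.bot_or_range (subHom ι n) hH hR hRn with h | h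
    · exact h
    · exfalso
      rw [h] at hc
      exact hp.one_lt.ne' (Nat.eq_one_of_dvd_coprimes hc hdvd dvd_rfl)
  obtain ⟨rfl, hq3⟩ := hsmall
  have hT : Nat.card (subHom ι 2).range ∣ Fintype.card F₀ * (Fintype.card F₀ ^ 2 - 1) := by
    rw [← Classical.card_SL_two]
    exact Subgroup.card_range_dvd _
  have hRT : Nat.card R ∣ Nat.card (subHom ι 2).range := Subgroup.card_dvd_of_le hR
  obtain ⟨k, -, hk⟩ := FiniteField.card F₀ r
  have hq2 : 2 ≤ Fintype.card F₀ := Fintype.one_lt_card
  rcases (show Fintype.card F₀ = 2 ∨ Fintype.card F₀ = 3 by omega) with hq | hq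
  · -- at most two elements, hence central
    have hr2 : r = 2 := (Nat.prime_dvd_prime_iff_eq hr Nat.prime_two).1
      (by rw [← hq, hk]; exact dvd_pow_self _ k.ne_zero)
    rw [hq] at hT
    have hp3 : p = 3 := by
      have h6 : p ∣ 2 * 3 := hdvd.trans hT
      rcases (Nat.Prime.dvd_mul hp).1 h6 with h | h
      · exact absurd ((Nat.prime_dvd_prime_iff_eq hp Nat.prime_two).1 h) (hr2 ▸ hpr)
      · exact (Nat.prime_dvd_prime_iff_eq hp Nat.prime_three).1 h
    have hR2 : Nat.card R ∣ 2 := by
      refine Nat.Coprime.dvd_of_dvd_mul_right ?_ (hRT.trans (hT.trans (dvd_refl (2 * 3))))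
      rwa [hp3] at hc
    refine (Subgroup.eq_bot_iff_forall _).2 fun z hz => ?_
    by_contra hz1
    refine hz1 (hcent z ?_ fun t ht => ?_)
    · refine hc.of_dvd_left ?_
      rw [show orderOf z = orderOf (⟨z, hz⟩ : R) from Subgroup.orderOf_coe (⟨z, hz⟩ : R)]
      exact orderOf_dvd_natCard _
    · have hmem := hRn t ht z hz
      have hcard : Nat.card R = 2 := by
        rcases (Nat.dvd_prime Nat.prime_two).1 hR2 with h | h
        · rw [Subgroup.card_eq_one] at h
          rw [h, Subgroup.mem_bot] at hz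
          exact absurd hz hz1
        · exact h
      obtain ⟨y, -, hy⟩ := Nat.card_eq_two_iff' (1 : R) |>.1 hcard
      have e1 : (⟨z, hz⟩ : R) = y := hy _ fun h => hz1 (congrArg Subtype.val h)
      have e2 : (⟨t * z * t⁻¹, hmem⟩ : R) = y := hy _ fun h => hz1 (by
        have h' : t * z * t⁻¹ = 1 := congrArg Subtype.val h
        rwa [conj_eq_one_iff] at h')
      have e3 : t * z * t⁻¹ = z := congrArg Subtype.val (e2.trans e1.symm)
      exact (mul_inv_eq_iff_eq_mul.1 e3).symm
  · -- a normal subgroup of order three would contain both root subgroups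
    have hr3 : r = 3 := (Nat.prime_dvd_prime_iff_eq hr Nat.prime_three).1
      (by rw [← hq, hk]; exact dvd_pow_self _ k.ne_zero)
    rw [hq] at hT
    have hp2 : p = 2 := by
      have h24 : p ∣ 3 * 2 ^ 3 := hdvd.trans hT
      rcases (Nat.Prime.dvd_mul hp).1 h24 with h | h
      · exact absurd ((Nat.prime_dvd_prime_iff_eq hp Nat.prime_three).1 h) (hr3 ▸ hpr)
      · exact (Nat.prime_dvd_prime_iff_eq hp Nat.prime_two).1 (hp.dvd_of_dvd_pow h)
    have hR3 : Nat.card R ∣ 3 := by
      refine Nat.Coprime.dvd_of_dvd_mul_right ?_ (hRT.trans (hT.trans (dvd_refl (3 * 2 ^ 3))))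
      rw [hp2] at hc
      exact hc.pow_right 3
    rcases (Nat.dvd_prime Nat.prime_three).1 hR3 with h | hcard
    · exact Subgroup.card_eq_one.1 h
    exfalso
    set T := (subHom ι 2).range with hTdef
    haveI hN : (R.subgroupOf T).Normal := ⟨fun z hz t => hRn t t.2 z hz⟩
    have hidx : Nat.card (T ⧸ R.subgroupOf T) ∣ 2 ^ 3 := by
      have h := Subgroup.card_eq_card_quotient_mul_card_subgroup (R.subgroupOf T)
      rw [Nat.card_congr (Subgroup.subgroupOfEquivOfLe hR).toEquiv, hcard] at h
      refine Nat.dvd_of_mul_dvd_mul_right (by norm_num : 0 < 3) ?_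
      rw [← h]; exact hT
    have hthree : ∀ t ∈ T, t ^ 3 = 1 → t ∈ R := fun t ht h3 => by
      have h1 : orderOf (QuotientGroup.mk (⟨t, ht⟩ : T) : T ⧸ R.subgroupOf T) ∣ 3 :=
        orderOf_dvd_of_pow_eq_one (by
          rw [← QuotientGroup.mk_pow, show (⟨t, ht⟩ : T) ^ 3 = 1 from Subtype.ext h3, QuotientGroup.mk_one])
      have h2 := (orderOf_dvd_natCard (QuotientGroup.mk (⟨t, ht⟩ : T) : T ⧸ R.subgroupOf T)).trans hidx
      exact (QuotientGroup.eq_one_iff (⟨t, ht⟩ : T)).1
        (orderOf_eq_one_iff.1 (Nat.eq_one_of_dvd_coprimes (by norm_num : Nat.Coprime 3 (2 ^ 3)) h1 h2))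
    have h31 : ∀ (i j : Fin 2) (hij : i ≠ j) (a : F₀), subHom ι 2 (el i j hij a) ∈ R := fun i j hij a =>
      hthree _ ⟨_, rfl⟩ (by
        rw [← map_pow]
        have h30 : (3 : F₀) = 0 := by
          haveI : CharP F₀ 3 := hr3 ▸ ‹CharP F₀ r›
          exact_mod_cast CharP.cast_eq_zero F₀ 3
        have e : (el i j hij a : S 2 F₀) ^ 3 = 1 := by
          apply Subtype.ext
          show ((el i j hij a : S 2 F₀) : Matrix (Fin 2) (Fin 2) F₀) ^ 3 = 1
          rw [el_coe, pow_succ, pow_two]
          simp only [mul_add, add_mul, mul_one, one_mul, Matrix.single_mul_single_of_ne _ _ _ _ hij.symm,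
            zero_mul, add_zero]
          rw [add_assoc, add_assoc, ← Matrix.single_add, ← Matrix.single_add,
            show a + (a + a) = 3 * a by ring, h30, zero_mul, Matrix.single_zero, add_zero]
        rw [e, map_one])
    have hord : orderOf (subHom ι 2 (el 0 1 zero_ne_one 1)) = 3 := by
      have h1 : orderOf (⟨_, h31 0 1 zero_ne_one 1⟩ : R) ∣ 3 := hcard ▸ orderOf_dvd_natCard _
      rw [Subgroup.orderOf_mk] at h1
      rcases (Nat.dvd_prime Nat.prime_three).1 h1 with h | h
      · obtain ⟨c, hc'⟩ := (subHom_eq_one ι hn).1 (orderOf_eq_one_iff.1 h)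
        have := congrFun (congrFun hc' 0) 1
        simp [el_coe] at this
      · exact h
    have hgen : R = Subgroup.zpowers (subHom ι 2 (el 0 1 zero_ne_one 1)) :=
      (Subgroup.eq_of_le_of_card_ge (Subgroup.zpowers_le.2 (h31 0 1 zero_ne_one 1))
        (by rw [Nat.card_zpowers, hord, hcard])).symm
    have hy := h31 1 0 one_ne_zero 1
    rw [hgen, ← mem_powers_iff_mem_zpowers] at hy
    have e : ∀ j : ℕ, (el 0 1 zero_ne_one (1 : F₀) : S 2 F₀) ^ j = el 0 1 zero_ne_one (j : F₀) := by
      intro j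
      induction j with
      | zero => rw [pow_zero, Nat.cast_zero, el, Matrix.SpecialLinearGroup.transvection_coeff_zero]
      | succ j ih =>
        rw [pow_succ, ih, Nat.cast_succ]
        apply Subtype.ext
        rw [Matrix.SpecialLinearGroup.coe_mul, el_coe, el_coe, el_coe]
        simp only [mul_add, add_mul, mul_one, one_mul,
          Matrix.single_mul_single_of_ne _ _ _ _ (one_ne_zero : (1 : Fin 2) ≠ 0), add_zero, Matrix.single_add]
        abel
    obtain ⟨j, hj⟩ := hy
    replace hj : subHom ι 2 (el 0 1 zero_ne_one (j : F₀)) = subHom ι 2 (el 1 0 one_ne_zero 1) := by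
      rw [← e, map_pow]; exact hj
    rw [subHom_apply, subHom_apply, map_el_sub, map_el_sub] at hj
    have h' := congrArg Subtype.val (eq_of_pr_eq (el_nilpotent _ _) (el_nilpotent _ _) (conj_inj hn hj))
    have := congrFun (congrFun h' 1) 0
    simp [el_coe] at this

/-- Local balance at a standard field automorphism. -/
theorem field_core [Fintype F] (hn : 2 ≤ n) {p r : ℕ} [Fact p.Prime] [Fact r.Prime] [CharP F r] (hpr : p ≠ r)
    {σ : F ≃+* F} (hσ : orderOf σ = p) (𝒢 : Subgroup (MulAut (P n F))) (hinn : Cfsg.Inn (P n F) ≤ 𝒢) :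
    Cfsg.pPrimeCore p ↥(𝒢 ⊓ Subgroup.centralizer {(D (fieldSL σ) : MulAut (P n F))}) ≠ ⊥ ↔
      Nat.Coprime p (Nat.card ↥(Cfsg.Inn (P n F) ⊓
        Subgroup.centralizer {(D (fieldSL σ) : MulAut (P n F))})) := by
  classical
  haveI : NeZero n := ⟨by omega⟩
  haveI : Finite (MulAut (P n F)) := Finite.of_injective _ DFunLike.coe_injective
  have hp : p.Prime := Fact.out
  let K : Subfield F := RingHom.eqLocusField σ.toRingHom (RingHom.id F)
  letI : Fintype K := Fintype.ofFinite K
  let ι : K →+* F := K.subtype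
  have hι : ∀ c : F, σ c = c ↔ c ∈ Set.range ι := fun c =>
    ⟨fun h => ⟨⟨c, h⟩, rfl⟩, by rintro ⟨a, rfl⟩; exact a.2⟩
  haveI : CharP K r := (RingHom.charP_iff ι ι.injective r).2 ‹_›
  set S₀ : MulAut (P n F) := D (fieldSL σ) with hS₀
  set M := Cfsg.Inn (P n F) ⊓ Subgroup.centralizer {S₀} with hM
  set T := (subHom ι n).range with hT
  have hfix : ∀ s : S n K, fieldSL σ (Matrix.SpecialLinearGroup.map ι s) = Matrix.SpecialLinearGroup.map ι s :=
    fun s => Subtype.ext (Matrix.ext fun i j => (s.1 i j).2)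
  have hTM : T ≤ M := by
    rintro _ ⟨s, rfl⟩
    refine Subgroup.mem_inf.2 ⟨⟨pr (Matrix.SpecialLinearGroup.map ι s), (subHom_apply ι s).symm⟩, ?_⟩
    rw [Subgroup.mem_centralizer_singleton_iff, subHom_apply]
    refine MulEquiv.ext fun z => ?_
    simp only [MulAut.mul_apply, MulAut.conj_apply, map_mul, map_inv, hS₀, D_pr, hfix]
  -- elements of `M`
  have hMelt : ∀ m ∈ M, ∃ k : GL (Fin n) K, m = conjHom n F (GeneralLinearGroup.map ι k) := by
    rintro m ⟨⟨z, rfl⟩, hm⟩
    obtain ⟨s, rfl⟩ := pr_surjective z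
    rw [inn_eq] at hm ⊢
    obtain ⟨c, h, hh, e⟩ := (field_centralizer_iff hn hσ hp.pos).1
      (show Matrix.SpecialLinearGroup.toGL s ∈ (Subgroup.centralizer {S₀}).comap (conjHom n F) from hm)
    have hent : ∀ i j, ∃ a : K, ι a = h i j := fun i j =>
      (hι _).1 (congrArg (fun M : GL (Fin n) F => M i j) hh)
    choose a ha using hent
    have hm' : (Matrix.of a).map ι = (h : Matrix (Fin n) (Fin n) F) := Matrix.ext ha
    have hdet : (Matrix.of a).det ≠ 0 := fun h0 => by
      have := congrArg ι h0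
      rw [RingHom.map_det, map_zero] at this
      exact (GeneralLinearGroup.det h).ne_zero (by rw [GeneralLinearGroup.val_det_apply, ← hm']; exact this)
    refine ⟨GeneralLinearGroup.mkOfDetNeZero _ hdet, ?_⟩
    show conjHom n F _ = _
    exact (conjHom_eq_iff hn).2 ⟨c, by rw [e]; congr 1; exact Units.ext hm'.symm⟩
  have hTn : ∀ m ∈ M, ∀ t ∈ T, m * t * m⁻¹ ∈ T := by
    rintro m hm _ ⟨s, rfl⟩
    obtain ⟨k, rfl⟩ := hMelt m hm
    refine ⟨conjElt k s, ?_⟩
    show conjHom n F _ = conjHom n F (GeneralLinearGroup.map ι k) * conjHom n F _ * (conjHom n F (GeneralLinearGroup.map ι k))⁻¹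
    rw [← map_inv (conjHom n F), ← map_mul (conjHom n F), ← map_mul (conjHom n F)]
    congr 1
    refine Units.ext ?_
    show ((conjElt k s : S n K) : Matrix (Fin n) (Fin n) K).map ι = _
    rw [conjElt_coe, Matrix.map_mul, Matrix.map_mul]
    rfl
  have hpow : ∀ m ∈ M, m ^ (Fintype.card K - 1) ∈ T := by
    intro m hm
    obtain ⟨k, rfl⟩ := hMelt m hm
    have hd : ((k ^ (Fintype.card K - 1) : GL (Fin n) K) : Matrix (Fin n) (Fin n) K).det = 1 := by
      rw [Units.val_pow_eq_pow_val, det_pow]
      exact FiniteField.pow_card_sub_one_eq_one _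
        (by rw [← GeneralLinearGroup.val_det_apply]; exact (GeneralLinearGroup.det k).ne_zero)
    refine ⟨⟨_, hd⟩, ?_⟩
    show conjHom n F _ = (conjHom n F (GeneralLinearGroup.map ι k)) ^ (Fintype.card K - 1)
    rw [← map_pow (conjHom n F), ← map_pow (GeneralLinearGroup.map ι)]
    congr 1
    exact Units.ext rfl
  obtain ⟨i, j, hij⟩ : ∃ i j : Fin n, i ≠ j :=
    ⟨⟨0, by omega⟩, ⟨1, by omega⟩, by simp [Fin.ext_iff]⟩
  have hroot : subHom ι n (el i j hij 1) ≠ 1 := fun h => by
    obtain ⟨c, hc⟩ := (subHom_eq_one ι hn).1 h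
    have := congrFun (congrFun hc i) j
    simp [el_coe, hij] at this
  have hne : M ≠ ⊥ := fun h => hroot (by
    have := hTM ⟨el i j hij 1, rfl⟩
    rwa [h, Subgroup.mem_bot] at this)
  have hMn : ∀ c ∈ 𝒢 ⊓ Subgroup.centralizer {S₀}, ∀ z ∈ M, c * z * c⁻¹ ∈ M := by
    rintro c ⟨-, hc⟩ z ⟨⟨a, rfl⟩, hz⟩
    exact Subgroup.mem_inf.2 ⟨⟨c a, MulEquiv.ext fun w => by simp⟩,
      mul_mem (mul_mem hc hz) (inv_mem hc)⟩
  have hcent : ∀ c, (orderOf c).Coprime p → (∀ t ∈ T, c * t = t * c) → c = 1 := by
    intro c hc ht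
    obtain ⟨τ, rfl, hτ⟩ := cent_subHom ι hn ht
    obtain ⟨j, hj⟩ := Balance.exists_pow_of_fix σ τ fun x hx => by
      obtain ⟨a, rfl⟩ := (hι x).1 hx
      exact hτ a
    refine Balance.eq_one_of_pow hp (σ := (D (fieldSL σ) : MulAut (P n F))) (j := j) ?_
      (by rw [hj, map_pow, map_pow]) hc
    rw [orderOf_fieldSL hn, hσ]
  refine Balance.core_ne_bot_iff' (p := p) (le_inf (inf_le_left.trans hinn) inf_le_right) hMn hTM hne
    (fun hpM R hR hRn hc => ?_) fun c _ hc ht => hcent c hc ht
  -- the divisibility passes to `T`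
  have hpT : p ∣ Nat.card T := by
    by_contra hnT
    obtain ⟨m, hm⟩ := exists_prime_orderOf_dvd_card' (G := M) p hpM
    have hq : p ∣ Fintype.card K - 1 := by
      by_contra hnq
      refine hnT ?_
      have hcop : (Fintype.card K - 1).Coprime p := (hp.coprime_iff_not_dvd.2 hnq).symm
      have hord : orderOf (m.1 ^ (Fintype.card K - 1)) = p := by
        rw [Nat.Coprime.orderOf_pow]
        · rw [Subgroup.orderOf_coe, hm]
        · rw [Subgroup.orderOf_coe, hm]; exact hcop.symm
      have h := orderOf_dvd_natCard (⟨_, hpow m.1 m.2⟩ : T)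
      rwa [Subgroup.orderOf_mk, hord] at h
    obtain ⟨a, ha⟩ := exists_prime_orderOf_dvd_card' (G := Kˣ) p
      (by rw [Nat.card_units, Nat.card_eq_fintype_card]; exact hq)
    have haval : (a : K) ≠ 1 := fun h => by
      rw [Units.val_eq_one] at h
      rw [h, orderOf_one] at ha
      exact hp.one_lt.ne ha
    -- a witness of order `p`
    obtain ⟨w, hw1, hw2⟩ : ∃ w : S n K, subHom ι n w ≠ 1 ∧ (subHom ι n w) ^ p = 1 := by
      by_cases h22 : n = 2 ∧ p = 2
      · obtain ⟨h2, rfl⟩ := h22
        subst h2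
        refine ⟨⟨!![0, 1; -1, 0], by simp [Matrix.det_fin_two]⟩, fun h => ?_, ?_⟩
        · obtain ⟨c, hc'⟩ := (subHom_eq_one ι hn).1 h
          have := congrFun (congrFun hc' 0) 1
          simp at this
        · refine (map_pow (subHom ι 2) _ 2).symm.trans ((subHom_eq_one ι hn).2 ⟨-1, ?_⟩)
          show (!![0, 1; -1, 0] : Matrix (Fin 2) (Fin 2) K) ^ 2 = _
          ext r s
          fin_cases r <;> fin_cases s <;> simp [pow_two, Matrix.mul_apply, Fin.sum_univ_two]
      · refine ⟨Matrix.SpecialLinearGroup.diag2n hij (a : K) a.ne_zero, fun h => ?_, ?_⟩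
        · obtain ⟨c, hc'⟩ := (subHom_eq_one ι hn).1 h
          have hd : ∀ k, (if k = i then (a : K) else if k = j then (a : K)⁻¹ else 1) = c := fun k => by
            have := congrFun (congrFun hc' k) k
            simpa [Matrix.SpecialLinearGroup.diag2n_coe] using this
          have ei := hd i
          rw [if_pos rfl] at ei
          rcases (show n = 2 ∨ 3 ≤ n by omega) with h2 | h3
          · have ej := hd j
            rw [if_neg hij.symm, if_pos rfl] at ej
            have hsq : a ^ 2 = 1 := Units.ext (by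
              rw [Units.val_pow_eq_pow_val, Units.val_one, pow_two]
              have e : (a : K) = (a : K)⁻¹ := ei.trans ej.symm
              nth_rewrite 1 [e]
              exact inv_mul_cancel₀ a.ne_zero)
            have := orderOf_dvd_of_pow_eq_one hsq
            rw [ha] at this
            exact h22 ⟨h2, (Nat.prime_dvd_prime_iff_eq hp Nat.prime_two).1 this⟩
          · obtain ⟨k, hk⟩ : ∃ k, k ∉ ({i, j} : Finset (Fin n)) := by
              by_contra hh; push Not at hh
              have := (Finset.card_le_card (s := Finset.univ) (fun x _ => hh x)).trans Finset.card_le_two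
              rw [Finset.card_univ, Fintype.card_fin] at this; omega
            simp only [Finset.mem_insert, Finset.mem_singleton, not_or] at hk
            have ek := hd k
            rw [if_neg hk.1, if_neg hk.2] at ek
            exact haval (ei.trans ek.symm)
        · rw [← map_pow]
          refine (subHom_eq_one ι hn).2 ⟨1, ?_⟩
          rw [one_smul, Matrix.SpecialLinearGroup.coe_pow, Matrix.SpecialLinearGroup.diag2n_coe,
            Matrix.diagonal_pow, ← Matrix.diagonal_one]
          congr 1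
          funext k
          have hap : (a : K) ^ p = 1 := by
            rw [← Units.val_pow_eq_pow_val, ← ha, pow_orderOf_eq_one, Units.val_one]
          simp only [Pi.pow_apply]
          split_ifs
          · exact hap
          · rw [inv_pow, hap, inv_one]
          · exact one_pow p
    refine hnT ?_
    let z : T := ⟨subHom ι n w, ⟨w, rfl⟩⟩
    have h : orderOf (subHom ι n w) ∣ Nat.card T := (Subgroup.orderOf_coe z).symm ▸ orderOf_dvd_natCard z
    rwa [orderOf_eq_prime hw2 hw1] at h
  exact Balance.bot_of_normal hTM hTn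
    (fun R hR hRn hc => bot_of_subHom ι hn (r := r) Fact.out hpr hpT hcent hR hRn hc)
    (fun c _ hc ht => hcent c hc ht) hR hRn hc

end Cfsg.Agent.Lib.AutPSL
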