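import Cfsg.Agent.Lib.AutPSL.BalanceGraph
import Cfsg.Agent.Lib.AutPSL.BalanceField

/-!
Local balance at outer automorphisms of prime order of `PSL_n(F)`.
-/

set_option autoImplicit false

namespace Cfsg.Agent.Lib.AutPSL

open Matrix

variable {n : ℕ} {F : Type*} [Field F] [Fintype F]

omit [Fintype F] in
theorem isFieldAut_iff {φ : MulAut (P n F)} :
    Cfsg.IsFieldAutPSL φ ↔ ∃ σ : F ≃+* F, φ = D (fieldSL σ) :=
  exists_congr fun _ => stdField_iff

omit [Fintype F] in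
/-- Conjugation does not affect the criterion. -/
theorem exists_transfer [Finite (MulAut (P n F))] (hn : 2 ≤ n) (𝒢 : Subgroup (MulAut (P n F)))
    (hinn : Cfsg.Inn (P n F) ≤ 𝒢) (a x S₀ : MulAut (P n F)) (h : a * x * a⁻¹ = S₀) (p : ℕ) :
    ∃ 𝒢' : Subgroup (MulAut (P n F)), Cfsg.Inn (P n F) ≤ 𝒢' ∧
      (Cfsg.pPrimeCore p ↥(𝒢 ⊓ Subgroup.centralizer {x}) ≠ ⊥ ↔
        Cfsg.pPrimeCore p ↥(𝒢' ⊓ Subgroup.centralizer {S₀}) ≠ ⊥) ∧
      Nat.card ↥(MonoidHom.eqLocus x.toMonoidHom (MonoidHom.id (P n F))) =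
        Nat.card ↥(Cfsg.Inn (P n F) ⊓ Subgroup.centralizer {S₀}) := by
  subst h
  obtain ⟨E⟩ := Balance.centralizer_conj_equiv 𝒢 a x
  refine ⟨𝒢.map (MulAut.conj a).toMonoidHom, ?_, Balance.core_ne_bot_congr E, ?_⟩
  · rintro _ ⟨k, rfl⟩
    exact ⟨MulAut.conj (a.symm k), hinn ⟨_, rfl⟩, MulEquiv.ext fun w => by simp⟩
  · obtain ⟨E'⟩ := Balance.centralizer_conj_equiv (Cfsg.Inn (P n F)) a x
    have hmap : (Cfsg.Inn (P n F)).map (MulAut.conj a).toMonoidHom = Cfsg.Inn (P n F) := by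
      apply le_antisymm
      · rintro _ ⟨_, ⟨k, rfl⟩, rfl⟩
        exact ⟨a k, MulEquiv.ext fun w => by simp⟩
      · rintro _ ⟨k, rfl⟩
        exact ⟨MulAut.conj (a.symm k), ⟨_, rfl⟩, MulEquiv.ext fun w => by simp⟩
    rw [← Balance.card_inn_inf (center_P hn), Nat.card_congr E'.toEquiv, hmap]

omit [Fintype F] in
theorem two_ne_zero_of_char {r : ℕ} [Fact r.Prime] [CharP F r] (h : r ≠ 2) : (2 : F) ≠ 0 := by
  intro h0
  have h1 : ((2 : ℕ) : F) = 0 := by exact_mod_cast h0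
  exact h ((Nat.prime_dvd_prime_iff_eq Fact.out Nat.prime_two).1 ((CharP.cast_eq_zero_iff F r 2).1 h1))

/-- Local balance. -/
theorem balance {r : ℕ} [Fact r.Prime] [CharP F r] (hn : 2 ≤ n)
    (𝒢 : Subgroup (MulAut (P n F))) (hinn : ∀ k : P n F, MulAut.conj k ∈ 𝒢) {p : ℕ} [Fact p.Prime]
    (hpr : p ≠ r) {β : MulAut (P n F)} (hord : orderOf β = p) (hnot : ¬ Cfsg.IsInnerDiagonalAutPSL β) :
    Cfsg.pPrimeCore p ↥(𝒢 ⊓ Subgroup.centralizer {β}) ≠ ⊥ ↔
      ((∃ γ φ : MulAut (P n F), Cfsg.IsInnerDiagonalAutPSL γ ∧ Cfsg.IsFieldAutPSL φ ∧ β = φ.trans γ) ∧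
        Nat.Coprime p (Nat.card ↥(MonoidHom.eqLocus β.toMonoidHom (MonoidHom.id (P n F))))) := by
  classical
  haveI : NeZero n := ⟨by omega⟩
  haveI : Finite (MulAut (P n F)) := Finite.of_injective _ DFunLike.coe_injective
  have hp : p.Prime := Fact.out
  have hinn' : Cfsg.Inn (P n F) ≤ 𝒢 := fun z hz => by obtain ⟨k, rfl⟩ := hz; exact hinn k
  obtain ⟨g, σ, e, he, hβ⟩ := exists_no_graph hn β
  cases e
  · -- field type
    replace hβ : β = conjHom n F g * D (fieldSL σ) := by simpa using hβ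
    subst hβ
    have hσ1 : σ ≠ 1 := fun h => hnot (innerDiag_iff.2 ⟨g, by rw [h, map_one, map_one, mul_one]; rfl⟩)
    have hpow : (conjHom n F g * D (fieldSL σ)) ^ p = 1 := by rw [← hord]; exact pow_orderOf_eq_one _
    have hσp : orderOf σ = p := orderOf_eq_prime (by
      have e := hpow
      rw [tw_pow (mapGL σ) (conjHom n F) _ (twist_field σ) g p, ← map_pow, ← map_pow] at e
      exact (conj_field_trivial hn e).1) hσ1
    obtain ⟨a, ha⟩ := exists_conj_of_field hn hσp hp.pos g hpow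
    obtain ⟨𝒢', hin', hcore, hcard⟩ := exists_transfer hn 𝒢 hinn' (conjHom n F a)⁻¹
      (conjHom n F g * D (fieldSL σ)) (D (fieldSL σ)) (by rw [ha]; group) p
    have hft : ∃ γ φ : MulAut (P n F), Cfsg.IsInnerDiagonalAutPSL γ ∧ Cfsg.IsFieldAutPSL φ ∧
        conjHom n F g * D (fieldSL σ) = φ.trans γ :=
      ⟨conjHom n F g, D (fieldSL σ), innerDiag_iff.2 ⟨g, rfl⟩, isFieldAut_iff.2 ⟨σ, rfl⟩, rfl⟩
    rw [and_iff_right hft, hcore, hcard]
    exact field_core hn (r := r) hpr hσp 𝒢' hin'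
  · -- graph type
    have h3 : 3 ≤ n := he rfl
    replace hβ : β = conjHom n F g * D (fieldSL σ) * D graphSL := by simpa using hβ
    subst hβ
    refine iff_of_false (not_not.2 ?_) fun ⟨⟨γ, φ, hγ, hφ, h⟩, _⟩ => ?_
    swap
    · obtain ⟨y, rfl⟩ := innerDiag_iff.1 hγ
      obtain ⟨τ, rfl⟩ := isFieldAut_iff.1 hφ
      have h' : conjHom n F g * D (fieldSL σ) * D graphSL = conjHom n F y * D (fieldSL τ) := h
      refine conj_field_ne_graph h3 (mapGL σ⁻¹ (g⁻¹ * y)) (σ⁻¹ * τ) ?_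
      rw [map_mul fieldSL, map_mul D, ← mul_assoc]
      show conjHom n F (mapGL σ⁻¹ (g⁻¹ * y)) * D (fieldSL σ⁻¹) * D (fieldSL τ) = _
      rw [← show D (fieldSL σ⁻¹) * conjHom n F (g⁻¹ * y) =
          conjHom n F (mapGL σ⁻¹ (g⁻¹ * y)) * D (fieldSL σ⁻¹) from field_conj_D σ⁻¹ (g⁻¹ * y),
        map_mul (conjHom n F), map_inv (conjHom n F), map_inv fieldSL, map_inv D, mul_assoc, mul_assoc, ← h']
      group
    have hp2 : p = 2 := by
      rcases hp.eq_two_or_odd' with h2 | ⟨k, hk⟩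
      · exact h2
      exfalso
      have hpow : (conjHom n F g * D (fieldSL σ) * D graphSL) ^ p = 1 := by
        rw [← hord]; exact pow_orderOf_eq_one _
      rw [mul_assoc, tw_pow ((mapGL σ).comp contraHom) (conjHom n F) _ (twist_graphField σ) g p,
        (show Commute (D (fieldSL σ) : MulAut (P n F)) (D graphSL) from (graph_field_D σ).symm).mul_pow, hk] at hpow
      have hg : (D graphSL : MulAut (P n F)) ^ (2 * k + 1) = D graphSL := by
        rw [pow_succ, pow_mul, pow_two, D_graph_sq, one_pow, one_mul]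
      rw [hg, ← map_pow, ← map_pow, ← mul_assoc, mul_eq_one_iff_eq_inv,
        inv_eq_of_mul_eq_one_right D_graph_sq] at hpow
      exact conj_field_ne_graph h3 _ _ hpow
    subst hp2
    have h2 : (2 : F) ≠ 0 := two_ne_zero_of_char (r := r) (Ne.symm hpr)
    rcases eq_or_ne σ 1 with rfl | hσ1
    · have e : conjHom n F g * D (fieldSL (1 : F ≃+* F)) * D graphSL = gr g := by
        rw [map_one, map_one, mul_one]; rfl
      rw [e] at hord
      rw [e]
      exact graph_core h3 h2 hord 𝒢 hinn'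
    · have hpow : (conjHom n F g * (D (fieldSL σ) * D graphSL)) ^ 2 = 1 := by
        rw [← mul_assoc, ← hord]; exact pow_orderOf_eq_one _
      have hσ2 : orderOf σ = 2 := orderOf_eq_prime (by
        have e := hpow
        rw [tw_pow ((mapGL σ).comp contraHom) (conjHom n F) _ (twist_graphField σ) g 2,
          (show Commute (D (fieldSL σ) : MulAut (P n F)) (D graphSL) from (graph_field_D σ).symm).mul_pow, pow_two (D graphSL), D_graph_sq, mul_one,
          ← map_pow, ← map_pow] at e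
        exact (conj_field_trivial hn e).1) hσ1
      obtain ⟨d, -, hd⟩ := FiniteField.card F r
      obtain ⟨-, hK, hq⟩ := exists_q hd d.2 hσ2
      obtain ⟨a, ha⟩ := exists_conj_of_graphField hn hK hσ2 hq g hpow
      obtain ⟨𝒢', hin', hcore, -⟩ := exists_transfer hn 𝒢 hinn' (conjHom n F a)⁻¹
        (conjHom n F g * D (fieldSL σ) * D graphSL) (D (fieldSL σ) * D graphSL)
        (by rw [mul_assoc (conjHom n F g), ha]; group) 2
      by_contra hne
      exact hcore.1 hne (graphField_core h3 h2 hσ2 hK hq 𝒢' hin')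

end Cfsg.Agent.Lib.AutPSL
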