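import Cfsg.Agent.Lib.AutPSL.Field
import Cfsg.Agent.Lib.UnitaryConj

/-!
Involutory graph-field automorphisms of `PSL_n(F)`.
-/

set_option autoImplicit false

namespace Cfsg.Agent.Lib.AutPSL

open Matrix
open Cfsg.Agent.Lib.UnitaryConj (tstar qHom)

variable {n : ℕ} {F : Type*} [Field F]

theorem graphField_order [NeZero n] (hn : 3 ≤ n) {σ : F ≃+* F} (hσ : σ ≠ 1) {r : ℕ} (hr : r.Prime)
    (h : orderOf (D (fieldSL σ) * D graphSL : MulAut (P n F)) = r) : r = 2 ∧ orderOf σ = 2 := by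
  have hc : Commute (D (fieldSL σ) : MulAut (P n F)) (D graphSL) := (graph_field_D σ).symm
  have h2 : r = 2 := by
    rcases hr.eq_two_or_odd' with h2 | ⟨k, hk⟩
    · exact h2
    exfalso
    have := pow_orderOf_eq_one (D (fieldSL σ) * D graphSL : MulAut (P n F))
    rw [h, hc.mul_pow, hk] at this
    have hg : (D graphSL : MulAut (P n F)) ^ (2 * k + 1) = D graphSL := by
      rw [pow_succ, pow_mul, pow_two, D_graph_sq, one_pow, one_mul]
    rw [hg, ← map_pow, ← map_pow, mul_eq_one_iff_eq_inv, inv_eq_of_mul_eq_one_right D_graph_sq] at this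
    exact conj_field_ne_graph hn 1 (σ ^ (2 * k + 1)) (by rw [map_one, map_one, one_mul]; exact this)
  refine ⟨h2, orderOf_eq_prime ?_ hσ⟩
  have := pow_orderOf_eq_one (D (fieldSL σ) * D graphSL : MulAut (P n F))
  rw [h, h2, hc.mul_pow, pow_two (D graphSL), D_graph_sq, mul_one] at this
  rw [← map_pow, ← map_pow] at this
  exact (conj_field_trivial (g := 1) (n := n) (by omega) (by rw [map_one, map_one, one_mul]; exact this)).1

variable [Fintype F]

/-- The field automorphism of order two. -/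
theorem exists_q {p f : ℕ} [Fact p.Prime] (hF : Fintype.card F = p ^ f) (hf : 1 ≤ f)
    {σ : F ≃+* F} (hσ : orderOf σ = 2) :
    Even f ∧ ∃ hK : Fintype.card F = (p ^ (f / 2)) ^ 2, ∀ x, σ x = qHom hK x := by
  classical
  obtain ⟨e⟩ := ringAut_equiv (F := F) hf hF
  have h2f : 2 ∣ f := by
    have h := orderOf_dvd_natCard (e σ)
    rwa [MulEquiv.orderOf_eq, hσ, Nat.card_congr Multiplicative.toAdd, Nat.card_zmod] at h
  refine ⟨even_iff_two_dvd.2 h2f, ?_⟩
  have hK : Fintype.card F = (p ^ (f / 2)) ^ 2 := by rw [hF, ← pow_mul, Nat.div_mul_cancel h2f]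
  refine ⟨hK, ?_⟩
  let ρ : F ≃+* F :=
    { toFun := qHom hK
      invFun := qHom hK
      left_inv := UnitaryConj.qHom_qHom hK
      right_inv := UnitaryConj.qHom_qHom hK
      map_mul' := map_mul _
      map_add' := map_add _ }
  have hρ : orderOf ρ = 2 := by
    refine orderOf_eq_prime (RingEquiv.ext fun x => ?_) fun h => ?_
    · rw [pow_two]; exact UnitaryConj.qHom_qHom hK x
    · obtain ⟨θ, hθ⟩ := UnitaryConj.exists_moved hK
      exact hθ (RingEquiv.congr_fun h θ)
  haveI : NeZero f := ⟨by omega⟩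
  haveI : Finite (Multiplicative (ZMod f)) := inferInstance
  have hsame : e σ = e ρ := by
    have hcard := IsCyclic.card_orderOf_eq_totient (α := Multiplicative (ZMod f)) (d := 2)
      (by rw [Fintype.card_multiplicative, ZMod.card]; exact h2f)
    rw [Nat.totient_two, Finset.card_eq_one] at hcard
    obtain ⟨w, hw⟩ := hcard
    have h1 : e σ ∈ ({w} : Finset (Multiplicative (ZMod f))) := by
      rw [← hw]; simp [MulEquiv.orderOf_eq, hσ]
    have h2 : e ρ ∈ ({w} : Finset (Multiplicative (ZMod f))) := by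
      rw [← hw]; simp [MulEquiv.orderOf_eq, hρ]
    rw [Finset.mem_singleton.1 h1, Finset.mem_singleton.1 h2]
  intro x
  rw [e.injective hsame]
  rfl

omit [Fintype F] in
theorem eGF_scalar (σ : F ≃+* F) (c : Fˣ) :
    mapGL σ (contraHom (GeneralLinearGroup.scalar (Fin n) c)) =
      GeneralLinearGroup.scalar (Fin n) (mapU σ c)⁻¹ := by
  have : contraHom (GeneralLinearGroup.scalar (Fin n) c : GL (Fin n) F) =
      GeneralLinearGroup.scalar (Fin n) c⁻¹ := by
    apply Units.ext
    show ((GeneralLinearGroup.scalar (Fin n) c : GL (Fin n) F)⁻¹ : GL (Fin n) F).1ᵀ = _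
    rw [← map_inv]
    simp [GeneralLinearGroup.scalar]
  rw [this, mapGL_scalar, map_inv]

omit [Fintype F] in
theorem eGF_invol {σ : F ≃+* F} (hσ : σ * σ = 1) (g : GL (Fin n) F) :
    mapGL σ (contraHom (mapGL σ (contraHom g))) = g := by
  apply Units.ext
  show (((g.val)ᵀ.map σ.toRingHom)ᵀ).map σ.toRingHom = g.val
  ext i j
  exact RingEquiv.congr_fun hσ (g i j)

omit [Fintype F] in
theorem eGF_det {σ : F ≃+* F} (g : GL (Fin n) F) :
    GeneralLinearGroup.det (mapGL σ (contraHom g)) = (mapU σ (GeneralLinearGroup.det g))⁻¹ := by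
  rw [← map_inv, ← map_inv]
  apply Units.ext
  show ((((g⁻¹ : GL (Fin n) F) : Matrix (Fin n) (Fin n) F)ᵀ).map σ.toRingHom).det =
    σ.toRingHom ((g⁻¹ : GL (Fin n) F) : Matrix (Fin n) (Fin n) F).det
  rw [← RingHom.mapMatrix_apply, ← RingHom.map_det, Matrix.det_transpose]

theorem eGF_star {q : ℕ} (hK : Fintype.card F = q ^ 2) {σ : F ≃+* F} (hσ : ∀ x, σ x = qHom hK x)
    (g : GL (Fin n) F) :
    (((mapGL σ (contraHom g))⁻¹ : GL (Fin n) F) : Matrix (Fin n) (Fin n) F) = tstar hK g.val := by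
  show (g.val)ᵀ.map σ.toRingHom = tstar hK g.val
  ext i j
  exact hσ _

/-- An involution in the coset of the standard graph-field automorphism is conjugate to it. -/
theorem exists_conj_of_graphField [NeZero n] (hn : 2 ≤ n) {q : ℕ} (hK : Fintype.card F = q ^ 2)
    {σ : F ≃+* F} (hσ : orderOf σ = 2) (hq : ∀ x, σ x = qHom hK x) (g : GL (Fin n) F)
    (h : (conjHom n F g * (D (fieldSL σ) * D graphSL)) ^ 2 = 1) :
    ∃ a : GL (Fin n) F, conjHom n F g * (D (fieldSL σ) * D graphSL) =
      conjHom n F a * (D (fieldSL σ) * D graphSL) * (conjHom n F a)⁻¹ := by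
  have hσ2 : σ * σ = 1 := by rw [← pow_two, ← hσ]; exact pow_orderOf_eq_one σ
  set e : GL (Fin n) F →* GL (Fin n) F := (mapGL σ).comp contraHom with he
  have hee : ∀ a, e (e a) = a := eGF_invol hσ2
  have hesc : ∀ c : Fˣ, e (GeneralLinearGroup.scalar (Fin n) c) =
      GeneralLinearGroup.scalar (Fin n) (mapU σ c)⁻¹ := eGF_scalar σ
  have hc : Commute (D (fieldSL σ) : MulAut (P n F)) (D graphSL) := (graph_field_D σ).symm
  rw [tw_pow e (conjHom n F) _ (twist_graphField σ) g 2, hc.mul_pow, pow_two (D graphSL), D_graph_sq,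
    mul_one, ← map_pow, ← map_pow, pow_two σ, hσ2, map_one, map_one, mul_one, ← MonoidHom.mem_ker,
    ker_conjHom hn, GeneralLinearGroup.center_eq_range_scalar, tw_two] at h
  obtain ⟨l, hl⟩ := h
  have hl2 : l ∈ (normU σ 2).ker := by
    have h1 : e g * g = GeneralLinearGroup.scalar (Fin n) (mapU σ l)⁻¹ := by
      rw [← hesc, hl, map_mul, hee]
    have h2 : e g * g = GeneralLinearGroup.scalar (Fin n) l := by
      rw [show e g * g = g⁻¹ * (g * e g) * g by group, ← hl, mul_assoc, (scalar_commute l g).eq,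
        inv_mul_cancel_left]
    rw [MonoidHom.mem_ker, normU_two, mul_eq_one_iff_eq_inv]
    exact scalar_injective (h2.symm.trans h1)
  rw [ker_normU hσ two_pos] at hl2
  obtain ⟨t, ht⟩ := hl2
  set g' := GeneralLinearGroup.scalar (Fin n) t⁻¹ * g with hg'
  have hherm : g' * e g' = 1 := by
    rw [hg', map_mul, hesc, show GeneralLinearGroup.scalar (Fin n) t⁻¹ * g *
      (GeneralLinearGroup.scalar (Fin n) (mapU σ t⁻¹)⁻¹ * e g) =
        GeneralLinearGroup.scalar (Fin n) t⁻¹ * GeneralLinearGroup.scalar (Fin n) (mapU σ t⁻¹)⁻¹ *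
          (g * e g) by
      rw [mul_assoc, mul_assoc, ← mul_assoc g, ← (scalar_commute _ g).eq, mul_assoc],
      ← hl, ← map_mul, ← map_mul, ← ht, ratioU_apply, map_inv, inv_inv, mul_assoc, mul_div_cancel,
      inv_mul_cancel, map_one]
  obtain ⟨c, hc', -⟩ := UnitaryConj.exists_sqrt hK g' (by
    rw [← eGF_star hK hq g']
    exact congrArg Units.val (inv_eq_of_mul_eq_one_left hherm))
  have hg'c : g' = (e c)⁻¹ * c := by
    apply Units.ext
    rw [Units.val_mul]
    exact hc'.symm.trans (congrArg (· * c.val) (eGF_star hK hq c).symm)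
  refine ⟨(e c)⁻¹, ?_⟩
  have hgg : conjHom n F g' = conjHom n F g := (conjHom_eq_iff hn).2 ⟨t⁻¹, rfl⟩
  rw [← hgg, eq_mul_inv_iff_mul_eq, mul_assoc, twist_graphField σ, ← mul_assoc, ← map_mul,
    show ((mapGL σ).comp contraHom) (e c)⁻¹ = c⁻¹ from by rw [← he, map_inv, hee]]
  congr 2
  rw [hg'c, mul_inv_cancel_right]

theorem mem_GU_iff_fixed {q : ℕ} (hK : Fintype.card F = q ^ 2) {σ : F ≃+* F}
    (hq : ∀ x, σ x = qHom hK x) (g : GL (Fin n) F) :
    g ∈ Cfsg.GU n F q ↔ mapGL σ (contraHom g) = g := by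
  rw [UnitaryConj.mem_GU_iff hK, ← eGF_star hK hq g, ← Units.val_mul, Units.val_eq_one,
    inv_mul_eq_one]

theorem graphField_centralizer_iff [NeZero n] (hn : 2 ≤ n) {σ : F ≃+* F} (hσ : orderOf σ = 2)
    {g : GL (Fin n) F} :
    g ∈ (Subgroup.centralizer {(D (fieldSL σ) * D graphSL : MulAut (P n F))}).comap (conjHom n F) ↔
      ∃ (c : Fˣ) (h : GL (Fin n) F),
        mapGL σ (contraHom h) = h ∧ g = GeneralLinearGroup.scalar (Fin n) c * h := by
  have hσ2 : σ * σ = 1 := by rw [← pow_two, ← hσ]; exact pow_orderOf_eq_one σ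
  rw [mem_comap_centralizer hn (twist_graphField σ)]
  set e : GL (Fin n) F →* GL (Fin n) F := (mapGL σ).comp contraHom
  have hee : ∀ a, e (e a) = a := eGF_invol hσ2
  have hesc : ∀ c : Fˣ, e (GeneralLinearGroup.scalar (Fin n) c) =
      GeneralLinearGroup.scalar (Fin n) (mapU σ c)⁻¹ := eGF_scalar σ
  constructor
  · rintro ⟨l, hl⟩
    have hfix : l ∈ fixU σ := by
      have h := hee g
      rw [hl, map_mul, hesc, hl, ← mul_assoc, ← map_mul, mul_eq_right,
        ← map_one (GeneralLinearGroup.scalar (Fin n))] at h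
      have := scalar_injective h
      rw [inv_mul_eq_one] at this
      exact this
    rw [← range_normU hσ two_pos] at hfix
    obtain ⟨d, hd⟩ := hfix
    rw [normU_two] at hd
    refine ⟨d⁻¹, GeneralLinearGroup.scalar (Fin n) d * g, ?_, ?_⟩
    · show e _ = _
      rw [map_mul, hesc, hl, ← mul_assoc, ← map_mul, ← hd, mul_comm d, inv_mul_cancel_left]
    · rw [← mul_assoc, ← map_mul, inv_mul_cancel, map_one, one_mul]
  · rintro ⟨c, h, hh, rfl⟩
    change e h = h at hh
    refine ⟨(mapU σ c)⁻¹ / c, ?_⟩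
    rw [map_mul, hh, hesc, ← mul_assoc, ← map_mul, div_mul_cancel]

theorem graphField_centralizer_iso [NeZero n] (hn : 2 ≤ n) {q : ℕ} (hK : Fintype.card F = q ^ 2)
    {σ : F ≃+* F} (hσ : orderOf σ = 2) (hq : ∀ x, σ x = qHom hK x) :
    Nonempty (↥(Cfsg.inndiagPSL n F ⊓
      Subgroup.centralizer {(D (fieldSL σ) * D graphSL : MulAut (P n F))}) ≃* Cfsg.PGU n F q) := by
  let ψ : ↥(Cfsg.GU n F q) →* MulAut (P n F) := (conjHom n F).comp (Cfsg.GU n F q).subtype
  have hker : ψ.ker = (Geo.scalars (Fin n) F).subgroupOf (Cfsg.GU n F q) := by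
    ext g
    show conjHom n F g.1 = 1 ↔ _
    rw [← MonoidHom.mem_ker, ker_conjHom hn, Subgroup.mem_subgroupOf, Geo.mem_scalars_iff,
      GeneralLinearGroup.center_eq_range_scalar]
    constructor
    · rintro ⟨c, hc⟩; exact ⟨c, by rw [← hc]; simp [GeneralLinearGroup.scalar, Matrix.smul_one_eq_diagonal]⟩
    · rintro ⟨c, hc⟩
      exact ⟨c, Units.ext (by rw [hc]; simp [GeneralLinearGroup.scalar, Matrix.smul_one_eq_diagonal])⟩
  have hrange : ψ.range = Cfsg.inndiagPSL n F ⊓
      Subgroup.centralizer {(D (fieldSL σ) * D graphSL : MulAut (P n F))} := by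
    rw [inndiag_eq]
    apply le_antisymm
    · rintro _ ⟨a, rfl⟩
      refine ⟨⟨_, rfl⟩, ?_⟩
      exact (graphField_centralizer_iff hn hσ).2
        ⟨1, _, (mem_GU_iff_fixed hK hq _).1 a.2, by simp⟩
    · rintro _ ⟨⟨g, rfl⟩, hg⟩
      obtain ⟨c, h, hh, rfl⟩ := (graphField_centralizer_iff hn hσ).1 hg
      exact ⟨⟨h, (mem_GU_iff_fixed hK hq _).2 hh⟩, ((conjHom_eq_iff hn).2 ⟨c, rfl⟩).symm⟩
  exact ⟨(MulEquiv.subgroupCongr hrange.symm).trans
    ((QuotientGroup.quotientKerEquivRange ψ).symm.trans (QuotientGroup.quotientMulEquivOfEq hker))⟩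

theorem graphField_det_centralizer [NeZero n] (hn : 2 ≤ n) {q : ℕ} (hK : Fintype.card F = q ^ 2)
    {σ : F ≃+* F} (hσ : orderOf σ = 2) (hq : ∀ x, σ x = qHom hK x) :
    ((Subgroup.centralizer {(D (fieldSL σ) * D graphSL : MulAut (P n F))}).comap (conjHom n F)).map
      GeneralLinearGroup.det = (normU σ 2).ker ⊔ (powMonoidHom n : Fˣ →* Fˣ).range := by
  classical
  apply le_antisymm
  · rintro _ ⟨g, hg, rfl⟩
    obtain ⟨c, h, hh, rfl⟩ := (graphField_centralizer_iff hn hσ).1 hg
    rw [map_mul, det_scalar]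
    refine mul_mem (Subgroup.mem_sup_right ⟨c, rfl⟩) (Subgroup.mem_sup_left ?_)
    rw [MonoidHom.mem_ker, normU_two]
    have := congrArg GeneralLinearGroup.det hh
    rw [eGF_det] at this
    nth_rewrite 1 [← this]
    exact inv_mul_cancel _
  · refine sup_le (fun c hc => ?_) ?_
    · let M : Matrix (Fin n) (Fin n) F := Matrix.diagonal (Function.update 1 0 (c : F))
      have hM : M.det = c := by
        rw [det_diagonal, Finset.prod_update_of_mem (Finset.mem_univ 0)]; simp
      refine ⟨GeneralLinearGroup.mkOfDetNeZero M (by rw [hM]; exact c.ne_zero), ?_,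
        Units.ext (by rw [GeneralLinearGroup.val_det_apply]; exact hM)⟩
      refine (graphField_centralizer_iff hn hσ).2 ⟨1, _, (mem_GU_iff_fixed hK hq _).1 ?_,
        by rw [map_one, one_mul]⟩
      rw [UnitaryConj.mem_GU_iff hK]
      show tstar hK M * M = 1
      rw [tstar, Matrix.diagonal_map (map_zero _), Matrix.diagonal_transpose, Matrix.diagonal_mul_diagonal,
        ← Matrix.diagonal_one]
      congr 1
      funext i
      rw [MonoidHom.mem_ker, normU_two, Units.ext_iff] at hc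
      by_cases hi : i = 0
      · subst hi
        simp only [Function.comp_apply, Function.update_self]
        rw [← hq, mul_comm]; exact hc
      · simp [Function.update_of_ne hi]
    · rintro _ ⟨c, rfl⟩
      exact ⟨GeneralLinearGroup.scalar (Fin n) c,
        (graphField_centralizer_iff hn hσ).2 ⟨c, 1, by rw [map_one, map_one], (mul_one _).symm⟩,
        det_scalar c⟩

theorem index_ker_normU_two {q : ℕ} (hK : Fintype.card F = q ^ 2) {σ : F ≃+* F}
    (hσ : orderOf σ = 2) (hq : ∀ x, σ x = qHom hK x) : (normU σ 2).ker.index = q - 1 := by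
  rw [Subgroup.index_ker, range_normU hσ two_pos]
  have hq1 : 1 ≤ q := by
    rcases Nat.eq_zero_or_pos q with h | h
    · subst h; simp at hK
    · exact h
  have h : fixU σ = (powMonoidHom (q - 1) : Fˣ →* Fˣ).ker := by
    ext c
    rw [mem_fixU, MonoidHom.mem_ker, powMonoidHom_apply, Units.ext_iff]
    show σ (c : F) = c ↔ _
    rw [hq]
    rw [Units.ext_iff (u := c ^ (q - 1))]
    show (c : F) ^ q = c ↔ ((c ^ (q - 1) : Fˣ) : F) = ((1 : Fˣ) : F)
    rw [Units.val_pow_eq_pow_val, Units.val_one, ← mul_eq_right₀ c.ne_zero (a := (c : F) ^ (q - 1)),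
      ← pow_succ, Nat.sub_add_cancel hq1]
  rw [h, IsCyclic.card_powMonoidHom_ker, Nat.card_units, Nat.card_eq_fintype_card, hK]
  refine Nat.gcd_eq_right ⟨q + 1, ?_⟩
  have := Nat.sq_sub_sq q 1
  rw [one_pow] at this
  rw [this, mul_comm]

end Cfsg.Agent.Lib.AutPSL
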