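import Cfsg.Agent.Lib.AutPSL.GraphModels
import Cfsg.Agent.Lib.Classical.QuadStd
import Cfsg.Agent.Lib.Classical.SympOrder
import Cfsg.Agent.Lib.Classical.UnitaryFlat
import Cfsg.Agent.Lib.Classical.SLTwoSylow

/-!
Classes, centralisers and splitting of involutory graph automorphisms of `PSL_n`.
-/

set_option autoImplicit false

namespace Cfsg.Agent.Lib.AutPSL

open Matrix

universe u

variable {F : Type u} [Field F]

section helpers

variable {κ ι : Type} [Fintype κ] [DecidableEq κ] [Fintype ι] [DecidableEq ι]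

theorem Congr.smul {g g' : Matrix ι ι F} (h : Congr g g') (a : F) : Congr (a • g) (a • g') := by
  obtain ⟨P, rfl⟩ := h
  exact ⟨P, by rw [Matrix.mul_smul, Matrix.smul_mul]⟩

theorem reindex_transpose_smul (e : κ ≃ ι) {M : Matrix κ κ F} {ε : F} (h : Mᵀ = ε • M) :
    (Matrix.reindex e e M)ᵀ = ε • Matrix.reindex e e M := by
  rw [Matrix.reindex_apply, Matrix.transpose_submatrix, h]
  rfl

theorem reindex_diag (e : κ ≃ ι) (M : Matrix κ κ F) (x : ι → F) :
    Matrix.toBilin' (Matrix.reindex e e M) x x = Matrix.toBilin' M (x ∘ e) (x ∘ e) := by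
  rw [Matrix.toBilin'_apply', Matrix.toBilin'_apply', Matrix.reindex_apply,
    Matrix.submatrix_mulVec_equiv, Equiv.symm_symm, dotProduct, dotProduct,
    ← Equiv.sum_comp e]
  simp

end helpers

variable {n : ℕ}

/-- The model element of a matrix. -/
noncomputable def mdl {κ : Type} [Fintype κ] [DecidableEq κ] (e : κ ≃ Fin n) (M : Matrix κ κ F)
    (hM : M.det ≠ 0) : GL (Fin n) F :=
  GeneralLinearGroup.mkOfDetNeZero (Matrix.reindex e e M) (by rw [Matrix.det_reindex_self]; exact hM)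

theorem mdl_val {κ : Type} [Fintype κ] [DecidableEq κ] (e : κ ≃ Fin n) (M : Matrix κ κ F)
    (hM : M.det ≠ 0) : ((mdl e M hM : GL (Fin n) F) : Matrix (Fin n) (Fin n) F) = Matrix.reindex e e M :=
  rfl

theorem congr_mdl {κ : Type} [Fintype κ] [DecidableEq κ] (e : κ ≃ Fin n) (M : Matrix κ κ F)
    (hM : M.det ≠ 0) : Congr (mdl e M hM : Matrix (Fin n) (Fin n) F) ((1 : F) • Matrix.reindex e e M) := by
  rw [one_smul]; exact Congr.refl _

theorem centralizer_eqSim [NeZero n] (hn : 2 ≤ n) {κ : Type} [Fintype κ] [DecidableEq κ]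
    {g : GL (Fin n) F} (e : κ ≃ Fin n) {M : Matrix κ κ F} {c : F} (hc : c ≠ 0)
    (h : Congr (g : Matrix (Fin n) (Fin n) F) (c • Matrix.reindex e e M)) {H : Subgroup (GL κ F)}
    (hH : H = sim M) :
    Nonempty (↥(Cfsg.inndiagPSL n F ⊓ Subgroup.centralizer {gr g}) ≃* Cfsg.projQuot H) := by
  subst hH
  exact centralizer_gr hn e hc h

theorem det_gl_ne (g : GL (Fin n) F) : (g : Matrix (Fin n) (Fin n) F).det ≠ 0 :=
  ((Matrix.isUnit_iff_isUnit_det _).1 g.isUnit).ne_zero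

theorem skew_diag (h2 : (2 : F) ≠ 0) {ι : Type} [Fintype ι] [DecidableEq ι] {g : Matrix ι ι F}
    (h : gᵀ = (-1 : F) • g) (x : ι → F) : Matrix.toBilin' g x x = 0 := by
  have h1 := bilin_flip h x x
  exact (mul_eq_zero.1 (show (2 : F) * Matrix.toBilin' g x x = 0 by linear_combination h1)).resolve_left h2

theorem no_skew (h2 : (2 : F) ≠ 0) {m : ℕ} (hnm : n = 2 * m + 1) {g : GL (Fin n) F}
    (h : (g : Matrix (Fin n) (Fin n) F)ᵀ = (-1 : F) • (g : Matrix (Fin n) (Fin n) F)) : False := by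
  have h1 := congrArg Matrix.det h
  rw [det_transpose, det_smul, Fintype.card_fin, Odd.neg_one_pow ⟨m, hnm⟩] at h1
  exact det_gl_ne g ((mul_eq_zero.1 (show (2 : F) * (g : Matrix (Fin n) (Fin n) F).det = 0 by
    linear_combination h1)).resolve_left h2)

theorem two_ne_of_odd_card [Fintype F] (h : Odd (Fintype.card F)) : (2 : F) ≠ 0 :=
  Classical.two_ne_zero_of_odd_card h

theorem charTwo_of_two [Fintype F] (h : (2 : F) = 0) : CharP F 2 :=
  CharTwo.of_one_ne_zero_of_two_eq_zero one_ne_zero h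

variable [Fintype F]

/-! ### Odd dimension -/

theorem congr_odd (h2 : (2 : F) ≠ 0) {m : ℕ} (hnm : n = 2 * m + 1)
    (e : Unit ⊕ (Fin m ⊕ Fin m) ≃ Fin n) {g : GL (Fin n) F}
    (hs : (g : Matrix (Fin n) (Fin n) F)ᵀ = (g : Matrix (Fin n) (Fin n) F)) :
    ∃ c : F, c ≠ 0 ∧ Congr (g : Matrix (Fin n) (Fin n) F) (c • Matrix.reindex e e (oddM m F)) := by
  have hM : (oddM m F).det ≠ 0 := by
    rw [det_oddM]; exact mul_ne_zero h2 (pow_ne_zero _ (neg_ne_zero.2 one_ne_zero))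
  have hg := det_gl_ne g
  set c := (g : Matrix (Fin n) (Fin n) F).det * (oddM m F).det with hc
  have hc0 : c ≠ 0 := mul_ne_zero hg hM
  refine ⟨c, hc0, congr_symm h2 hs ?_ hg ?_ ?_⟩
  · rw [transpose_smul, reindex_transpose_smul e (ε := 1) (by rw [one_smul, oddM_symm]), one_smul]
  · rw [det_smul, Matrix.det_reindex_self]
    exact mul_ne_zero (pow_ne_zero _ hc0) hM
  · rw [det_smul, Matrix.det_reindex_self, Fintype.card_fin,
      show c ^ n = c ^ (2 * m + 1) from congrArg (c ^ ·) hnm]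
    refine ⟨c ^ m * c, ?_⟩
    rw [show (g : Matrix (Fin n) (Fin n) F).det * (c ^ (2 * m + 1) * (oddM m F).det) =
      c ^ (2 * m + 1) * ((g : Matrix (Fin n) (Fin n) F).det * (oddM m F).det) by ring, ← hc]
    ring

theorem congr_odd_two [CharP F 2] {m : ℕ} (hnm : n = 2 * m + 1)
    (e : Unit ⊕ (Fin m ⊕ Fin m) ≃ Fin n) {g : GL (Fin n) F}
    (hs : (g : Matrix (Fin n) (Fin n) F)ᵀ = (g : Matrix (Fin n) (Fin n) F)) :
    Congr (g : Matrix (Fin n) (Fin n) F) (Matrix.reindex e e (oneJ m F)) := by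
  have hd : (oneJ m F).det ≠ 0 := by
    rw [oneJ, det_fromBlocks_zero₂₁, det_one, one_mul]; exact det_J_ne_zero m
  refine congr_nonalt hs ?_ (det_gl_ne g) (by rw [Matrix.det_reindex_self]; exact hd) ?_ ?_
  · rw [reindex_transpose_smul e (ε := 1) (by rw [one_smul, oneJ_symm]), one_smul]
  · by_contra hall
    push Not at hall
    have := alt_even (Matrix.toBilin' (g : Matrix (Fin n) (Fin n) F)) hall
      fun x hx => bilin_nondeg (det_gl_ne g) hx
    rw [Module.finrank_fintype_fun_eq_card, Fintype.card_fin] at this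
    obtain ⟨a, ha⟩ := this
    omega
  · refine ⟨Pi.single (e (Sum.inl ())) 1, ?_⟩
    rw [Matrix.toBilin'_single, Matrix.reindex_apply, Matrix.submatrix_apply, Equiv.symm_apply_apply]
    simp [oneJ]

theorem graph_odd {m : ℕ} (hnm : n = 2 * m + 1) (hn : 3 ≤ n)
    (γ γ' : MulAut (P n F)) (hγ : Cfsg.IsGraphAutClassPSL γ) (hγ2 : orderOf γ = 2)
    (hγ' : Cfsg.IsGraphAutClassPSL γ') (hγ'2 : orderOf γ' = 2) :
    Nonempty (↥(Cfsg.inndiagPSL n F ⊓ Subgroup.centralizer {γ}) ≃* Cfsg.PGO F (Cfsg.quadFormOdd m F)) ∧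
      Cfsg.IsConjUnder (Cfsg.inndiagPSL n F) γ γ' := by
  haveI : NeZero n := ⟨by omega⟩
  obtain ⟨g, ε, rfl, hε, hg⟩ := exists_gr hn hγ hγ2
  obtain ⟨g', ε', rfl, hε', hg'⟩ := exists_gr hn hγ' hγ'2
  let e : Unit ⊕ (Fin m ⊕ Fin m) ≃ Fin n := Fintype.equivFinOfCardEq (by simp; omega)
  have hsym : ∀ {a : GL (Fin n) F} {δ : F}, δ * δ = 1 →
      (a : Matrix (Fin n) (Fin n) F)ᵀ = δ • (a : Matrix (Fin n) (Fin n) F) →
      (a : Matrix (Fin n) (Fin n) F)ᵀ = (a : Matrix (Fin n) (Fin n) F) := by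
    intro a δ hδ ha
    rcases mul_self_eq_one_iff.1 hδ with rfl | rfl
    · rw [ha, one_smul]
    · by_cases h2 : (2 : F) = 0
      · haveI := charTwo_of_two h2
        rw [ha, CharTwo.neg_eq, one_smul]
      · exact (no_skew h2 hnm ha).elim
  by_cases h2 : (2 : F) = 0
  · haveI := charTwo_of_two h2
    have hc := congr_odd_two hnm e (hsym hε hg)
    have hc' := congr_odd_two hnm e (hsym hε' hg')
    refine ⟨?_, (gr_conj_iff (by omega)).2 ⟨1, one_ne_zero, by rw [one_smul]; exact hc.trans hc'.symm⟩⟩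
    obtain ⟨e1⟩ := centralizer_gr (g := g) (by omega) e one_ne_zero (by rw [one_smul]; exact hc)
    obtain ⟨e2⟩ := projQuot_oneJ (F := F) m
    obtain ⟨e3⟩ := projQuot_odd_two (F := F) m
    exact ⟨(e1.trans e2).trans e3.symm⟩
  · obtain ⟨c, hc0, hc⟩ := congr_odd h2 hnm e (hsym hε hg)
    obtain ⟨c', hc0', hc'⟩ := congr_odd h2 hnm e (hsym hε' hg')
    refine ⟨centralizer_eqSim (by omega) e hc0 hc (sim_of_symm (oddM_symm m) h2 (oddM_val m)),
      (gr_conj_iff (by omega)).2 ⟨c / c', div_ne_zero hc0 hc0', hc.trans ?_⟩⟩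
    have h := (hc'.symm.smul (c / c'))
    rwa [smul_smul, div_mul_cancel₀ _ hc0'] at h

/-! ### Even dimension, odd characteristic -/

theorem classify_even (h2 : (2 : F) ≠ 0) {m k : ℕ} (hmk : m = k + 1) (hnm : n = 2 * m) {a b : F}
    (hab : ∀ z₁ z₂ : F, z₁ ^ 2 + a * z₁ * z₂ + b * z₂ ^ 2 = 0 → z₁ = 0 ∧ z₂ = 0)
    (e : Fin m ⊕ Fin m ≃ Fin n) (e' : (Fin k ⊕ Fin k) ⊕ Fin 2 ≃ Fin n) {g : GL (Fin n) F} {ε : F}
    (hε : ε * ε = 1) (hg : (g : Matrix (Fin n) (Fin n) F)ᵀ = ε • (g : Matrix (Fin n) (Fin n) F)) :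
    (ε = -1 ∧ Congr (g : Matrix (Fin n) (Fin n) F) (Matrix.reindex e e (Matrix.J (Fin m) F))) ∨
    (ε = 1 ∧ (IsSquare ((g : Matrix (Fin n) (Fin n) F).det * (-1) ^ m) ∧
      Congr (g : Matrix (Fin n) (Fin n) F) (Matrix.reindex e e (hypM m F)) ∨
      ¬ IsSquare ((g : Matrix (Fin n) (Fin n) F).det * (-1) ^ m) ∧
      Congr (g : Matrix (Fin n) (Fin n) F) (Matrix.reindex e' e' (minusM k a b)))) := by
  rcases mul_self_eq_one_iff.1 hε with rfl | rfl
  · refine Or.inr ⟨rfl, ?_⟩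
    rw [one_smul] at hg
    by_cases hsq : IsSquare ((g : Matrix (Fin n) (Fin n) F).det * (-1) ^ m)
    · refine Or.inl ⟨hsq, congr_symm h2 hg ?_ (det_gl_ne g) ?_ ?_⟩
      · rw [reindex_transpose_smul e (ε := 1) (by rw [one_smul, hypM_symm]), one_smul]
      · rw [Matrix.det_reindex_self, det_hypM]; exact pow_ne_zero _ (neg_ne_zero.2 one_ne_zero)
      · rwa [Matrix.det_reindex_self, det_hypM]
    · refine Or.inr ⟨hsq, congr_symm h2 hg ?_ (det_gl_ne g) ?_ ?_⟩
      · rw [reindex_transpose_smul e' (ε := 1) (by rw [one_smul, minusM_symm]), one_smul]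
      · rw [Matrix.det_reindex_self]; exact det_minusM_ne_zero h2 k hab
      · rw [Matrix.det_reindex_self, det_minusM,
          show (g : Matrix (Fin n) (Fin n) F).det * ((-1) ^ k * (4 * b - a * a)) =
            ((g : Matrix (Fin n) (Fin n) F).det * (-1) ^ m) * (a * a - 4 * b) by rw [hmk, pow_succ]; ring]
        refine sqMul_of_not ?_ (disc_nonsquare h2 hab)
        exact hsq
  · refine Or.inl ⟨rfl, congr_alt (det_gl_ne g) ?_ (skew_diag h2 hg) fun x => ?_⟩
    · rw [Matrix.det_reindex_self]; exact det_J_ne_zero m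
    · rw [reindex_diag]; exact J_diag m _
where
  sqMul_of_not {x y : F} (hx : ¬ IsSquare x) (hy : ¬ IsSquare y) : IsSquare (x * y) := by
    classical
    have hx0 : x ≠ 0 := fun h => hx (h ▸ IsSquare.zero)
    have hy0 : y ≠ 0 := fun h => hy (h ▸ IsSquare.zero)
    rw [← quadraticChar_one_iff_isSquare (mul_ne_zero hx0 hy0), map_mul,
      quadraticChar_neg_one_iff_not_isSquare.2 hx, quadraticChar_neg_one_iff_not_isSquare.2 hy]
    norm_num

theorem det_not_sq_of_minus (h2 : (2 : F) ≠ 0) {m k : ℕ} (hmk : m = k + 1) {a b : F}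
    (hab : ∀ z₁ z₂ : F, z₁ ^ 2 + a * z₁ * z₂ + b * z₂ ^ 2 = 0 → z₁ = 0 ∧ z₂ = 0) :
    ¬ IsSquare ((minusM k a b).det * (-1) ^ m) := by
  rw [det_minusM, show (-1 : F) ^ k * (4 * b - a * a) * (-1) ^ m =
    ((-1) ^ k * (-1) ^ k) * (a * a - 4 * b) by rw [hmk, pow_succ]; ring, ← mul_pow]
  simpa using disc_nonsquare h2 hab

theorem three_classes (hodd : Odd (Fintype.card F)) {m : ℕ} (hm : 2 ≤ m) (hnm : n = 2 * m) :
    ∃ (γ₁ γ₂ γ₃ : MulAut (P n F)) (a b : F), (∀ z₁ z₂ : F, z₁ ^ 2 + a * z₁ * z₂ + b * z₂ ^ 2 = 0 → z₁ = 0 ∧ z₂ = 0) ∧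
      Cfsg.IsGraphAutClassPSL γ₁ ∧ orderOf γ₁ = 2 ∧ Cfsg.IsGraphAutClassPSL γ₂ ∧ orderOf γ₂ = 2 ∧
      Cfsg.IsGraphAutClassPSL γ₃ ∧ orderOf γ₃ = 2 ∧ ¬ Cfsg.IsConjUnder (Cfsg.inndiagPSL n F) γ₁ γ₂ ∧
      ¬ Cfsg.IsConjUnder (Cfsg.inndiagPSL n F) γ₁ γ₃ ∧ ¬ Cfsg.IsConjUnder (Cfsg.inndiagPSL n F) γ₂ γ₃ ∧
      (∀ γ : MulAut (P n F), Cfsg.IsGraphAutClassPSL γ → orderOf γ = 2 →
        Cfsg.IsConjUnder (Cfsg.inndiagPSL n F) γ₁ γ ∨ Cfsg.IsConjUnder (Cfsg.inndiagPSL n F) γ₂ γ ∨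
          Cfsg.IsConjUnder (Cfsg.inndiagPSL n F) γ₃ γ) ∧
      Nonempty (↥(Cfsg.inndiagPSL n F ⊓ Subgroup.centralizer {γ₁}) ≃* Cfsg.PGSp m F) ∧
      Nonempty (↥(Cfsg.inndiagPSL n F ⊓ Subgroup.centralizer {γ₂}) ≃* Cfsg.PGO F (Cfsg.quadFormPlus m F)) ∧
      Nonempty (↥(Cfsg.inndiagPSL n F ⊓ Subgroup.centralizer {γ₃}) ≃*
        Cfsg.PGO F (Cfsg.quadFormMinus (m - 1) F a b)) := by
  haveI : NeZero n := ⟨by omega⟩
  have hn : 3 ≤ n := by omega
  have hn2 : 2 ≤ n := by omega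
  have h2 := two_ne_of_odd_card hodd
  obtain ⟨b, hab⟩ := Classical.UnitaryFlat.exists_aniso F
  have hmk : m = (m - 1) + 1 := by omega
  let e : Fin m ⊕ Fin m ≃ Fin n := Fintype.equivFinOfCardEq (by simp; omega)
  let e' : (Fin (m - 1) ⊕ Fin (m - 1)) ⊕ Fin 2 ≃ Fin n := Fintype.equivFinOfCardEq (by simp; omega)
  have hH : (hypM m F).det ≠ 0 := by
    rw [det_hypM]; exact pow_ne_zero _ (neg_ne_zero.2 one_ne_zero)
  have hN : (minusM (m - 1) 1 b).det ≠ 0 := det_minusM_ne_zero h2 _ hab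
  set g₁ := mdl e (Matrix.J (Fin m) F) (det_J_ne_zero m) with hg₁
  set g₂ := mdl e (hypM m F) hH with hg₂
  set g₃ := mdl e' (minusM (m - 1) 1 b) hN with hg₃
  have t1 : (g₁ : Matrix (Fin n) (Fin n) F)ᵀ = (-1 : F) • (g₁ : Matrix (Fin n) (Fin n) F) := by
    rw [hg₁, mdl_val]
    exact reindex_transpose_smul e (by rw [Matrix.J_transpose, neg_one_smul])
  have t2 : (g₂ : Matrix (Fin n) (Fin n) F)ᵀ = (1 : F) • (g₂ : Matrix (Fin n) (Fin n) F) := by
    rw [hg₂, mdl_val]
    exact reindex_transpose_smul e (by rw [hypM_symm, one_smul])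
  have t3 : (g₃ : Matrix (Fin n) (Fin n) F)ᵀ = (1 : F) • (g₃ : Matrix (Fin n) (Fin n) F) := by
    rw [hg₃, mdl_val]
    exact reindex_transpose_smul e' (by rw [minusM_symm, one_smul])
  have hne : ∀ {x : GL (Fin n) F}, (x : Matrix (Fin n) (Fin n) F)ᵀ = (1 : F) • (x : Matrix (Fin n) (Fin n) F) →
      ¬ Cfsg.IsConjUnder (Cfsg.inndiagPSL n F) (gr g₁) (gr x) := by
    intro x hx hcj
    obtain ⟨c, hc, hcg⟩ := (gr_conj_iff hn2).1 hcj
    have h := hcg.transpose_eq t1
    rw [transpose_smul, hx, one_smul] at h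
    have h' : ((2 : F) * c) • (x : Matrix (Fin n) (Fin n) F) = 0 := by
      rw [smul_smul] at h
      rw [show (2 : F) * c = c - (-1) * c by ring, sub_smul, ← h, sub_self]
    exact x.ne_zero ((smul_eq_zero.1 h').resolve_left (mul_ne_zero h2 hc))
  refine ⟨gr g₁, gr g₂, gr g₃, 1, b, hab, isGraph_gr hn _, orderOf_gr hn t1, isGraph_gr hn _,
    orderOf_gr hn t2, isGraph_gr hn _, orderOf_gr hn t3, hne t2, hne t3, ?_, ?_, ?_, ?_, ?_⟩
  · intro hcj
    obtain ⟨c, hc, hcg⟩ := (gr_conj_iff hn2).1 hcj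
    obtain ⟨z, hz⟩ := hcg.det
    rw [det_smul, hg₂, hg₃, mdl_val, mdl_val, Matrix.det_reindex_self, Matrix.det_reindex_self,
      det_hypM, Fintype.card_fin, hnm] at hz
    refine det_not_sq_of_minus h2 hmk hab ⟨z / c ^ m, ?_⟩
    field_simp
    linear_combination hz
  · intro γ hγ hγ2
    obtain ⟨g, ε, rfl, hε, hg⟩ := exists_gr hn hγ hγ2
    have mk : ∀ {x : GL (Fin n) F}, Congr (g : Matrix (Fin n) (Fin n) F) (x : Matrix (Fin n) (Fin n) F) →
        Cfsg.IsConjUnder (Cfsg.inndiagPSL n F) (gr x) (gr g) := fun {x} h =>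
      (gr_conj_iff hn2).2 ⟨1, one_ne_zero, by rw [one_smul]; exact h.symm⟩
    rcases classify_even h2 hmk hnm hab e e' hε hg with ⟨-, h⟩ | ⟨-, ⟨-, h⟩ | ⟨-, h⟩⟩
    · exact Or.inl (mk h)
    · exact Or.inr (Or.inl (mk h))
    · exact Or.inr (Or.inr (mk h))
  · exact centralizer_eqSim hn2 e one_ne_zero (congr_mdl e _ _) (gsp_eq m)
  · exact centralizer_eqSim hn2 e one_ne_zero (congr_mdl e _ _)
      (sim_of_symm (hypM_symm m) h2 (hypM_val m))
  · exact centralizer_eqSim hn2 e' one_ne_zero (congr_mdl e' _ _)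
      (sim_of_symm (minusM_symm _ 1 b) h2 (minusM_val _ 1 b))

theorem inv_transpose_type (hodd : Odd (Fintype.card F)) {m : ℕ} (hm : 2 ≤ m) (hnm : n = 2 * m)
    (ι : MulAut (P n F)) (hι : Cfsg.IsInverseTransposeAutPSL ι) :
    (Even (n * (Fintype.card F - 1) / 4) →
      Nonempty (↥(Cfsg.inndiagPSL n F ⊓ Subgroup.centralizer {ι}) ≃* Cfsg.PGO F (Cfsg.quadFormPlus m F))) ∧
    (¬ Even (n * (Fintype.card F - 1) / 4) →
      ∃ a b : F, (∀ z₁ z₂ : F, z₁ ^ 2 + a * z₁ * z₂ + b * z₂ ^ 2 = 0 → z₁ = 0 ∧ z₂ = 0) ∧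
        Nonempty (↥(Cfsg.inndiagPSL n F ⊓ Subgroup.centralizer {ι}) ≃*
          Cfsg.PGO F (Cfsg.quadFormMinus (m - 1) F a b))) := by
  haveI : NeZero n := ⟨by omega⟩
  have hn2 : 2 ≤ n := by omega
  have h2 := two_ne_of_odd_card hodd
  obtain rfl : ι = gr (1 : GL (Fin n) F) := by
    rw [invTranspose_iff.1 hι, gr, map_one, one_mul]
  obtain ⟨b, hab⟩ := Classical.UnitaryFlat.exists_aniso F
  have hmk : m = (m - 1) + 1 := by omega
  let e : Fin m ⊕ Fin m ≃ Fin n := Fintype.equivFinOfCardEq (by simp; omega)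
  let e' : (Fin (m - 1) ⊕ Fin (m - 1)) ⊕ Fin 2 ≃ Fin n := Fintype.equivFinOfCardEq (by simp; omega)
  have hiff : Even (n * (Fintype.card F - 1) / 4) ↔ IsSquare ((-1 : F) ^ m) := by
    obtain ⟨s, hs⟩ := hodd
    have hdiv : n * (Fintype.card F - 1) / 4 = m * s := by
      rw [hnm, hs, Nat.add_sub_cancel, show 2 * m * (2 * s) = m * s * 4 by ring,
        Nat.mul_div_cancel _ (by norm_num)]
    rw [hdiv]
    rcases Nat.even_or_odd m with he | ho
    · simp [he, he.neg_one_pow]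
    · rw [ho.neg_one_pow, Nat.even_mul, FiniteField.isSquare_neg_one_iff]
      simp only [Nat.not_even_iff_odd.2 ho, false_or]
      rw [hs]
      rcases Nat.even_or_odd' s with ⟨t, rfl | rfl⟩ <;> simp [Nat.even_iff] <;> omega
  have hg : ((1 : GL (Fin n) F) : Matrix (Fin n) (Fin n) F)ᵀ =
      (1 : F) • ((1 : GL (Fin n) F) : Matrix (Fin n) (Fin n) F) := by simp
  have hcl := classify_even h2 hmk hnm hab e e' (one_mul 1) hg
  have hne : (1 : F) ≠ -1 := fun h => h2 (by linear_combination h)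
  simp only [hne, false_and, false_or, true_and, Units.val_one, det_one, one_mul] at hcl
  constructor
  · intro he
    rcases hcl with ⟨-, h⟩ | ⟨h', -⟩
    · exact centralizer_eqSim hn2 e one_ne_zero (by rw [one_smul, Units.val_one]; exact h)
        (sim_of_symm (hypM_symm m) h2 (hypM_val m))
    · exact absurd (hiff.1 he) h'
  · intro he
    rcases hcl with ⟨h', -⟩ | ⟨-, h⟩
    · exact absurd (hiff.2 h') he
    · exact ⟨1, b, hab, centralizer_eqSim hn2 e' one_ne_zero (by rw [one_smul, Units.val_one]; exact h)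
        (sim_of_symm (minusM_symm _ 1 b) h2 (minusM_val _ 1 b))⟩

/-! ### Splitting -/

theorem card_units_field : Nat.card Fˣ = Fintype.card F - 1 := by
  rw [Nat.card_units, Nat.card_eq_fintype_card]

theorem index_pow_range (k : ℕ) :
    ((powMonoidHom k : Fˣ →* Fˣ).range).index = Nat.gcd k (Fintype.card F - 1) := by
  rw [IsCyclic.index_powMonoidHom_range, card_units_field, Nat.gcd_comm]

theorem det_sq_of_sim {ι : Type} [Fintype ι] [DecidableEq ι] {g : Matrix ι ι F} (hg : g.det ≠ 0)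
    {h : GL ι F} {c : Fˣ} (hc : (h : Matrix ι ι F)ᵀ * g * h = (c : F) • g) :
    GeneralLinearGroup.det h * GeneralLinearGroup.det h = c ^ Fintype.card ι := by
  have h1 := congrArg Matrix.det hc
  rw [det_mul, det_mul, det_transpose, det_smul] at h1
  refine Units.ext (mul_right_cancel₀ hg ?_)
  rw [Units.val_mul, Units.val_pow_eq_pow_val, GeneralLinearGroup.val_det_apply]
  linear_combination h1

theorem pow_range_le {ι : Type} [Fintype ι] [DecidableEq ι] (g : Matrix ι ι F) :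
    (powMonoidHom (Fintype.card ι) : Fˣ →* Fˣ).range ≤ (sim g).map GeneralLinearGroup.det := by
  rintro _ ⟨c, rfl⟩
  exact ⟨_, scalar_mem_sim g c, Units.ext (by
    rw [GeneralLinearGroup.val_det_apply, scalar_val, det_smul, det_one, mul_one, powMonoidHom_apply,
      Units.val_pow_eq_pow_val])⟩

theorem det_range_other (hne : ¬ (Even n ∧ (2 : F) ≠ 0)) (g : GL (Fin n) F) :
    (sim (g : Matrix (Fin n) (Fin n) F)).map GeneralLinearGroup.det =
      (powMonoidHom n : Fˣ →* Fˣ).range := by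
  refine le_antisymm ?_ (by simpa using pow_range_le (g : Matrix (Fin n) (Fin n) F))
  rintro _ ⟨h, ⟨c, hc⟩, rfl⟩
  have h1 := det_sq_of_sim (det_gl_ne g) hc
  rw [Fintype.card_fin] at h1
  generalize GeneralLinearGroup.det h = D at h1
  obtain ⟨d, hd⟩ : ∃ d : Fˣ, d * d = c := by
    by_cases h2 : (2 : F) = 0
    · haveI := charTwo_of_two h2
      obtain ⟨d, hd⟩ := exists_sqrt_unit c
      exact ⟨d, Units.ext hd⟩
    · obtain ⟨j, hj⟩ := Nat.not_even_iff_odd.1 fun he => hne ⟨he, h2⟩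
      refine ⟨D * (c ^ j)⁻¹, ?_⟩
      rw [hj, pow_succ, two_mul, pow_add] at h1
      calc D * (c ^ j)⁻¹ * (D * (c ^ j)⁻¹) = D * D * ((c ^ j)⁻¹ * (c ^ j)⁻¹) := mul_mul_mul_comm _ _ _ _
        _ = c := by rw [h1, mul_comm (c ^ j * c ^ j) c, mul_assoc, ← _root_.mul_inv, mul_inv_cancel, mul_one]
  have h2' : (D : F) * D = ((d ^ n : Fˣ) : F) * (d ^ n : Fˣ) := by
    rw [← Units.val_mul, ← Units.val_mul, h1, ← hd, mul_pow]
  rcases mul_self_eq_mul_self_iff.1 h2' with h' | h'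
  · exact ⟨d, Units.ext h'.symm⟩
  · by_cases h2 : (2 : F) = 0
    · haveI := charTwo_of_two h2
      exact ⟨d, Units.ext (by rw [h', CharTwo.neg_eq]; rfl)⟩
    · refine ⟨-d, Units.ext ?_⟩
      rw [h', powMonoidHom_apply, (Nat.not_even_iff_odd.1 fun he => hne ⟨he, h2⟩).neg_pow]
      simp

/-- The multiplier. -/
noncomputable def multHom {κ : Type} [Fintype κ] [DecidableEq κ] {M : Matrix κ κ F} (hM : M ≠ 0) :
    ↥(sim M) →* Fˣ :=
  MonoidHom.mk' (fun h => (mem_sim.1 h.2).choose) fun a b => by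
    have hu : ∀ (c c' : Fˣ), (c : F) • M = (c' : F) • M → c = c' := fun c c' hcc =>
      Units.ext (smul_left_injective F hM hcc)
    refine hu _ _ ?_
    rw [← (mem_sim.1 (a * b).2).choose_spec, Units.val_mul]
    calc ((a.1 * b.1 : GL κ F) : Matrix κ κ F)ᵀ * M * ((a.1 * b.1 : GL κ F) : Matrix κ κ F)
        = (b.1 : Matrix κ κ F)ᵀ * ((a.1 : Matrix κ κ F)ᵀ * M * a.1) * b.1 := by
          simp only [Units.val_mul, transpose_mul, mul_assoc]
      _ = _ := by
        have ea := (mem_sim.1 a.2).choose_spec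
        have eb := (mem_sim.1 b.2).choose_spec
        generalize (mem_sim.1 a.2).choose = ca at ea ⊢
        generalize (mem_sim.1 b.2).choose = cb at eb ⊢
        rw [ea, Matrix.mul_smul, Matrix.smul_mul, eb, smul_smul]

theorem card_projQuot_sim {κ : Type} [Fintype κ] [DecidableEq κ] [Nonempty κ] {M : Matrix κ κ F}
    (hM : M ≠ 0) (hall : ∀ c : Fˣ, ∃ h : GL κ F, (h : Matrix κ κ F)ᵀ * M * h = (c : F) • M) :
    Nat.card (Cfsg.projQuot (sim M)) = Nat.card (isoM M) := by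
  set μ := multHom hM with hμ
  have hspec : ∀ h : ↥(sim M), (h.1 : Matrix κ κ F)ᵀ * M * h.1 = (μ h : F) • M := fun h =>
    (mem_sim.1 h.2).choose_spec
  have hu : ∀ (c c' : Fˣ), (c : F) • M = (c' : F) • M → c = c' := fun c c' hcc =>
    Units.ext (smul_left_injective F hM hcc)
  have hsurj : Function.Surjective μ := fun c => by
    obtain ⟨h, hh⟩ := hall c
    exact ⟨⟨h, c, hh⟩, hu _ _ ((hspec _).symm.trans hh)⟩
  have hk : Nat.card μ.ker = Nat.card (isoM M) := by
    refine Nat.card_congr ⟨fun h => ⟨h.1.1, ?_⟩, fun h => ⟨⟨h.1, 1, ?_⟩, ?_⟩, fun h => rfl, fun h => rfl⟩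
    · have := hspec h.1
      rw [MonoidHom.mem_ker.1 h.2, Units.val_one, one_smul] at this
      exact this
    · rw [Units.val_one, one_smul]; exact h.2
    · exact hu _ _ ((hspec _).symm.trans
        (h.2.trans ((congrArg (· • M) Units.val_one).trans (one_smul F M)).symm))
  have hs : Nat.card ((Cfsg.Geo.scalars κ F).subgroupOf (sim M)) = Nat.card Fˣ := by
    rw [Nat.card_congr (Subgroup.subgroupOfEquivOfLe (fun h hh => ?_)).toEquiv]
    · refine (Nat.card_congr (Equiv.ofInjective _ ?_)).symm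
      intro x y hxy
      have h := congrArg Units.val hxy
      obtain ⟨i⟩ := ‹Nonempty κ›
      have h' := congrFun (congrFun h i) i
      simp at h'
      exact Units.ext h'
    · obtain ⟨c, rfl⟩ := mem_scalars.1 hh
      exact scalar_mem_sim M c
  have e1 := Subgroup.card_eq_card_quotient_mul_card_subgroup μ.ker
  rw [Nat.card_congr (QuotientGroup.quotientKerEquivOfSurjective μ hsurj).toEquiv, hk] at e1
  have e2 := Subgroup.card_eq_card_quotient_mul_card_subgroup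
    ((Cfsg.Geo.scalars κ F).subgroupOf (sim M))
  rw [hs, e1, mul_comm] at e2
  exact (Nat.eq_of_mul_eq_mul_right Nat.card_pos e2).symm

theorem card_quot_plus (h2 : (2 : F) ≠ 0) (k : ℕ) :
    Nat.card (Cfsg.projQuot (sim (hypM (k + 1) F))) =
      2 * Fintype.card F ^ ((k + 1) * k) * (Fintype.card F ^ (k + 1) - 1) *
        ∏ i ∈ Finset.range k, (Fintype.card F ^ (2 * (i + 1)) - 1) := by
  have hd : (hypM (k + 1) F).det ≠ 0 := by
    rw [det_hypM]; exact pow_ne_zero _ (neg_ne_zero.2 one_ne_zero)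
  rw [card_projQuot_sim (fun h => hd (by rw [h, det_zero])) (fun c => ?_),
    ← Classical.Quad.card_O_plus k, ← isometry_eq (hypM_symm _) h2 (hypM_val _)]
  · rfl
  · refine congr_symm h2 (hypM_symm _) (by rw [transpose_smul, hypM_symm]) hd ?_ ?_
    · rw [det_smul]; exact mul_ne_zero (pow_ne_zero _ c.ne_zero) hd
    · refine ⟨(hypM (k + 1) F).det * (c : F) ^ (k + 1), ?_⟩
      rw [det_smul, show Fintype.card (Fin (k + 1) ⊕ Fin (k + 1)) = (k + 1) + (k + 1) by simp]
      ring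

theorem card_quot_minus (h2 : (2 : F) ≠ 0) (k : ℕ) {a b : F}
    (hab : ∀ z₁ z₂ : F, z₁ ^ 2 + a * z₁ * z₂ + b * z₂ ^ 2 = 0 → z₁ = 0 ∧ z₂ = 0) :
    Nat.card (Cfsg.projQuot (sim (minusM k a b))) =
      2 * Fintype.card F ^ ((k + 1) * k) * (Fintype.card F ^ (k + 1) + 1) *
        ∏ i ∈ Finset.range k, (Fintype.card F ^ (2 * (i + 1)) - 1) := by
  have hd := det_minusM_ne_zero h2 k hab
  rw [card_projQuot_sim (fun h => hd (by rw [h, det_zero])) (fun c => ?_),
    ← Classical.Quad.card_O_minus hab k, ← isometry_eq (minusM_symm _ _ _) h2 (minusM_val _ _ _)]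
  · rfl
  · refine congr_symm h2 (minusM_symm _ _ _) (by rw [transpose_smul, minusM_symm]) hd ?_ ?_
    · rw [det_smul]; exact mul_ne_zero (pow_ne_zero _ c.ne_zero) hd
    · refine ⟨(minusM k a b).det * (c : F) ^ (k + 1), ?_⟩
      rw [det_smul, show Fintype.card ((Fin k ⊕ Fin k) ⊕ Fin 2) = (k + 1) + (k + 1) by simp; omega]
      ring

theorem card_quot_symp (k : ℕ) :
    Nat.card (Cfsg.projQuot (sim (Matrix.J (Fin (k + 1)) F))) =
      Fintype.card F ^ ((k + 1) ^ 2) *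
        ∏ i ∈ Finset.range (k + 1), (Fintype.card F ^ (2 * (i + 1)) - 1) := by
  rw [card_projQuot_sim (fun h => det_J_ne_zero (F := F) (k + 1) (by rw [h, det_zero])) (fun c => ?_),
    ← Classical.card_symplecticGroup]
  · refine Nat.card_congr ⟨fun h => ⟨(h.1 : Matrix (Fin (k + 1) ⊕ Fin (k + 1)) (Fin (k + 1) ⊕ Fin (k + 1)) F),
        SymplecticGroup.mem_iff'.2 h.2⟩,
      fun A => ⟨Forms.spToGL _ F A, SymplecticGroup.mem_iff'.1 A.2⟩, fun h => ?_, fun A => rfl⟩
    exact Subtype.ext (Units.ext rfl)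
  · refine ⟨GeneralLinearGroup.mkOfDetNeZero (Matrix.fromBlocks ((c : F) • 1) 0 0 1) ?_, ?_⟩
    · rw [det_fromBlocks_zero₂₁, det_smul, det_one, mul_one, mul_one]
      exact pow_ne_zero _ c.ne_zero
    · show (Matrix.fromBlocks ((c : F) • 1) 0 0 1)ᵀ * Matrix.J (Fin (k + 1)) F *
        Matrix.fromBlocks ((c : F) • 1) 0 0 1 = _
      rw [Matrix.J, fromBlocks_transpose, fromBlocks_multiply, fromBlocks_multiply]
      simp [fromBlocks_smul]

theorem det_range_symp (m : ℕ) :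
    (sim (Matrix.J (Fin m) F)).map GeneralLinearGroup.det = (powMonoidHom m : Fˣ →* Fˣ).range := by
  have hJ : ∀ a b : F, (Matrix.fromBlocks (a • 1) 0 0 1 :
      Matrix (Fin m ⊕ Fin m) (Fin m ⊕ Fin m) F)ᵀ * Matrix.J (Fin m) F *
        Matrix.fromBlocks (b • 1) 0 0 1 = Matrix.fromBlocks 0 (-(a • 1)) (b • 1) 0 := by
    intro a b
    rw [Matrix.J, fromBlocks_transpose, fromBlocks_multiply, fromBlocks_multiply]
    simp
  have hJc : ∀ a : F, (Matrix.fromBlocks (a • 1) 0 0 1 :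
      Matrix (Fin m ⊕ Fin m) (Fin m ⊕ Fin m) F)ᵀ * Matrix.J (Fin m) F *
        Matrix.fromBlocks (a • 1) 0 0 1 = a • Matrix.J (Fin m) F := fun a => by
    rw [hJ, Matrix.J, fromBlocks_smul]; simp
  have hdet : ∀ a : F, (Matrix.fromBlocks (a • 1) 0 0 1 :
      Matrix (Fin m ⊕ Fin m) (Fin m ⊕ Fin m) F).det = a ^ m := fun a => by
    rw [det_fromBlocks_zero₂₁, det_smul, det_one, mul_one, mul_one, Fintype.card_fin]
  refine le_antisymm ?_ ?_
  · rintro _ ⟨h, ⟨c, hc⟩, rfl⟩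
    refine ⟨c, Units.ext ?_⟩
    rw [powMonoidHom_apply, Units.val_pow_eq_pow_val, GeneralLinearGroup.val_det_apply]
    set d : Matrix (Fin m ⊕ Fin m) (Fin m ⊕ Fin m) F := Matrix.fromBlocks ((c : F)⁻¹ • 1) 0 0 1 with hd
    have hk : (h : Matrix _ _ F) * d ∈ Matrix.symplecticGroup (Fin m) F := by
      rw [SymplecticGroup.mem_iff', transpose_mul, show dᵀ * (h : Matrix _ _ F)ᵀ * Matrix.J (Fin m) F *
        ((h : Matrix _ _ F) * d) = dᵀ * ((h : Matrix _ _ F)ᵀ * Matrix.J (Fin m) F * (h : Matrix _ _ F)) * d by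
          simp only [mul_assoc], hc, Matrix.mul_smul, Matrix.smul_mul, hd, hJc, smul_smul,
        mul_inv_cancel₀ c.ne_zero, one_smul]
    have h1 := SymplecticGroup.det_eq_one hk
    rw [det_mul, hd, hdet, inv_pow] at h1
    exact ((mul_inv_eq_one₀ (pow_ne_zero _ c.ne_zero)).1 h1).symm
  · rintro _ ⟨c, rfl⟩
    refine ⟨GeneralLinearGroup.mkOfDetNeZero (Matrix.fromBlocks ((c : F) • 1) 0 0 1)
      (by rw [hdet]; exact pow_ne_zero _ c.ne_zero), ⟨c, hJc _⟩, Units.ext ?_⟩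
    rw [GeneralLinearGroup.val_det_apply, powMonoidHom_apply, Units.val_pow_eq_pow_val]
    exact hdet _

theorem det_range_symm (h2 : (2 : F) ≠ 0) {m : ℕ} (hm : 1 ≤ m) (hnm : n = 2 * m) {g : GL (Fin n) F}
    (hs : (g : Matrix (Fin n) (Fin n) F)ᵀ = (g : Matrix (Fin n) (Fin n) F)) :
    (sim (g : Matrix (Fin n) (Fin n) F)).map GeneralLinearGroup.det =
      ((powMonoidHom n : Fˣ →* Fˣ).range).comap (powMonoidHom 2) := by
  refine le_antisymm ?_ ?_
  · rintro _ ⟨h, ⟨c, hc⟩, rfl⟩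
    refine ⟨c, ?_⟩
    rw [powMonoidHom_apply, powMonoidHom_apply, pow_two, det_sq_of_sim (det_gl_ne g) hc, Fintype.card_fin]
  · -- a reflection of determinant minus one
    obtain ⟨v, hv⟩ : ∃ v, Matrix.toBilin' (g : Matrix (Fin n) (Fin n) F) v v ≠ 0 := by
      by_contra! hall
      have h' : ∀ x y, Matrix.toBilin' (g : Matrix (Fin n) (Fin n) F) x y = 0 := fun x y => by
        have h1 := hall (x + y)
        simp only [map_add, LinearMap.add_apply, hall x, hall y] at h1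
        rw [bilin_flip (ε := 1) (by rw [one_smul, hs]) x y, one_mul] at h1
        exact (mul_eq_zero.1 (show (2 : F) * Matrix.toBilin' (g : Matrix (Fin n) (Fin n) F) x y = 0 by
          linear_combination h1)).resolve_left h2
      rcases Nat.eq_zero_or_pos n with h0 | h0
      · omega
      · exact det_gl_ne g (det_eq_zero_of_row_eq_zero ⟨0, h0⟩ fun j => by
          rw [← Matrix.toBilin'_single (g : Matrix (Fin n) (Fin n) F) ⟨0, h0⟩ j, h'])
    set G := (g : Matrix (Fin n) (Fin n) F)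
    set B := Matrix.toBilin' G v v with hB
    set R : Matrix (Fin n) (Fin n) F := 1 + vecMulVec ((-2 / B) • v) (G *ᵥ v) with hR
    have hRd : R.det = -1 := by
      rw [hR, vecMulVec_eq Unit, det_one_add_replicateCol_mul_replicateRow, dotProduct_smul,
        dotProduct_comm, ← Matrix.toBilin'_apply', ← hB, smul_eq_mul]
      field_simp
      ring
    have hRv : ∀ x, R *ᵥ x = x + ((-2 / B) * Matrix.toBilin' G x v) • v := fun x => by
      rw [hR, add_mulVec, one_mulVec, vecMulVec_mulVec, op_smul_eq_smul, smul_smul,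
        Matrix.toBilin'_apply', dotProduct_comm x, mul_comm]
    have hRiso : Rᵀ * G * R = G := by
      refine Matrix.toBilin'.injective ?_
      rw [← Matrix.toBilin'_comp]
      refine LinearMap.ext fun x => LinearMap.ext fun y => ?_
      rw [LinearMap.BilinForm.comp_apply, Matrix.toLin'_apply, Matrix.toLin'_apply, hRv, hRv]
      simp only [map_add, map_smul, LinearMap.add_apply, LinearMap.smul_apply, smul_eq_mul]
      rw [bilin_flip (ε := 1) (by rw [one_smul, hs]) y v, one_mul, ← hB]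
      field_simp
      ring
    have hneg : (-1 : Fˣ) ∈ (sim G).map GeneralLinearGroup.det :=
      ⟨GeneralLinearGroup.mkOfDetNeZero R (by rw [hRd]; exact neg_ne_zero.2 one_ne_zero),
        ⟨1, by rw [Units.val_one, one_smul]; exact hRiso⟩,
        Units.ext (by rw [GeneralLinearGroup.val_det_apply]; simpa using hRd)⟩
    rintro D ⟨c, hc⟩
    simp only [powMonoidHom_apply] at hc
    -- a similitude with multiplier c
    obtain ⟨P', hP'⟩ := congr_symm h2 hs (g' := (c : F) • G) (by rw [transpose_smul, hs]) (det_gl_ne g)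
      (by rw [det_smul]; exact mul_ne_zero (pow_ne_zero _ c.ne_zero) (det_gl_ne g))
      ⟨G.det * (c : F) ^ m, by
        rw [det_smul, Fintype.card_fin, show (c : F) ^ n = (c : F) ^ (2 * m) from congrArg ((c : F) ^ ·) hnm,
          two_mul, pow_add]
        ring⟩
    have hP : GeneralLinearGroup.det P' ∈ (sim G).map GeneralLinearGroup.det := ⟨P', ⟨c, hP'⟩, rfl⟩
    have h1 := det_sq_of_sim (det_gl_ne g) hP'
    rw [Fintype.card_fin, hc] at h1
    have h1' : (GeneralLinearGroup.det P' : F) * GeneralLinearGroup.det P' = (D : F) * D := by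
      rw [← Units.val_mul, h1, pow_two, Units.val_mul]
    rcases mul_self_eq_mul_self_iff.1 h1'.symm with h' | h'
    · rwa [show D = GeneralLinearGroup.det P' from Units.ext h']
    · rw [show D = (-1 : Fˣ) * GeneralLinearGroup.det P' from Units.ext (by rw [h']; simp)]
      exact mul_mem hneg hP

theorem index_comap_sq (h2 : (2 : F) ≠ 0) {m : ℕ} :
    (((powMonoidHom (2 * m) : Fˣ →* Fˣ).range).comap (powMonoidHom 2)).index * 2 =
      Nat.gcd (2 * m) (Fintype.card F - 1) := by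
  have hle : (powMonoidHom (2 * m) : Fˣ →* Fˣ).range ≤ (powMonoidHom 2 : Fˣ →* Fˣ).range := by
    rintro _ ⟨c, rfl⟩
    exact ⟨c ^ m, by rw [powMonoidHom_apply, powMonoidHom_apply, ← pow_mul, mul_comm]⟩
  have h2i : (powMonoidHom 2 : Fˣ →* Fˣ).range.index = 2 := by
    rw [index_pow_range]
    have : 2 ∣ Fintype.card F - 1 := by
      obtain ⟨r, hr⟩ := FiniteField.odd_card_of_char_ne_two (F := F) (fun h => h2 (by
        haveI := ringChar.of_eq h
        exact_mod_cast CharP.cast_eq_zero F 2)) |> Nat.odd_iff.2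
      exact ⟨r, by omega⟩
    exact Nat.gcd_eq_left this
  rw [← index_pow_range (F := F) (2 * m), Subgroup.index_comap, ← Subgroup.relIndex_mul_index hle, h2i]

theorem split_graph {p f : ℕ} [Fact p.Prime] (hF : Fintype.card F = p ^ f) (hf : 1 ≤ f) (hn : 3 ≤ n)
    (γ : MulAut (P n F)) (hγ : Cfsg.IsGraphAutClassPSL γ) (hγ2 : orderOf γ = 2) :
    ((Even n ∧ Odd p ∧ Nonempty (↥(Cfsg.inndiagPSL n F ⊓ Subgroup.centralizer {γ}) ≃* Cfsg.PGSp (n / 2) F)) →
      Cfsg.splitClassCount (Cfsg.inndiagPSL n F) (Cfsg.Inn (P n F)) γ = Nat.gcd (n / 2) (p ^ f - 1)) ∧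
    ((Even n ∧ Odd p ∧ ¬ Nonempty (↥(Cfsg.inndiagPSL n F ⊓ Subgroup.centralizer {γ}) ≃* Cfsg.PGSp (n / 2) F)) →
      Cfsg.splitClassCount (Cfsg.inndiagPSL n F) (Cfsg.Inn (P n F)) γ = Nat.gcd n (p ^ f - 1) / 2) ∧
    (¬ (Even n ∧ Odd p) →
      Cfsg.splitClassCount (Cfsg.inndiagPSL n F) (Cfsg.Inn (P n F)) γ = Nat.gcd n (p ^ f - 1)) := by
  haveI : NeZero n := ⟨by omega⟩
  have hn2 : 2 ≤ n := by omega
  obtain ⟨g, ε, rfl, hε, hg⟩ := exists_gr hn hγ hγ2
  have hp2 : Odd p ↔ (2 : F) ≠ 0 := by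
    haveI : CharP F p := charP_of_card_eq_prime_pow (R := F) (f := f) hF
    constructor
    · intro ho h
      have h2 : p ∣ 2 := (CharP.cast_eq_zero_iff F p 2).1 (by exact_mod_cast h)
      rw [(Nat.prime_dvd_prime_iff_eq (Fact.out) Nat.prime_two).1 h2] at ho
      exact absurd ho (by decide)
    · intro h
      refine (Nat.Prime.eq_two_or_odd' Fact.out).resolve_left ?_
      rintro rfl
      exact h (by exact_mod_cast CharP.cast_eq_zero F 2)
  rw [← hF]
  have hsplit : ∀ {κ : Type} [Fintype κ] [DecidableEq κ] (M : Matrix κ κ F) (e : κ ≃ Fin n),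
      Congr (g : Matrix (Fin n) (Fin n) F) (Matrix.reindex e e M) →
      Cfsg.splitClassCount (Cfsg.inndiagPSL n F) (Cfsg.Inn (P n F)) (gr g) =
        ((sim M).map GeneralLinearGroup.det).index := fun M e h =>
    split_gr hn2 e one_ne_zero (by rw [one_smul]; exact h)
  have hself : Congr (g : Matrix (Fin n) (Fin n) F)
      (Matrix.reindex (Equiv.refl _) (Equiv.refl _) (g : Matrix (Fin n) (Fin n) F)) := Congr.refl _
  have hrest : ¬ (Even n ∧ Odd p) → Cfsg.splitClassCount (Cfsg.inndiagPSL n F) (Cfsg.Inn (P n F)) (gr g) =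
      Nat.gcd n (Fintype.card F - 1) := fun h => by
    rw [hsplit _ _ hself, det_range_other (fun h' => h ⟨h'.1, hp2.2 h'.2⟩), index_pow_range]
  by_cases hcase : Even n ∧ Odd p
  swap
  · exact ⟨fun h => absurd ⟨h.1, h.2.1⟩ hcase, fun h => absurd ⟨h.1, h.2.1⟩ hcase, hrest⟩
  obtain ⟨⟨m, hnm⟩, hpo⟩ := hcase
  have hnm' : n = 2 * m := by omega
  have h2 := hp2.1 hpo
  have hdiv : n / 2 = m := by omega
  obtain ⟨k, rfl⟩ : ∃ k, m = k + 1 := ⟨m - 1, by omega⟩
  obtain ⟨b, hab⟩ := Classical.UnitaryFlat.exists_aniso F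
  let e : Fin (k + 1) ⊕ Fin (k + 1) ≃ Fin n := Fintype.equivFinOfCardEq (by simp; omega)
  let e' : (Fin k ⊕ Fin k) ⊕ Fin 2 ≃ Fin n := Fintype.equivFinOfCardEq (by simp; omega)
  rw [hdiv]
  rcases classify_even h2 rfl hnm' hab e e' hε hg with ⟨-, h⟩ | ⟨h1, h⟩
  · have hiso : Nonempty (↥(Cfsg.inndiagPSL n F ⊓ Subgroup.centralizer {gr g}) ≃* Cfsg.PGSp (k + 1) F) :=
      centralizer_eqSim hn2 e one_ne_zero (by rw [one_smul]; exact h) (gsp_eq _)
    refine ⟨fun _ => ?_, fun h' => absurd hiso h'.2.2, fun h' => absurd ⟨⟨_, hnm⟩, hpo⟩ h'⟩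
    rw [hsplit _ _ h, det_range_symp, index_pow_range]
  · subst h1
    rw [one_smul] at hg
    have hno : ¬ Nonempty (↥(Cfsg.inndiagPSL n F ⊓ Subgroup.centralizer {gr g}) ≃* Cfsg.PGSp (k + 1) F) := by
      rintro ⟨iso⟩
      have hsp : Nat.card (Cfsg.PGSp (k + 1) F) = Fintype.card F ^ ((k + 1) ^ 2) *
          ∏ i ∈ Finset.range (k + 1), (Fintype.card F ^ (2 * (i + 1)) - 1) := by
        rw [← card_quot_symp, ← gsp_eq]
      have hlt : ∀ s : ℕ, s ≤ Fintype.card F ^ (k + 1) + 1 →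
          2 * Fintype.card F ^ ((k + 1) * k) * s *
            ∏ i ∈ Finset.range k, (Fintype.card F ^ (2 * (i + 1)) - 1) <
          Fintype.card F ^ ((k + 1) ^ 2) *
            ∏ i ∈ Finset.range (k + 1), (Fintype.card F ^ (2 * (i + 1)) - 1) := by
        intro s hs
        rw [Finset.prod_range_succ, show (k + 1) ^ 2 = (k + 1) * k + (k + 1) by ring, pow_add]
        have hq : 3 ≤ Fintype.card F := by
          have : 1 < Fintype.card F := Fintype.one_lt_card
          have hne : Fintype.card F ≠ 2 := fun h => h2 (by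
            haveI : CharP F 2 := charP_of_card_eq_prime_pow (R := F) (f := 1) (by rw [h]; rfl)
            exact CharTwo.two_eq_zero)
          omega
        have hQ : 3 ≤ Fintype.card F ^ (k + 1) :=
          hq.trans (Nat.le_self_pow (by omega) _)
        have hpos : 0 < ∏ i ∈ Finset.range k, (Fintype.card F ^ (2 * (i + 1)) - 1) :=
          Finset.prod_pos fun i _ => Nat.sub_pos_of_lt (Nat.one_lt_pow (by omega) (by omega))
        have hkey : 2 * s < Fintype.card F ^ (k + 1) * (Fintype.card F ^ (2 * (k + 1)) - 1) := by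
          rw [mul_comm 2 (k + 1), pow_mul]
          generalize Fintype.card F ^ (k + 1) = Q at hQ hs ⊢
          have h9 : 3 * Q ≤ Q ^ 2 := by rw [pow_two]; exact Nat.mul_le_mul_right Q hQ
          have : 2 * (Q ^ 2 - 1) ≤ Q * (Q ^ 2 - 1) := Nat.mul_le_mul_right _ (by omega)
          omega
        have hA : 0 < Fintype.card F ^ ((k + 1) * k) := pow_pos (by omega) _
        calc _ = (Fintype.card F ^ ((k + 1) * k) *
              ∏ i ∈ Finset.range k, (Fintype.card F ^ (2 * (i + 1)) - 1)) * (2 * s) := by ring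
          _ < (Fintype.card F ^ ((k + 1) * k) *
              ∏ i ∈ Finset.range k, (Fintype.card F ^ (2 * (i + 1)) - 1)) *
                (Fintype.card F ^ (k + 1) * (Fintype.card F ^ (2 * (k + 1)) - 1)) :=
            Nat.mul_lt_mul_of_pos_left hkey (Nat.mul_pos hA hpos)
          _ = _ := by ring
      rcases h with ⟨-, h⟩ | ⟨-, h⟩
      · obtain ⟨e1⟩ := centralizer_gr (g := g) hn2 e one_ne_zero (by rw [one_smul]; exact h)
        have := (Nat.card_congr (e1.symm.trans iso).toEquiv).trans hsp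
        rw [card_quot_plus h2 k] at this
        exact absurd this (ne_of_lt (hlt _ (by omega)))
      · obtain ⟨e1⟩ := centralizer_gr (g := g) hn2 e' one_ne_zero (by rw [one_smul]; exact h)
        have := (Nat.card_congr (e1.symm.trans iso).toEquiv).trans hsp
        rw [card_quot_minus h2 k hab] at this
        exact absurd this (ne_of_lt (hlt _ le_rfl))
    refine ⟨fun h' => absurd h'.2.2 hno, fun _ => ?_, fun h' => absurd ⟨⟨_, hnm⟩, hpo⟩ h'⟩
    rw [hsplit _ _ hself, det_range_symm h2 (by omega) hnm' hg]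
    have := index_comap_sq (F := F) h2 (m := k + 1)
    rw [← hnm'] at this
    omega

/-! ### Characteristic two, even dimension -/

theorem two_classes [CharP F 2] {m : ℕ} (hm : 2 ≤ m) (hnm : n = 2 * m) :
    ∃ (γ₁ γ₃ : MulAut (P n F)) (t : ↥(Matrix.symplecticGroup (Fin m) F)),
      Cfsg.IsTransvection (t : Matrix (Fin m ⊕ Fin m) (Fin m ⊕ Fin m) F) ∧
      Cfsg.IsGraphAutClassPSL γ₁ ∧ orderOf γ₁ = 2 ∧ Cfsg.IsGraphAutClassPSL γ₃ ∧ orderOf γ₃ = 2 ∧
      ¬ Cfsg.IsConjUnder (Cfsg.inndiagPSL n F) γ₁ γ₃ ∧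
      (∀ γ : MulAut (P n F), Cfsg.IsGraphAutClassPSL γ → orderOf γ = 2 →
        Cfsg.IsConjUnder (Cfsg.inndiagPSL n F) γ₁ γ ∨ Cfsg.IsConjUnder (Cfsg.inndiagPSL n F) γ₃ γ) ∧
      Nonempty (↥(Cfsg.inndiagPSL n F ⊓ Subgroup.centralizer {γ₁}) ≃* ↥(Matrix.symplecticGroup (Fin m) F)) ∧
      Nonempty (↥(Cfsg.inndiagPSL n F ⊓ Subgroup.centralizer {γ₃}) ≃*
        ↥(Subgroup.centralizer ({t} : Set ↥(Matrix.symplecticGroup (Fin m) F)))) := by
  haveI : NeZero n := ⟨by omega⟩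
  have hn : 3 ≤ n := by omega
  have hn2 : 2 ≤ n := by omega
  let e : Fin m ⊕ Fin m ≃ Fin n := Fintype.equivFinOfCardEq (by simp; omega)
  let i0 : Fin m := ⟨0, by omega⟩
  let v : Fin m ⊕ Fin m → F := Pi.single (Sum.inr i0) 1
  let w : Fin m ⊕ Fin m → F := Pi.single (Sum.inl i0) 1
  let M : Matrix (Fin m ⊕ Fin m) (Fin m ⊕ Fin m) F := Matrix.J (Fin m) F + vecMulVec w w
  have hw : Matrix.J (Fin m) F *ᵥ v = w := by
    funext x
    rcases x with x | x <;>
      simp [v, w, Matrix.mulVec, dotProduct, Matrix.J, Pi.single_apply, Matrix.one_apply,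
        Fintype.sum_sum_type, CharTwo.neg_eq]
  have hwv : w ⬝ᵥ v = 0 := by simp [v, w]
  have hMs : Mᵀ = M := by
    rw [transpose_add, J_symm, transpose_vecMulVec]
  have hMval : ∀ x y, Matrix.toBilin' M x y =
      Matrix.toBilin' (Matrix.J (Fin m) F) x y + (w ⬝ᵥ x) * (w ⬝ᵥ y) := fun x y => by
    rw [map_add, LinearMap.add_apply, LinearMap.add_apply]
    congr 1
    rw [Matrix.toBilin'_apply', vecMulVec_mulVec, dotProduct_smul, dotProduct_comm x w,
      op_smul_eq_smul, smul_eq_mul, mul_comm]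
  have hMd : M.det ≠ 0 := by
    refine (LinearMap.BilinForm.nondegenerate_toBilin'_iff_det_ne_zero).1 ?_
    have key : ∀ x, (∀ y, Matrix.toBilin' M x y = 0) → x = 0 := fun x hx => by
      have hwx : w ⬝ᵥ x = 0 := by
        have h := hx v
        rw [hMval, hwv, mul_zero, add_zero, Matrix.toBilin'_apply', hw, dotProduct_comm] at h
        exact h
      refine bilin_nondeg (det_J_ne_zero (F := F) m) fun y => ?_
      have h := hx y
      rwa [hMval, hwx, zero_mul, add_zero] at h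
    refine ⟨key, fun y hy => key y fun x => ?_⟩
    rw [bilin_flip (ε := 1) (by rw [one_smul, hMs]), one_mul, hy]
  set g₁ := mdl e (Matrix.J (Fin m) F) (det_J_ne_zero m) with hg₁
  set g₃ := mdl e M hMd with hg₃
  have t1 : (g₁ : Matrix (Fin n) (Fin n) F)ᵀ = (1 : F) • (g₁ : Matrix (Fin n) (Fin n) F) := by
    rw [hg₁, mdl_val]
    exact reindex_transpose_smul e (by rw [J_symm, one_smul])
  have t3 : (g₃ : Matrix (Fin n) (Fin n) F)ᵀ = (1 : F) • (g₃ : Matrix (Fin n) (Fin n) F) := by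
    rw [hg₃, mdl_val]
    exact reindex_transpose_smul e (by rw [hMs, one_smul])
  have halt : ∀ x, Matrix.toBilin' (g₁ : Matrix (Fin n) (Fin n) F) x x = 0 := fun x => by
    rw [hg₁, mdl_val, reindex_diag]; exact J_diag m _
  have hnalt : ∃ x, Matrix.toBilin' (g₃ : Matrix (Fin n) (Fin n) F) x x ≠ 0 := by
    refine ⟨w ∘ e.symm, ?_⟩
    rw [hg₃, mdl_val, reindex_diag, hMval, Function.comp_assoc, Equiv.symm_comp_self, Function.comp_id,
      J_diag, zero_add]
    simp [w]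
  let T : ↥(Matrix.symplecticGroup (Fin m) F) := ⟨_, Forms.sympTransvection_mem m v 1⟩
  have hT : (T : Matrix (Fin m ⊕ Fin m) (Fin m ⊕ Fin m) F) = 1 + vecMulVec v w := by
    show Cfsg.sympTransvection m v 1 = _
    rw [Cfsg.sympTransvection, one_smul, hw]
  refine ⟨gr g₁, gr g₃, T, ?_, isGraph_gr hn _, orderOf_gr hn t1, isGraph_gr hn _, orderOf_gr hn t3,
    ?_, ?_, ?_, ?_⟩
  · rw [Cfsg.IsTransvection, hT, add_sub_cancel_left]
    refine ⟨le_antisymm (rank_vecMulVec_le v w) (Nat.one_le_iff_ne_zero.2 fun h => ?_), ?_⟩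
    · rw [Matrix.rank, Submodule.finrank_eq_zero, LinearMap.range_eq_bot] at h
      have h' := congrArg (fun L => L w (Sum.inr i0)) h
      simp [v, w, vecMulVec_apply] at h'
    · rw [vecMulVec_mul_vecMulVec, hwv, zero_smul]
      simp
  · intro hcj
    obtain ⟨c, hc, hcg⟩ := (gr_conj_iff hn2).1 hcj
    obtain ⟨x, hx⟩ := hnalt
    have h := hcg.diag_zero halt x
    rw [map_smul, LinearMap.smul_apply, LinearMap.smul_apply, smul_eq_mul] at h
    exact hx ((mul_eq_zero.1 h).resolve_left hc)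
  · intro γ hγ hγ2
    obtain ⟨g, ε, rfl, hε, hg⟩ := exists_gr hn hγ hγ2
    have hs : (g : Matrix (Fin n) (Fin n) F)ᵀ = (g : Matrix (Fin n) (Fin n) F) := by
      rcases mul_self_eq_one_iff.1 hε with rfl | rfl
      · rw [hg, one_smul]
      · rw [hg, CharTwo.neg_eq, one_smul]
    by_cases hall : ∀ x, Matrix.toBilin' (g : Matrix (Fin n) (Fin n) F) x x = 0
    · exact Or.inl ((gr_conj_iff hn2).2 ⟨1, one_ne_zero, by
        rw [one_smul]; exact congr_alt (det_gl_ne _) (det_gl_ne _) halt hall⟩)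
    · push Not at hall
      exact Or.inr ((gr_conj_iff hn2).2 ⟨1, one_ne_zero, by
        rw [one_smul]
        exact congr_nonalt (by rw [t3, one_smul]) hs (det_gl_ne _) (det_gl_ne _) hnalt hall⟩)
  · obtain ⟨e1⟩ := centralizer_gr (g := g₁) hn2 e one_ne_zero (congr_mdl e _ _)
    obtain ⟨e2⟩ := projQuot_GSp (F := F) m
    exact ⟨e1.trans e2⟩
  · obtain ⟨e1⟩ := centralizer_gr (g := g₃) hn2 e one_ne_zero (congr_mdl e _ _)
    let φ : ↥(Subgroup.centralizer ({T} : Set ↥(Matrix.symplecticGroup (Fin m) F))) →*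
        GL (Fin m ⊕ Fin m) F := (Forms.spToGL m F).comp (Subgroup.subtype _)
    have hkey : ∀ A : ↥(Matrix.symplecticGroup (Fin m) F),
        A ∈ Subgroup.centralizer ({T} : Set ↥(Matrix.symplecticGroup (Fin m) F)) ↔
          (A : Matrix (Fin m ⊕ Fin m) (Fin m ⊕ Fin m) F)ᵀ *ᵥ w = w := fun A => by
      set A' := (A : Matrix (Fin m ⊕ Fin m) (Fin m ⊕ Fin m) F)
      have hA := SymplecticGroup.mem_iff'.1 A.2
      have hwA : A'ᵀ *ᵥ (Matrix.J (Fin m) F *ᵥ (A' *ᵥ v)) = w := by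
        rw [mulVec_mulVec, mulVec_mulVec, hA, hw]
      rw [Subgroup.mem_centralizer_singleton_iff, ← Subtype.coe_inj]
      simp only [Submonoid.coe_mul, hT]
      rw [mul_add, add_mul, one_mul, mul_one, add_right_inj, mul_vecMulVec, vecMulVec_mul,
        ← mulVec_transpose]
      constructor
      · intro h
        -- the image of v is a multiple of v
        have hx := congrFun (congrFun h (Sum.inr i0)) (Sum.inl i0)
        simp only [vecMulVec_apply, v, w, Pi.single_eq_same, one_mul, mul_one] at hx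
        set l := (A'ᵀ *ᵥ w) (Sum.inl i0) with hl
        have hv : A' *ᵥ v = l • v := funext fun x => by
          have h' := congrFun (congrFun h x) (Sum.inl i0)
          simp only [vecMulVec_apply] at h'
          rw [Pi.smul_apply, smul_eq_mul, hl]
          simpa [w, mul_comm] using h'
        rw [hv, mulVec_smul, hw, mulVec_smul] at hwA
        have h1 : l * l = 1 := by
          have := congrFun hwA (Sum.inl i0)
          simpa [w, hl] using this
        have hl1 : l = 1 := by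
          rcases mul_self_eq_one_iff.1 h1 with h1 | h1
          · exact h1
          · rw [h1, CharTwo.neg_eq]
        rw [hl1, one_smul] at hwA
        exact hwA
      · intro h
        have hv : A' *ᵥ v = v := by
          have hu : IsUnit (A'ᵀ * Matrix.J (Fin m) F).det := by
            rw [det_mul, det_transpose, SymplecticGroup.det_eq_one A.2, one_mul]
            exact Matrix.isUnit_det_J _ _
          refine Matrix.mulVec_injective_iff_isUnit.2 ((Matrix.isUnit_iff_isUnit_det _).2 hu) ?_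
          show (A'ᵀ * Matrix.J (Fin m) F) *ᵥ (A' *ᵥ v) = (A'ᵀ * Matrix.J (Fin m) F) *ᵥ v
          rw [← mulVec_mulVec, ← mulVec_mulVec, hwA, hw, h]
        rw [hv, h]
    have hiso : ∀ h : GL (Fin m ⊕ Fin m) F, h ∈ isoM M ↔
        (h : Matrix (Fin m ⊕ Fin m) (Fin m ⊕ Fin m) F) ∈ Matrix.symplecticGroup (Fin m) F ∧
          (h : Matrix (Fin m ⊕ Fin m) (Fin m ⊕ Fin m) F)ᵀ *ᵥ w = w := fun h => by
      have hexp : (h : Matrix _ _ F)ᵀ * M * (h : Matrix _ _ F) =
          (h : Matrix _ _ F)ᵀ * Matrix.J (Fin m) F * (h : Matrix _ _ F) +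
            vecMulVec ((h : Matrix _ _ F)ᵀ *ᵥ w) ((h : Matrix _ _ F)ᵀ *ᵥ w) := by
        rw [mul_add, add_mul, mul_vecMulVec, vecMulVec_mul, mulVec_transpose]
      constructor
      · intro hh
        have hd : ∀ x, w ⬝ᵥ ((h : Matrix _ _ F) *ᵥ x) = w ⬝ᵥ x := fun x => by
          have e2 := congrArg (fun X => Matrix.toBilin' X x x) (show _ = M from hh)
          simp only [← Matrix.toBilin'_comp, LinearMap.BilinForm.comp_apply, Matrix.toLin'_apply, hMval,
            J_diag, zero_add] at e2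
          rcases mul_self_eq_mul_self_iff.1 e2 with h2 | h2
          · exact h2
          · rw [h2, CharTwo.neg_eq]
        have hw' : (h : Matrix _ _ F)ᵀ *ᵥ w = w := by
          refine dotProduct_eq _ _ fun x => ?_
          rw [mulVec_transpose, ← dotProduct_mulVec, hd]
        refine ⟨SymplecticGroup.mem_iff'.2 ?_, hw'⟩
        have h3 : _ = M := hexp.symm.trans hh
        rw [hw'] at h3
        exact add_right_cancel h3
      · rintro ⟨h1, h2⟩
        show (h : Matrix _ _ F)ᵀ * M * (h : Matrix _ _ F) = M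
        rw [hexp, SymplecticGroup.mem_iff'.1 h1, h2]
    obtain ⟨e2⟩ : Nonempty (Cfsg.projQuot (sim M) ≃*
        ↥(Subgroup.centralizer ({T} : Set ↥(Matrix.symplecticGroup (Fin m) F)))) := by
      refine projQuot_iso _ φ (fun A => ⟨1, ?_⟩) (fun h hh => ?_) fun A c hA => ?_
      · rw [Units.val_one, one_smul]
        exact (hiso _).2 ⟨A.1.2, (hkey A.1).1 A.2⟩
      · obtain ⟨c, hc⟩ := hh
        obtain ⟨d, hd⟩ := exists_sqrt_unit c
        rw [← hd] at hc
        obtain ⟨k, hk, rfl⟩ := exists_iso_of_sq hc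
        obtain ⟨h1, h2⟩ := (hiso k).1 hk
        exact ⟨d, ⟨⟨_, h1⟩, (hkey ⟨_, h1⟩).2 h2⟩, congrArg _ (Units.ext rfl)⟩
      · have h1 : (A.1 : Matrix (Fin m ⊕ Fin m) (Fin m ⊕ Fin m) F) = (c : F) • 1 :=
          (congrArg Units.val hA).trans (scalar_val c)
        have h2 := (hkey A.1).1 A.2
        rw [h1, transpose_smul, transpose_one, smul_mulVec, one_mulVec] at h2
        have hc := congrFun h2 (Sum.inl i0)
        simp [w] at hc
        rw [hc, Units.val_one, one_smul] at h1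
        exact Subtype.ext (Subtype.ext h1)
    exact ⟨e1.trans e2⟩

end Cfsg.Agent.Lib.AutPSL
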