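import Cfsg.Agent.Lib.AutPSL.BalanceField
import Cfsg.Agent.Lib.AutPSL.GraphThms
import Cfsg.Agent.Lib.AutPSL.GraphField
import Cfsg.Agent.Lib.Balance.Semilinear
import Cfsg.Agent.Lib.Balance.SUScalar
import Cfsg.Agent.Lib.Classical.SympSimple
import Cfsg.Agent.Lib.Classical.UnitarySimple
import Cfsg.Agent.Lib.AutPSU.Count

/-!
Local balance at graph and graph-field automorphisms of `PSL_n(F)`.
-/

set_option autoImplicit false

namespace Cfsg.Agent.Lib.AutPSL

open Matrix
open Cfsg.Agent.Lib.Forms Cfsg.Agent.Lib.Classical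

variable {n : ℕ} {F : Type*} [Field F] [Fintype F]

omit [Fintype F] in
/-- The product of two semilinear maps. -/
theorem semi_mul [NeZero n] (x y : GL (Fin n) F) (σ τ : F ≃+* F) :
    (conjHom n F x * D (fieldSL σ)) * (conjHom n F y * D (fieldSL τ)) =
      conjHom n F (x * mapGL σ y) * D (fieldSL (σ * τ)) := by
  rw [map_mul fieldSL, map_mul D, map_mul (conjHom n F)]
  calc _ = conjHom n F x * (D (fieldSL σ) * conjHom n F y) * D (fieldSL τ) := by simp only [mul_assoc]
    _ = conjHom n F x * (conjHom n F (mapGL σ y) * D (fieldSL σ)) * D (fieldSL τ) := by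
        rw [show D (fieldSL σ) * conjHom n F y = conjHom n F (mapGL σ y) * D (fieldSL σ) from field_conj_D σ y]
    _ = _ := by simp only [mul_assoc]

/-- The framework: a model group of fixed points with no normal subgroup of odd order. -/
theorem core_of_model (hn : 2 ≤ n) {S₀ : MulAut (P n F)} (𝒢 : Subgroup (MulAut (P n F)))
    (hinn : Cfsg.Inn (P n F) ≤ 𝒢) {H : Type*} [Group H] (θ : H →* GL (Fin n) F)
    (hdet : ∀ h, ((θ h : GL (Fin n) F) : Matrix (Fin n) (Fin n) F).det = 1)
    (hfix : ∀ h, conjHom n F (θ h) * S₀ = S₀ * conjHom n F (θ h))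
    (hsq : ∀ s : S n F, conjHom n F (Matrix.SpecialLinearGroup.toGL s) * S₀ =
        S₀ * conjHom n F (Matrix.SpecialLinearGroup.toGL s) →
      ∃ h, conjHom n F (θ h) = conjHom n F (Matrix.SpecialLinearGroup.toGL (s * s)))
    (hbot : ∀ R : Subgroup (MulAut (P n F)), R ≤ ((conjHom n F).comp θ).range →
      (∀ t ∈ ((conjHom n F).comp θ).range, ∀ r ∈ R, t * r * t⁻¹ ∈ R) → Odd (Nat.card R) → R = ⊥)
    (hscal : ∀ (τ : F ≃+* F) (y : GL (Fin n) F),
      (∀ h, ∃ l : Fˣ, y * mapGL τ (θ h) = GeneralLinearGroup.scalar (Fin n) l * (θ h * y)) →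
      (conjHom n F y * D (fieldSL τ)) * (conjHom n F y * D (fieldSL τ)) = 1) :
    Cfsg.pPrimeCore 2 ↥(𝒢 ⊓ Subgroup.centralizer {S₀}) = ⊥ := by
  classical
  haveI : NeZero n := ⟨by omega⟩
  haveI : Finite (MulAut (P n F)) := Finite.of_injective _ DFunLike.coe_injective
  set T := ((conjHom n F).comp θ).range with hT
  set M := Cfsg.Inn (P n F) ⊓ Subgroup.centralizer {S₀} with hM
  have hθ : ∀ h, conjHom n F (θ h) = MulAut.conj (pr (⟨(θ h : Matrix (Fin n) (Fin n) F), hdet h⟩ : S n F)) :=
    fun h => by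
      have e : θ h = Matrix.SpecialLinearGroup.toGL (⟨(θ h : Matrix (Fin n) (Fin n) F), hdet h⟩ : S n F) :=
        Units.ext rfl
      refine Eq.trans ?_ (inn_eq _).symm
      exact congrArg (fun g => D (conjSL g)) e
  have hTM : T ≤ M := by
    rintro _ ⟨h, rfl⟩
    exact Subgroup.mem_inf.2 ⟨⟨_, (hθ h).symm⟩, Subgroup.mem_centralizer_singleton_iff.2 (hfix h)⟩
  have hsq' : ∀ m ∈ M, m * m ∈ T := by
    rintro m ⟨⟨z, rfl⟩, hm⟩
    obtain ⟨s, rfl⟩ := pr_surjective z
    rw [inn_eq] at hm
    obtain ⟨h, hh⟩ := hsq s (Subgroup.mem_centralizer_singleton_iff.1 hm)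
    refine ⟨h, ?_⟩
    show conjHom n F (θ h) = _
    rw [hh, map_mul, map_mul, inn_eq]
    rfl
  have hMn : ∀ c ∈ 𝒢 ⊓ Subgroup.centralizer {S₀}, ∀ z ∈ M, c * z * c⁻¹ ∈ M := by
    rintro c ⟨-, hc⟩ z ⟨⟨a, rfl⟩, hz⟩
    exact Subgroup.mem_inf.2 ⟨⟨c a, MulEquiv.ext fun w => by simp⟩, mul_mem (mul_mem hc hz) (inv_mem hc)⟩
  refine Balance.core_eq_bot (le_inf (inf_le_left.trans hinn) inf_le_right) hMn hTM
    (fun R hR hRn hc => Balance.bot_of_sq hTM hsq' hbot hR hRn hc) fun c _ hc ht => ?_
  obtain ⟨x, τ, e, rfl⟩ := std_all hn c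
  obtain ⟨y, τ', hy⟩ : ∃ (y : GL (Fin n) F) (τ' : F ≃+* F),
      mkAut x τ e * mkAut x τ e = conjHom n F y * D (fieldSL τ') := by
    cases e
    · refine ⟨x * GeneralLinearGroup.map τ.toRingHom x, τ * τ, ?_⟩
      simp only [mkAut, Bool.false_eq_true, if_false, mul_one]
      exact semi_mul x x τ τ
    · refine ⟨x * GeneralLinearGroup.map τ.toRingHom (contragredient x), τ * τ, ?_⟩
      simp only [mkAut, if_true]
      rw [mul_assoc, mul_assoc, ← mul_assoc (D graphSL), ← mul_assoc (D graphSL), graph_conj_D,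
        mul_assoc _ (D graphSL) (D (fieldSL τ)), graph_field_D, mul_assoc _ (D (fieldSL τ) * D graphSL),
        mul_assoc (D (fieldSL τ)) (D graphSL), D_graph_sq, mul_one, ← mul_assoc (D (fieldSL τ)),
        field_conj_D]
      simp [map_mul, mul_assoc]
  set c := mkAut x τ e with hcdef
  have hy' : ∀ h, ∃ l : Fˣ, y * mapGL τ' (θ h) = GeneralLinearGroup.scalar (Fin n) l * (θ h * y) := by
    intro h
    refine (conjHom_eq_iff hn).1 (mul_right_cancel (b := D (fieldSL τ')) ?_)
    have e1 := ht _ ⟨h, rfl⟩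
    calc conjHom n F (y * mapGL τ' (θ h)) * D (fieldSL τ')
        = (conjHom n F y * D (fieldSL τ')) * conjHom n F (θ h) := by
          rw [map_mul, mul_assoc, mul_assoc]
          exact congrArg _ (field_conj_D τ' (θ h)).symm
      _ = c * (c * conjHom n F (θ h)) := by rw [← hy, mul_assoc]
      _ = c * (conjHom n F (θ h) * c) := by rw [show c * conjHom n F (θ h) = _ from e1]; rfl
      _ = conjHom n F (θ h) * (c * c) := by
          rw [← mul_assoc, show c * conjHom n F (θ h) = conjHom n F (θ h) * c from e1, mul_assoc]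
      _ = conjHom n F (θ h * y) * D (fieldSL τ') := by rw [hy, map_mul, mul_assoc]
  have h4 := hscal τ' y hy'
  rw [← hy] at h4
  refine orderOf_eq_one_iff.1 (Nat.eq_one_of_dvd_coprimes (hc.pow_right 2) dvd_rfl ?_)
  refine orderOf_dvd_of_pow_eq_one ?_
  show c ^ (2 ^ 2) = 1
  rw [pow_succ, pow_succ, pow_succ, pow_one]
  simpa [mul_assoc] using h4

omit [Fintype F] in
theorem scalar_of_val {y : GL (Fin n) F} {z : F}
    (hy : (y : Matrix (Fin n) (Fin n) F) = z • 1) (hn : 2 ≤ n) : conjHom n F y = 1 := by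
  haveI : NeZero n := ⟨by omega⟩
  have hz : z ≠ 0 := fun h => y.ne_zero (by rw [hy, h, zero_smul])
  refine ((conjHom_eq_iff hn (h := 1)).2 ⟨Units.mk0 z hz, Units.ext ?_⟩).trans (map_one _)
  rw [mul_one, scalar_val, hy, Units.val_mk0]

omit [Fintype F] in
theorem scal_rel {y A B : GL (Fin n) F} {l : Fˣ} (h : y * A = GeneralLinearGroup.scalar (Fin n) l * (B * y)) :
    (y : Matrix (Fin n) (Fin n) F) * (A : Matrix (Fin n) (Fin n) F) =
      (l : F) • ((B : Matrix (Fin n) (Fin n) F) * (y : Matrix (Fin n) (Fin n) F)) := by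
  rw [← Units.val_mul, h, Units.val_mul, scalar_val, Matrix.smul_mul, one_mul, Units.val_mul]

omit [Fintype F] in
/-- Conjugation by an element preserving a form commutes with the graph automorphism of the form. -/
theorem gr_fix (hn : 2 ≤ n) [NeZero n] {g h : GL (Fin n) F}
    (e : (h : Matrix (Fin n) (Fin n) F) * g * (h : Matrix (Fin n) (Fin n) F)ᵀ = g) :
    conjHom n F h * gr g = gr g * conjHom n F h := by
  refine mul_inv_eq_iff_eq_mul.1 ?_
  rw [conj_gr, ← gr, gr_eq_iff hn]
  refine ⟨1, ?_⟩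
  rw [Units.val_mul, Units.val_mul, contra_inv_val, e, Units.val_one, one_smul]

omit [Fintype F] in
/-- Squares of centralising elements preserve the form. -/
theorem gr_sq (hn : 2 ≤ n) [NeZero n] {g : GL (Fin n) F} {s : S n F}
    (e : conjHom n F (Matrix.SpecialLinearGroup.toGL s) * gr g =
      gr g * conjHom n F (Matrix.SpecialLinearGroup.toGL s)) :
    ∃ k : GL (Fin n) F, (k : Matrix (Fin n) (Fin n) F) * g * (k : Matrix (Fin n) (Fin n) F)ᵀ = g ∧
      (k : Matrix (Fin n) (Fin n) F).det = 1 ∧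
      conjHom n F k = conjHom n F (Matrix.SpecialLinearGroup.toGL (s * s)) := by
  rw [← mul_inv_eq_iff_eq_mul, conj_gr, ← gr, gr_eq_iff hn] at e
  obtain ⟨c, hc⟩ := e
  rw [Units.val_mul, Units.val_mul, contra_inv_val] at hc
  have hs : ((Matrix.SpecialLinearGroup.toGL s : GL (Fin n) F) : Matrix (Fin n) (Fin n) F) = s.1 := rfl
  rw [hs] at hc
  have hcn : (c : F) ^ n = 1 := by
    have h := congrArg Matrix.det hc
    rw [det_mul, det_mul, det_transpose, s.2, one_mul, mul_one, det_smul, Fintype.card_fin] at h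
    exact mul_right_cancel₀ (det_gl_ne g) (h.symm.trans (one_mul _).symm)
  refine ⟨GeneralLinearGroup.scalar (Fin n) c⁻¹ * Matrix.SpecialLinearGroup.toGL (s * s), ?_, ?_, ?_⟩
  · rw [Units.val_mul, scalar_val, Matrix.smul_mul, one_mul,
      show ((Matrix.SpecialLinearGroup.toGL (s * s) : GL (Fin n) F) : Matrix (Fin n) (Fin n) F) = s.1 * s.1 from rfl]
    rw [transpose_smul, transpose_mul, Matrix.smul_mul, Matrix.smul_mul, Matrix.mul_smul, smul_smul,
      show s.1 * s.1 * (g : Matrix (Fin n) (Fin n) F) * (s.1ᵀ * s.1ᵀ) = s.1 * (s.1 * g * s.1ᵀ) * s.1ᵀ by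
        simp only [mul_assoc], hc, Matrix.mul_smul, Matrix.smul_mul, hc, smul_smul, smul_smul,
      Units.val_inv_eq_inv_val]
    rw [show (c : F)⁻¹ * (c : F)⁻¹ * c * c = 1 by field_simp, one_smul]
  · rw [Units.val_mul, scalar_val, Matrix.smul_mul, one_mul, det_smul, Fintype.card_fin,
      show ((Matrix.SpecialLinearGroup.toGL (s * s) : GL (Fin n) F) : Matrix (Fin n) (Fin n) F) = s.1 * s.1 from rfl,
      det_mul, s.2, Units.val_inv_eq_inv_val, inv_pow, hcn, inv_one, one_mul, one_mul]
  · exact (conjHom_eq_iff hn).2 ⟨c⁻¹, rfl⟩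

/-- The orthogonal model. -/
theorem core_orth [NeZero n] (hn : 3 ≤ n) (h2 : (2 : F) ≠ 0) {d : Fin n → F} (hd : ∀ i, d i ≠ 0)
    {g : GL (Fin n) F} (hg : (g : Matrix (Fin n) (Fin n) F) = diagonal d)
    (𝒢 : Subgroup (MulAut (P n F))) (hinn : Cfsg.Inn (P n F) ≤ 𝒢) :
    Cfsg.pPrimeCore 2 ↥(𝒢 ⊓ Subgroup.centralizer {gr g}) = ⊥ := by
  classical
  have hn2 : 2 ≤ n := by omega
  haveI : Finite (MulAut (P n F)) := Finite.of_injective _ DFunLike.coe_injective
  set d' : Fin n → F := fun i => (d i)⁻¹ with hd'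
  have hd0 : ∀ i, d' i ≠ 0 := fun i => inv_ne_zero (hd i)
  have hdd : diagonal d' * diagonal d = 1 := by
    rw [diagonal_mul_diagonal, ← diagonal_one]; congr 1; funext i; exact inv_mul_cancel₀ (hd i)
  have hdd' : diagonal d * diagonal d' = 1 := mul_eq_one_comm.1 hdd
  have htr : ∀ X : Matrix (Fin n) (Fin n) F,
      Xᵀ * diagonal d' * X = diagonal d' ↔ X * diagonal d * Xᵀ = diagonal d := fun X => by
    constructor
    · intro h
      have h1 : diagonal d * Xᵀ * diagonal d' * X = 1 := by
        rw [mul_assoc, mul_assoc, ← mul_assoc Xᵀ, h, hdd']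
      have h2' := mul_eq_one_comm.1 h1
      calc X * diagonal d * Xᵀ = X * (diagonal d * Xᵀ * diagonal d') * diagonal d := by
            simp only [mul_assoc, hdd, mul_one]
        _ = _ := by rw [h2', one_mul]
    · intro h
      have h1 : X * diagonal d * Xᵀ * diagonal d' = 1 := by rw [h, hdd']
      have h2' : diagonal d * Xᵀ * diagonal d' * X = 1 := mul_eq_one_comm.1 (by
        simpa only [mul_assoc] using h1)
      calc Xᵀ * diagonal d' * X = diagonal d' * (diagonal d * Xᵀ * diagonal d' * X) := by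
            simp only [← mul_assoc, hdd, one_mul]
        _ = _ := by rw [h2', mul_one]
  let H : Subgroup (GL (Fin n) F) := Balance.orthD d' ⊓ (GeneralLinearGroup.det : GL (Fin n) F →* Fˣ).ker
  have hH : ∀ h : GL (Fin n) F, h ∈ H ↔
      h ∈ Balance.orthD d' ∧ (h : Matrix (Fin n) (Fin n) F).det = 1 := fun h =>
    and_congr Iff.rfl (Units.ext_iff.trans (by rw [GeneralLinearGroup.val_det_apply, Units.val_one]))
  refine core_of_model hn2 𝒢 hinn H.subtype (fun h => ((hH _).1 h.2).2) (fun h => ?_) (fun s hs => ?_) ?_ ?_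
  · refine gr_fix hn2 ?_
    rw [hg]
    exact (htr _).1 ((hH _).1 h.2).1
  · obtain ⟨k, hk, hk1, hk2⟩ := gr_sq hn2 hs
    rw [hg] at hk
    exact ⟨⟨k, (hH k).2 ⟨(htr _).2 hk, hk1⟩⟩, hk2⟩
  · intro R hR hRn hodd
    refine Balance.odd_bot_of_ker ((conjHom n F).comp H.subtype) (fun z hz => ?_) (fun L hL hLodd => ?_) hR hRn hodd
    · obtain ⟨c, hc⟩ := (conjHom_eq_iff hn2 (h := 1)).1 (hz.trans (map_one _).symm)
      rw [mul_one] at hc
      change (z : GL (Fin n) F) = _ at hc
      have hz1 := ((hH _).1 z.2).1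
      rw [Balance.mem_orthD, hc, scalar_val, transpose_smul, transpose_one, Matrix.smul_mul, one_mul,
        Matrix.smul_mul, Matrix.mul_smul, mul_one, smul_smul] at hz1
      have hcc : (c : F) * c = 1 := by
        have := congrFun (congrFun hz1 0) 0
        rw [Matrix.smul_apply, diagonal_apply_eq, smul_eq_mul] at this
        exact mul_right_cancel₀ (hd0 0) (this.trans (one_mul _).symm)
      refine ⟨Subtype.ext ?_, Subgroup.mem_center_iff.2 fun w => Subtype.ext ?_⟩
      · rw [Subgroup.coe_mul, hc, ← map_mul, OneMemClass.coe_one,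
          show c * c = 1 from Units.ext hcc, map_one]
      · rw [Subgroup.coe_mul, Subgroup.coe_mul, hc]
        exact (scalar_commute c _).eq.symm
    · have hb : L.map H.subtype = ⊥ := by
        refine Balance.eq_bot_of_odd_special hd0 h2 (by rw [Fintype.card_fin]; exact hn) ?_ ?_ ?_
        · rintro _ ⟨z, -, rfl⟩; exact ((hH _).1 z.2).1
        · rwa [Subgroup.card_map_of_injective H.subtype_injective]
        · rintro h hh hh1 _ ⟨z, hz, rfl⟩
          exact ⟨⟨h, (hH h).2 ⟨hh, hh1⟩⟩ * z * ⟨h, (hH h).2 ⟨hh, hh1⟩⟩⁻¹, hL.conj_mem z hz _, rfl⟩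
      exact (Subgroup.map_eq_bot_iff_of_injective _ H.subtype_injective).1 hb
  · intro τ y hy
    obtain ⟨hτ, z, hz⟩ := Balance.orth_scalar hd0 h2 (by rw [Fintype.card_fin]; exact hn) (RingHom.id F) τ y
      fun h hh hh1 => by
        obtain ⟨l, hl⟩ := hy ⟨h, (hH h).2 ⟨hh, hh1⟩⟩
        refine ⟨l, ?_⟩
        rw [show (h : Matrix (Fin n) (Fin n) F).map (RingHom.id F) = (h : Matrix (Fin n) (Fin n) F) from
          Matrix.map_id _]
        exact scal_rel hl
    rw [semi_mul, scalar_of_val (z := z) (by rw [Units.val_mul]; exact hz) hn2, one_mul,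
      show τ * τ = 1 from RingEquiv.ext hτ, map_one, map_one]

/-- The symplectic model. -/
theorem core_symp [NeZero n] {m : ℕ} (hm : 2 ≤ m) (h2 : (2 : F) ≠ 0) (e : Fin m ⊕ Fin m ≃ Fin n)
    {g : GL (Fin n) F} (hg : (g : Matrix (Fin n) (Fin n) F) = Matrix.reindex e e (Matrix.J (Fin m) F))
    (𝒢 : Subgroup (MulAut (P n F))) (hinn : Cfsg.Inn (P n F) ≤ 𝒢) :
    Cfsg.pPrimeCore 2 ↥(𝒢 ⊓ Subgroup.centralizer {gr g}) = ⊥ := by
  classical
  haveI : Finite (MulAut (P n F)) := Finite.of_injective _ DFunLike.coe_injective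
  have hnm : n = 2 * m := by
    have := Fintype.card_congr e
    simp at this; omega
  have hn2 : 2 ≤ n := by omega
  have hq : 3 ≤ Fintype.card F := by
    by_contra h
    have h2' : Fintype.card F = 2 := le_antisymm (by omega) Fintype.one_lt_card
    have := FiniteField.cast_card_eq_zero F
    rw [h2'] at this
    exact h2 (by exact_mod_cast this)
  have hperf := Classical.sp_commutator_eq_top (F := F) m (by omega)
  let θ : Matrix.symplecticGroup (Fin m) F →* GL (Fin n) F :=
    (glReindex e).toMonoidHom.comp (Matrix.symplecticGroup (Fin m) F).subtype.toHomUnits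
  have hθv : ∀ h, ((θ h : GL (Fin n) F) : Matrix (Fin n) (Fin n) F) =
      Matrix.reindex e e (h : Matrix (Fin m ⊕ Fin m) (Fin m ⊕ Fin m) F) := fun h => rfl
  have hdet : ∀ h, ((θ h : GL (Fin n) F) : Matrix (Fin n) (Fin n) F).det = 1 := fun h => by
    have h1 := Abelianization.commutator_subset_ker (GeneralLinearGroup.det.comp θ)
      (show h ∈ commutator _ from hperf ▸ Subgroup.mem_top h)
    have h2' := congrArg Units.val (show GeneralLinearGroup.det (θ h) = 1 from h1)
    rwa [GeneralLinearGroup.val_det_apply, Units.val_one] at h2'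
  have hpres : ∀ X : Matrix (Fin m ⊕ Fin m) (Fin m ⊕ Fin m) F,
      X ∈ Matrix.symplecticGroup (Fin m) F ↔ Matrix.reindex e e X * Matrix.reindex e e (Matrix.J (Fin m) F) *
        (Matrix.reindex e e X)ᵀ = Matrix.reindex e e (Matrix.J (Fin m) F) := fun X => by
    rw [SymplecticGroup.mem_iff, Matrix.reindex_apply, Matrix.reindex_apply, Matrix.transpose_submatrix,
      Matrix.submatrix_mul_equiv, Matrix.submatrix_mul_equiv]
    exact ⟨fun h => by rw [h],
      fun h => (Matrix.reindex e e).injective (by simpa only [Matrix.reindex_apply] using h)⟩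
  have hθ1 : ∀ h, conjHom n F (θ h) = 1 ↔
      ∃ r : F, (h : Matrix (Fin m ⊕ Fin m) (Fin m ⊕ Fin m) F) = r • 1 := fun h => by
    constructor
    · intro h0
      obtain ⟨c, hc⟩ := (conjHom_eq_iff hn2 (h := 1)).1 (h0.trans (map_one _).symm)
      refine ⟨c, (Matrix.reindex e e).injective ?_⟩
      rw [← hθv, hc, mul_one, scalar_val]
      simp [Matrix.submatrix_smul]
    · rintro ⟨r, hr⟩
      refine scalar_of_val (z := r) ?_ hn2
      rw [hθv, hr]
      simp [Matrix.submatrix_smul]
  refine core_of_model hn2 𝒢 hinn θ hdet (fun h => ?_) (fun s hs => ?_) ?_ ?_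
  · refine gr_fix hn2 ?_
    rw [hg, hθv]
    exact (hpres _).1 h.2
  · obtain ⟨k, hk, hk1, hk2⟩ := gr_sq hn2 hs
    rw [hg] at hk
    refine ⟨⟨Matrix.reindex e.symm e.symm (k : Matrix (Fin n) (Fin n) F), (hpres _).2 ?_⟩, ?_⟩
    · simpa using hk
    · rw [← hk2]
      congr 1
      exact Units.ext (by rw [hθv]; simp)
  · intro R hR hRn hodd
    have hH : ∀ K : Subgroup (Matrix.symplecticGroup (Fin m) F), K.Normal →
        K ≤ ((conjHom n F).comp θ).ker ∨ K ⊔ ((conjHom n F).comp θ).ker = ⊤ := by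
      intro K hK
      rcases Classical.sp_normal_le_center_or_eq_top m hperf K with h | h
      · left
        intro z hz
        refine (hθ1 z).2 ?_
        have hzc := Subgroup.mem_center_iff.1 (h hz)
        have hzu : IsUnit (z : Matrix (Fin m ⊕ Fin m) (Fin m ⊕ Fin m) F) :=
          ((Matrix.symplecticGroup (Fin m) F).subtype.toHomUnits z).isUnit
        obtain ⟨-, hz'⟩ := Balance.symp_scalar (m := m) (by omega) (RingHom.id F) (RingEquiv.refl F) hzu.unit
          fun S hS X hX => ⟨1, by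
            have hXm : X ∈ Matrix.symplecticGroup (Fin m) F := by
              rw [SymplecticGroup.mem_iff']
              simp only [List.mem_cons, List.not_mem_nil, or_false] at hX
              rcases hX with rfl | rfl
              · exact (Balance.upM_mem hS).1
              · exact (Balance.loM_mem hS).1
            rw [one_smul, show X.map (RingHom.id F) = X from Matrix.map_id _,
              show X.map (RingEquiv.refl F) = X from Matrix.map_id _]
            exact (congrArg Subtype.val (hzc ⟨X, hXm⟩)).symm⟩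
        exact hz'
      · right; rw [h, top_sup_eq]
    rcases Balance.bot_or_range ((conjHom n F).comp θ) hH hR hRn with h | h
    · exact h
    exfalso
    let J₀ : Matrix.symplecticGroup (Fin m) F := ⟨Matrix.J (Fin m) F, SymplecticGroup.J_mem _ _⟩
    have hJ1 : conjHom n F (θ J₀) ≠ 1 := fun h0 => by
      obtain ⟨r, hr⟩ := (hθ1 J₀).1 h0
      have := congrFun (congrFun hr (Sum.inr (⟨0, by omega⟩ : Fin m))) (Sum.inl ⟨0, by omega⟩)
      simp [J₀, Matrix.J] at this
    have hJ2 : conjHom n F (θ J₀) * conjHom n F (θ J₀) = 1 := by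
      rw [← map_mul, ← map_mul]
      refine (hθ1 _).2 ⟨-1, ?_⟩
      show Matrix.J (Fin m) F * Matrix.J (Fin m) F = _
      rw [Matrix.J_squared, neg_smul, one_smul]
    refine hJ1 (Balance.eq_one_of_sq hodd ?_ hJ2)
    rw [h]
    exact ⟨J₀, rfl⟩
  · intro τ y hy
    obtain ⟨hτ, z, hz⟩ := Balance.symp_scalar (m := m) (by omega) (RingHom.id F) τ ((glReindex e).symm y)
      fun S hS X hX => by
        have hXm : X ∈ Matrix.symplecticGroup (Fin m) F := by
          rw [SymplecticGroup.mem_iff']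
          simp only [List.mem_cons, List.not_mem_nil, or_false] at hX
          rcases hX with rfl | rfl
          · exact (Balance.upM_mem hS).1
          · exact (Balance.loM_mem hS).1
        obtain ⟨l, hl⟩ := hy ⟨X, hXm⟩
        refine ⟨l, (Matrix.reindexAlgEquiv F F e).injective ?_⟩
        rw [map_mul, map_smul, map_mul, show X.map (RingHom.id F) = X from Matrix.map_id _]
        have e1 := scal_rel hl
        have e2 : Matrix.reindexAlgEquiv F F e (((glReindex e).symm y : GL (Fin m ⊕ Fin m) F) :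
            Matrix (Fin m ⊕ Fin m) (Fin m ⊕ Fin m) F) = (y : Matrix (Fin n) (Fin n) F) :=
          congrArg Units.val ((glReindex e).apply_symm_apply y)
        rw [e2]
        exact e1
    have hy1 : conjHom n F y = 1 := by
      refine scalar_of_val (z := z) ?_ hn2
      have e2 : Matrix.reindexAlgEquiv F F e (((glReindex e).symm y : GL (Fin m ⊕ Fin m) F) :
            Matrix (Fin m ⊕ Fin m) (Fin m ⊕ Fin m) F) = (y : Matrix (Fin n) (Fin n) F) :=
          congrArg Units.val ((glReindex e).apply_symm_apply y)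
      rw [← e2, hz, map_smul, map_one]
    rw [hy1, show τ = 1 from RingEquiv.ext hτ, map_one, map_one, one_mul, mul_one]

/-- Local balance at involutory graph automorphisms. -/
theorem graph_core [NeZero n] (hn : 3 ≤ n) (h2 : (2 : F) ≠ 0) {g : GL (Fin n) F} (hord : orderOf (gr g) = 2)
    (𝒢 : Subgroup (MulAut (P n F))) (hinn : Cfsg.Inn (P n F) ≤ 𝒢) :
    Cfsg.pPrimeCore 2 ↥(𝒢 ⊓ Subgroup.centralizer {gr g}) = ⊥ := by
  classical
  haveI : Finite (MulAut (P n F)) := Finite.of_injective _ DFunLike.coe_injective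
  have hn2 : 2 ≤ n := by omega
  obtain ⟨g', ε, hgg, hε, ht⟩ := exists_gr hn (isGraph_gr hn g) hord
  rw [hgg] at *
  -- reduction to a model
  have hred : ∀ g₀ : GL (Fin n) F, Congr (g' : Matrix (Fin n) (Fin n) F) (g₀ : Matrix (Fin n) (Fin n) F) →
      (∀ 𝒢' : Subgroup (MulAut (P n F)), Cfsg.Inn (P n F) ≤ 𝒢' →
        Cfsg.pPrimeCore 2 ↥(𝒢' ⊓ Subgroup.centralizer {gr g₀}) = ⊥) →
      Cfsg.pPrimeCore 2 ↥(𝒢 ⊓ Subgroup.centralizer {gr g'}) = ⊥ := by
    intro g₀ hcg hmodel
    obtain ⟨b, -, hb⟩ := (gr_conj_iff (g := g') (g' := g₀) hn2).2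
      ⟨(1 : F), one_ne_zero, by rw [one_smul]; exact hcg⟩
    obtain ⟨E⟩ := Balance.centralizer_conj_equiv 𝒢 b (gr g')
    rw [← hb] at E
    by_contra hne
    refine (Balance.core_ne_bot_congr E).1 hne (hmodel _ ?_)
    rintro _ ⟨k, rfl⟩
    exact ⟨MulAut.conj (b.symm k), hinn ⟨_, rfl⟩, MulEquiv.ext fun w => by simp⟩
  rcases mul_self_eq_one_iff.1 hε with rfl | rfl
  · rw [one_smul] at ht
    obtain ⟨b, d, hb, hd, -⟩ := exists_diag h2 ht (det_gl_ne g')
    let i' : Fin (Fintype.card (Fin n)) ≃ Fin n := finCongr (Fintype.card_fin n)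
    let b' := b.reindex i'
    have hD : (diagonal fun i => d (i'.symm i)).det ≠ 0 := by
      rw [det_diagonal]; exact Finset.prod_ne_zero_iff.2 fun i _ => hd _
    refine hred (GeneralLinearGroup.mkOfDetNeZero _ hD) ?_ fun 𝒢' hin =>
      core_orth hn h2 (fun i => hd (i'.symm i)) rfl 𝒢' hin
    have e1 : LinearMap.BilinForm.toMatrix b' (Matrix.toBilin' (g' : Matrix (Fin n) (Fin n) F)) =
        diagonal fun i => d (i'.symm i) := by
      ext i j
      rw [LinearMap.BilinForm.toMatrix_apply, Module.Basis.reindex_apply, Module.Basis.reindex_apply, hb,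
        Matrix.diagonal_apply]
      simp
    have e2 : LinearMap.BilinForm.toMatrix (Pi.basisFun F (Fin n))
        (Matrix.toBilin' (g' : Matrix (Fin n) (Fin n) F)) = g' := by
      ext i j
      rw [LinearMap.BilinForm.toMatrix_apply, Pi.basisFun_apply, Pi.basisFun_apply, Matrix.toBilin'_single]
    have h := LinearMap.BilinForm.toMatrix_mul_basis_toMatrix (Pi.basisFun F (Fin n)) b'
      (Matrix.toBilin' (g' : Matrix (Fin n) (Fin n) F))
    rw [e1, e2] at h
    have hP : ((Pi.basisFun F (Fin n)).toMatrix b').det ≠ 0 := fun h0 => hD (by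
      rw [← h, det_mul, h0, mul_zero])
    exact ⟨GeneralLinearGroup.mkOfDetNeZero _ hP, h⟩
  · obtain ⟨m, hnm⟩ : ∃ m, n = 2 * m := by
      rcases Nat.even_or_odd' n with ⟨m, h | h⟩
      · exact ⟨m, h⟩
      · exact (no_skew h2 h ht).elim
    let e : Fin m ⊕ Fin m ≃ Fin n := Fintype.equivFinOfCardEq (by simp; omega)
    refine hred (mdl e (Matrix.J (Fin m) F) (det_J_ne_zero m)) ?_ fun 𝒢' hin =>
      core_symp (by omega) h2 e rfl 𝒢' hin
    rw [mdl_val]
    refine congr_alt (det_gl_ne g') (by rw [Matrix.det_reindex_self]; exact det_J_ne_zero m)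
      (fun x => skew_diag h2 ht x) fun x => ?_
    rw [reindex_diag]
    exact J_diag m _

/-- Local balance at the standard graph-field automorphism. -/
theorem graphField_core [NeZero n] (hn : 3 ≤ n) (h2 : (2 : F) ≠ 0) {σ : F ≃+* F} (hσ : orderOf σ = 2)
    {q : ℕ} (hK : Fintype.card F = q ^ 2) (hq : ∀ x, σ x = UnitaryConj.qHom hK x)
    (𝒢 : Subgroup (MulAut (P n F))) (hinn : Cfsg.Inn (P n F) ≤ 𝒢) :
    Cfsg.pPrimeCore 2 ↥(𝒢 ⊓ Subgroup.centralizer {(D (fieldSL σ) * D graphSL : MulAut (P n F))}) = ⊥ := by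
  classical
  haveI : Finite (MulAut (P n F)) := Finite.of_injective _ DFunLike.coe_injective
  have hn2 : 2 ≤ n := by omega
  have hqodd : Odd q := by
    rw [← Nat.not_even_iff_odd]
    intro he
    have hr2 : ringChar F = 2 := FiniteField.even_card_iff_char_two.2 (by
      rw [hK, Nat.pow_mod, Nat.even_iff.1 he])
    haveI := ringChar.of_eq hr2
    exact h2 (by exact_mod_cast CharP.cast_eq_zero F 2)
  have h32 : ¬ (n = 3 ∧ q = 2) := fun h => by
    rw [h.2] at hqodd; exact absurd hqodd (by decide)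
  let θ : AutPSU.S n F q →* GL (Fin n) F := Matrix.SpecialLinearGroup.toGL.comp (Cfsg.SU n F q).subtype
  have hθ1 : ∀ h, conjHom n F (θ h) = 1 ↔ AutPSU.pr h = 1 := fun h => by
    constructor
    · intro h0
      obtain ⟨c, hc⟩ := (conjHom_eq_iff hn2 (h := 1)).1 (h0.trans (map_one _).symm)
      rw [mul_one] at hc
      refine (QuotientGroup.eq_one_iff h).2 (Subgroup.mem_center_iff.2 fun t => ?_)
      have := congrArg Units.val ((scalar_commute c (θ t)).eq)
      rw [← hc] at this
      exact AutPSU.mat_ext this.symm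
    · intro h0
      obtain ⟨a, ha⟩ := Herm.scalar_of_mem_center_SU hK (by omega) ((QuotientGroup.eq_one_iff h).1 h0)
      exact scalar_of_val (z := a) ha hn2
  refine core_of_model hn2 𝒢 hinn θ (fun h => h.1.2) (fun h => ?_) (fun s hs => ?_) ?_ ?_
  · have e := twist_graphField (n := n) σ (θ h)
    rw [show ((mapGL σ).comp contraHom) (θ h) = θ h from (mem_GU_iff_fixed hK hq (θ h)).1 h.2] at e
    exact e.symm
  · obtain ⟨c, k, hk, hsk⟩ := (graphField_centralizer_iff hn2 hσ).1
      (show Matrix.SpecialLinearGroup.toGL s ∈ (Subgroup.centralizer _).comap (conjHom n F) from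
        Subgroup.mem_centralizer_singleton_iff.2 hs)
    have hσ2 : ∀ x, σ (σ x) = x := fun x => by
      have h : σ * σ = 1 := by rw [← pow_two, ← hσ]; exact pow_orderOf_eq_one σ
      exact RingEquiv.congr_fun h x
    have hσ2' : ∀ u : Fˣ, mapU σ (mapU σ u) = u := fun u => Units.ext (hσ2 u)
    set ν : Fˣ := c / mapU σ c with hν
    set k' : GL (Fin n) F := GeneralLinearGroup.scalar (Fin n) ν * (k * k) with hk'
    have hdc : c ^ n * GeneralLinearGroup.det k = 1 := by
      have h := congrArg GeneralLinearGroup.det hsk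
      rw [map_mul, det_scalar] at h
      rw [← h]
      exact Units.ext s.2
    have hfx : mapGL σ (contraHom k') = k' := by
      rw [hk', map_mul, map_mul, eGF_scalar, map_mul, map_mul, hk, hν, map_div, hσ2', inv_div]
    have hd1 : GeneralLinearGroup.det k' = 1 := by
      have hdk : GeneralLinearGroup.det k = (mapU σ (GeneralLinearGroup.det k))⁻¹ := by
        conv_lhs => rw [← hk]
        exact eGF_det k
      have hdk' : GeneralLinearGroup.det k = (c ^ n)⁻¹ := eq_inv_of_mul_eq_one_right hdc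
      have hcc : (c ^ n)⁻¹ = mapU σ (c ^ n) := by
        rw [hdk', map_inv, inv_inv] at hdk; exact hdk
      rw [hk', map_mul, det_scalar, map_mul, hdk', hν, div_pow, ← map_pow, ← hcc, div_inv_eq_mul]
      group
    have hd1' : (k' : Matrix (Fin n) (Fin n) F).det = 1 := by
      rw [← GeneralLinearGroup.val_det_apply, hd1, Units.val_one]
    let z : AutPSU.S n F q := ⟨⟨(k' : Matrix (Fin n) (Fin n) F), hd1'⟩, (mem_GU_iff_fixed hK hq k').2 hfx⟩
    refine ⟨z, ?_⟩
    rw [show θ z = k' from Units.ext rfl, map_mul Matrix.SpecialLinearGroup.toGL, hsk, hk']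
    refine (conjHom_eq_iff hn2).2 ⟨ν / (c * c), ?_⟩
    rw [show GeneralLinearGroup.scalar (Fin n) c * k * (GeneralLinearGroup.scalar (Fin n) c * k) =
      GeneralLinearGroup.scalar (Fin n) (c * c) * (k * k) by
        rw [map_mul, mul_assoc, ← mul_assoc k, ← (scalar_commute c k).eq]; simp only [mul_assoc]]
    conv_rhs => rw [← mul_assoc, ← map_mul, div_mul_cancel]
  · intro R hR hRn hodd
    haveI : IsSimpleGroup (AutPSU.P n F q) := UnitarySimple.isSimpleGroup_PSU hK hn h32
    have hH : ∀ K : Subgroup (AutPSU.S n F q), K.Normal →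
        K ≤ ((conjHom n F).comp θ).ker ∨ K ⊔ ((conjHom n F).comp θ).ker = ⊤ := by
      intro K hKn
      have hker : Subgroup.center (AutPSU.S n F q) ≤ ((conjHom n F).comp θ).ker := fun z hz =>
        (hθ1 z).2 ((QuotientGroup.eq_one_iff z).2 hz)
      rcases (hKn.map AutPSU.pr AutPSU.pr_surjective).eq_bot_or_eq_top with h | h
      · left
        rw [Subgroup.map_eq_bot_iff, QuotientGroup.ker_mk'] at h
        exact h.trans hker
      · right
        rw [eq_top_iff]
        refine le_trans ?_ (sup_le_sup_left hker K)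
        have := Subgroup.comap_map_eq (AutPSU.pr (n := n) (F := F) (q := q)) K
        rw [h, Subgroup.comap_top, QuotientGroup.ker_mk'] at this
        exact this.le
    rcases Balance.bot_or_range ((conjHom n F).comp θ) hH hR hRn with h | h
    · exact h
    exfalso
    let a : Fin n → F := fun i => if (i : ℕ) < 2 then -1 else 1
    have haa : ∀ i, a i * a i = 1 := fun i => by simp only [a]; split_ifs <;> simp
    have hda : (diagonal a).det = 1 := by
      rw [det_diagonal, Finset.prod_ite, Finset.prod_const_one, mul_one, Finset.prod_const]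
      have : (Finset.univ.filter fun i : Fin n => (i : ℕ) < 2).card = 2 := by
        rw [Fin.card_filter_val_lt]; omega
      rw [this]; ring
    let w : AutPSU.S n F q := ⟨⟨diagonal a, hda⟩, fun u v => by
      show ∑ i, (diagonal a *ᵥ u) i * ((diagonal a *ᵥ v) i) ^ q = ∑ i, u i * v i ^ q
      simp only [mulVec_diagonal]
      refine Finset.sum_congr rfl fun i _ => ?_
      have hq' : a i ^ q = a i := by
        simp only [a]; split_ifs
        · exact hqodd.neg_one_pow
        · exact one_pow q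
      rw [mul_pow, hq']
      linear_combination (u i * v i ^ q) * haa i⟩
    have hw1 : conjHom n F (θ w) ≠ 1 := fun h0 => by
      obtain ⟨c, hc⟩ := (conjHom_eq_iff hn2 (h := 1)).1 (h0.trans (map_one _).symm)
      rw [mul_one] at hc
      have hc' : ∀ i, a i = c := fun i => by
        have := congrArg (fun x : GL (Fin n) F => (x : Matrix (Fin n) (Fin n) F) i i) hc
        simp only [scalar_val, Matrix.smul_apply, Matrix.one_apply_eq, smul_eq_mul, mul_one] at this
        exact (diagonal_apply_eq a i).symm.trans this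
      have h0' := (hc' ⟨0, by omega⟩).trans (hc' ⟨2, by omega⟩).symm
      simp only [a] at h0'
      norm_num at h0'
      exact h2 (by linear_combination -h0')
    refine hw1 (Balance.eq_one_of_sq hodd (h ▸ ⟨w, rfl⟩) ?_)
    rw [← map_mul, ← map_mul, hθ1]
    rw [show w * w = 1 from AutPSU.mat_ext (by
      show diagonal a * diagonal a = 1
      rw [diagonal_mul_diagonal, ← diagonal_one]; congr 1; funext i; exact haa i), map_one]
  · intro τ y hy
    obtain ⟨hτ, z, hz⟩ := Balance.su_scalar hn hK (RingHom.id F) τ y fun v c hv hc => by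
      obtain ⟨l, hl⟩ := hy (AutPSU.T hK v c)
      refine ⟨l, ?_⟩
      rw [show (AutPSU.mat (AutPSU.T hK v c)).map (RingHom.id F) = AutPSU.mat (AutPSU.T hK v c) from
        Matrix.map_id _]
      exact scal_rel hl
    rw [scalar_of_val hz hn2, show τ = 1 from RingEquiv.ext hτ, map_one, map_one, one_mul, mul_one]

end Cfsg.Agent.Lib.AutPSL
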