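import Cfsg.Agent.Lib.AutPSL.Graph
import Cfsg.Agent.Lib.Classical.OddCharTwo
import Cfsg.Agent.Lib.FormDet

/-!
The standard matrices of symplectic and orthogonal forms and their similitude groups.
-/

set_option autoImplicit false

namespace Cfsg.Agent.Lib.AutPSL

open Matrix

universe u v

variable {F : Type u} [Field F]

section generic

variable {κ : Type} [Fintype κ] [DecidableEq κ]

theorem sim_of_symm {Q : (κ → F) → F} {G : Matrix κ κ F} (hs : Gᵀ = G) (h2 : (2 : F) ≠ 0)
    (hQ : ∀ v, Matrix.toBilin' G v v = 2 * Q v) : Cfsg.Geo.quadSimilarityGroup (F := F) Q = sim G := by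
  ext h
  constructor
  · rintro ⟨c, hc⟩
    refine ⟨c, Matrix.toBilin'.injective ?_⟩
    rw [← Matrix.toBilin'_comp, map_smul]
    refine LinearMap.ext fun x => LinearMap.ext fun y => ?_
    rw [LinearMap.BilinForm.comp_apply, Matrix.toLin'_apply, Matrix.toLin'_apply, LinearMap.smul_apply,
      LinearMap.smul_apply, smul_eq_mul]
    have e : ∀ w, Matrix.toBilin' G ((h : Matrix κ κ F) *ᵥ w) ((h : Matrix κ κ F) *ᵥ w) =
        (c : F) * Matrix.toBilin' G w w := fun w => by rw [hQ, hQ, hc]; ring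
    have hf : ∀ a b, Matrix.toBilin' G b a = Matrix.toBilin' G a b := fun a b => by
      rw [bilin_flip (ε := 1) (by rw [one_smul, hs]), one_mul]
    have h3 := e (x + y)
    simp only [Matrix.mulVec_add, map_add, LinearMap.add_apply] at h3
    rw [e x, e y, hf ((h : Matrix κ κ F) *ᵥ x) ((h : Matrix κ κ F) *ᵥ y), hf x y] at h3
    exact mul_left_cancel₀ h2 (by linear_combination h3)
  · rintro ⟨c, hc⟩
    refine ⟨c, fun v => mul_left_cancel₀ h2 ?_⟩
    rw [← hQ, mul_left_comm, ← hQ]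
    have e := congrArg (fun X => Matrix.toBilin' X v v) hc
    simpa only [← Matrix.toBilin'_comp, LinearMap.BilinForm.comp_apply, Matrix.toLin'_apply, map_smul,
      LinearMap.smul_apply, smul_eq_mul] using e

/-- The isometries of a bilinear form given by a matrix. -/
def isoM (M : Matrix κ κ F) : Set (GL κ F) := {h | (h : Matrix κ κ F)ᵀ * M * (h : Matrix κ κ F) = M}

theorem isometry_eq {Q : (κ → F) → F} {G : Matrix κ κ F} (hs : Gᵀ = G) (h2 : (2 : F) ≠ 0)
    (hQ : ∀ v, Matrix.toBilin' G v v = 2 * Q v) :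
    (Cfsg.isometryGroup F Q : Set (GL κ F)) = isoM G := by
  ext h
  constructor
  · intro hh
    refine Matrix.toBilin'.injective ?_
    rw [← Matrix.toBilin'_comp]
    refine LinearMap.ext fun x => LinearMap.ext fun y => ?_
    rw [LinearMap.BilinForm.comp_apply, Matrix.toLin'_apply, Matrix.toLin'_apply]
    have e : ∀ w, Matrix.toBilin' G ((h : Matrix κ κ F) *ᵥ w) ((h : Matrix κ κ F) *ᵥ w) =
        Matrix.toBilin' G w w := fun w => by rw [hQ, hQ]; exact congrArg (2 * ·) (hh w w)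
    have hf : ∀ a b, Matrix.toBilin' G b a = Matrix.toBilin' G a b := fun a b => by
      rw [bilin_flip (ε := 1) (by rw [one_smul, hs]), one_mul]
    have h3 := e (x + y)
    simp only [Matrix.mulVec_add, map_add, LinearMap.add_apply] at h3
    rw [e x, e y, hf ((h : Matrix κ κ F) *ᵥ x) ((h : Matrix κ κ F) *ᵥ y), hf x y] at h3
    exact mul_left_cancel₀ h2 (by linear_combination h3)
  · intro hh u _
    refine mul_left_cancel₀ h2 ?_
    rw [← hQ, ← hQ]
    have e := congrArg (fun X => Matrix.toBilin' X u u) (show _ = G from hh)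
    simp only [← Matrix.toBilin'_comp, LinearMap.BilinForm.comp_apply, Matrix.toLin'_apply] at e
    exact e

/-- A group complementary to the scalars. -/
theorem projQuot_iso {S : Type v} [Group S] (H : Subgroup (GL κ F))
    (φ : S →* GL κ F) (hφ : ∀ s, φ s ∈ H)
    (hfact : ∀ h ∈ H, ∃ (c : Fˣ) (s : S), h = GeneralLinearGroup.scalar κ c * φ s)
    (hinj : ∀ s c, φ s = GeneralLinearGroup.scalar κ c → s = 1) :
    Nonempty (Cfsg.projQuot H ≃* S) := by
  let ψ : S →* Cfsg.projQuot H := (QuotientGroup.mk' _).comp (φ.codRestrict H hφ)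
  refine ⟨(MulEquiv.ofBijective ψ ⟨(injective_iff_map_eq_one ψ).2 fun s hs => ?_, ?_⟩).symm⟩
  · rw [MonoidHom.comp_apply, QuotientGroup.mk'_apply, QuotientGroup.eq_one_iff,
      Subgroup.mem_subgroupOf, mem_scalars] at hs
    obtain ⟨c, hc⟩ := hs
    exact hinj s c hc
  · intro q
    induction q using QuotientGroup.induction_on with | _ h => ?_
    obtain ⟨c, s, hs⟩ := hfact h.1 h.2
    refine ⟨s, QuotientGroup.eq.2 ?_⟩
    rw [Subgroup.mem_subgroupOf, mem_scalars]
    refine ⟨c, ?_⟩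
    show (φ s)⁻¹ * (h : GL κ F) = _
    rw [hs, (scalar_commute' c (φ s)).eq, inv_mul_cancel_left]
where
  scalar_commute' (c : Fˣ) (g : GL κ F) : Commute (GeneralLinearGroup.scalar κ c) g := Units.ext (by
    simp only [Units.val_mul, scalar_val, Matrix.smul_mul, Matrix.mul_smul, one_mul, mul_one])

/-- A similitude with a square multiplier is a scalar times an isometry. -/
theorem exists_iso_of_sq {M : Matrix κ κ F} {h : GL κ F} {d : Fˣ}
    (hc : (h : Matrix κ κ F)ᵀ * M * h = ((d : F) * d) • M) :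
    ∃ k ∈ isoM M, h = GeneralLinearGroup.scalar κ d * k := by
  refine ⟨(GeneralLinearGroup.scalar κ d)⁻¹ * h, ?_, by rw [mul_inv_cancel_left]⟩
  show ((((GeneralLinearGroup.scalar κ d)⁻¹ * h : GL κ F)) : Matrix κ κ F)ᵀ * M *
    (((GeneralLinearGroup.scalar κ d)⁻¹ * h : GL κ F) : Matrix κ κ F) = M
  rw [← map_inv, Units.val_mul, scalar_val, Matrix.smul_mul, one_mul, transpose_smul, Matrix.smul_mul,
    Matrix.smul_mul, Matrix.mul_smul, hc, smul_smul, smul_smul, Units.val_inv_eq_inv_val]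
  rw [show ((d : F)⁻¹ * (d : F)⁻¹) * ((d : F) * d) = 1 by field_simp, one_smul]

end generic

/-! ### Symplectic -/

theorem gsp_eq (m : ℕ) : Cfsg.GSp m F = sim (Matrix.J (Fin m) F) := by
  ext h
  have key : ∀ (c : F), (∀ u v, Cfsg.sympForm m F ((h : Matrix _ _ F) *ᵥ u) ((h : Matrix _ _ F) *ᵥ v) =
      c * Cfsg.sympForm m F u v) ↔ (h : Matrix _ _ F)ᵀ * Matrix.J (Fin m) F * (h : Matrix _ _ F) = c • Matrix.J (Fin m) F := by
    intro c
    constructor
    · intro hc
      refine Matrix.toBilin'.injective ?_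
      rw [← Matrix.toBilin'_comp, map_smul]
      refine LinearMap.ext fun x => LinearMap.ext fun y => ?_
      simp only [LinearMap.BilinForm.comp_apply, Matrix.toLin'_apply, LinearMap.smul_apply,
        Matrix.toBilin'_apply', smul_eq_mul]
      exact hc x y
    · intro hc u v
      have e := congrArg (fun X => Matrix.toBilin' X u v) hc
      simp only [← Matrix.toBilin'_comp, LinearMap.BilinForm.comp_apply, Matrix.toLin'_apply, map_smul,
        LinearMap.smul_apply, smul_eq_mul, Matrix.toBilin'_apply'] at e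
      exact e
  exact exists_congr fun c => key c

theorem det_J_ne_zero (m : ℕ) : (Matrix.J (Fin m) F).det ≠ 0 := (Matrix.isUnit_det_J _ _).ne_zero

theorem J_diag (m : ℕ) (x : Fin m ⊕ Fin m → F) : Matrix.toBilin' (Matrix.J (Fin m) F) x x = 0 := by
  rw [Matrix.toBilin'_apply']
  have h := Forms.stdB_isAlt m x
  rwa [Forms.stdB_apply] at h

/-! ### Orthogonal forms -/

/-- The matrix of a hyperbolic space. -/
def hypM (m : ℕ) (F : Type u) [Field F] : Matrix (Fin m ⊕ Fin m) (Fin m ⊕ Fin m) F :=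
  Matrix.fromBlocks 0 1 1 0

/-- The matrix of the minus form. -/
def minusM (m : ℕ) (a b : F) : Matrix ((Fin m ⊕ Fin m) ⊕ Fin 2) ((Fin m ⊕ Fin m) ⊕ Fin 2) F :=
  Matrix.fromBlocks (hypM m F) 0 0 !![2, a; a, 2 * b]

/-- The matrix of the odd form. -/
def oddM (m : ℕ) (F : Type u) [Field F] :
    Matrix (Unit ⊕ (Fin m ⊕ Fin m)) (Unit ⊕ (Fin m ⊕ Fin m)) F :=
  Matrix.fromBlocks ((2 : F) • 1) 0 0 (hypM m F)

theorem hypM_symm (m : ℕ) : (hypM m F)ᵀ = hypM m F := by
  rw [hypM, fromBlocks_transpose]; simp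

theorem minusM_symm (m : ℕ) (a b : F) : (minusM m a b)ᵀ = minusM m a b := by
  rw [minusM, fromBlocks_transpose, hypM_symm]
  congr 1
  ext i j; fin_cases i <;> fin_cases j <;> rfl

theorem oddM_symm (m : ℕ) : (oddM m F)ᵀ = oddM m F := by
  rw [oddM, fromBlocks_transpose, hypM_symm]; simp

theorem hypM_val (m : ℕ) (v : Fin m ⊕ Fin m → F) :
    Matrix.toBilin' (hypM m F) v v = 2 * Cfsg.quadFormPlus m F v := by
  rw [Matrix.toBilin'_apply', hypM, fromBlocks_mulVec, dotProduct, Fintype.sum_sum_type]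
  simp only [zero_mulVec, one_mulVec, zero_add, add_zero, Sum.elim_inl, Sum.elim_inr,
    Function.comp_apply, Cfsg.quadFormPlus, two_mul]
  congr 1
  exact Finset.sum_congr rfl fun i _ => mul_comm _ _

theorem minusM_val (m : ℕ) (a b : F) (v : (Fin m ⊕ Fin m) ⊕ Fin 2 → F) :
    Matrix.toBilin' (minusM m a b) v v = 2 * Cfsg.quadFormMinus m F a b v := by
  have h := hypM_val m (v ∘ Sum.inl)
  rw [Matrix.toBilin'_apply', dotProduct] at h
  rw [Matrix.toBilin'_apply', minusM, fromBlocks_mulVec, dotProduct, Fintype.sum_sum_type]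
  simp only [zero_mulVec, zero_add, add_zero, Sum.elim_inl, Sum.elim_inr, Cfsg.quadFormMinus]
  simp only [Function.comp_apply] at h
  rw [h, mul_add]
  congr 1
  simp [Matrix.mulVec, dotProduct, Fin.sum_univ_two, Function.comp]
  ring

theorem oddM_val (m : ℕ) (v : Unit ⊕ (Fin m ⊕ Fin m) → F) :
    Matrix.toBilin' (oddM m F) v v = 2 * Cfsg.quadFormOdd m F v := by
  have h := hypM_val m (v ∘ Sum.inr)
  rw [Matrix.toBilin'_apply', dotProduct] at h
  rw [Matrix.toBilin'_apply', oddM, fromBlocks_mulVec, dotProduct, Fintype.sum_sum_type]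
  simp only [zero_mulVec, zero_add, add_zero, Sum.elim_inl, Sum.elim_inr, Cfsg.quadFormOdd]
  simp only [Function.comp_apply] at h
  rw [h, mul_add]
  congr 1
  simp [Matrix.smul_mulVec, Function.comp]
  ring

theorem det_hypM (m : ℕ) : (hypM m F).det = (-1) ^ m := FormDet.det_hyp m F

theorem det_minusM (m : ℕ) (a b : F) : (minusM m a b).det = (-1) ^ m * (4 * b - a * a) := by
  rw [minusM, det_fromBlocks_zero₂₁, det_hypM, det_fin_two_of]
  ring

theorem det_oddM (m : ℕ) : (oddM m F).det = 2 * (-1) ^ m := by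
  rw [oddM, det_fromBlocks_zero₂₁, det_hypM]
  simp

theorem disc_nonsquare (h2 : (2 : F) ≠ 0) {a b : F}
    (hab : ∀ z₁ z₂ : F, z₁ ^ 2 + a * z₁ * z₂ + b * z₂ ^ 2 = 0 → z₁ = 0 ∧ z₂ = 0) :
    ¬ IsSquare (a * a - 4 * b) := fun ⟨s, hs⟩ => by
  have := (hab ((-a + s) / 2) 1 (by field_simp; linear_combination -hs)).2
  exact one_ne_zero this

theorem det_minusM_ne_zero (h2 : (2 : F) ≠ 0) (m : ℕ) {a b : F}
    (hab : ∀ z₁ z₂ : F, z₁ ^ 2 + a * z₁ * z₂ + b * z₂ ^ 2 = 0 → z₁ = 0 ∧ z₂ = 0) :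
    (minusM m a b).det ≠ 0 := by
  rw [det_minusM]
  refine mul_ne_zero (pow_ne_zero _ (neg_ne_zero.2 one_ne_zero)) fun h => disc_nonsquare h2 hab ⟨0, ?_⟩
  linear_combination -h

/-! ### Characteristic two -/

section two

variable [Fintype F] [CharP F 2]

theorem exists_sqrt_unit (c : Fˣ) : ∃ d : Fˣ, (d : F) * d = c := by
  obtain ⟨d, hd⟩ := exists_sqrt (c : F)
  exact ⟨Units.mk0 d fun h => c.ne_zero (by rw [← hd, h, zero_mul]), hd⟩

/-- The symmetric matrix with a one-dimensional nonalternating part. -/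
def oneJ (m : ℕ) (F : Type u) [Field F] : Matrix (Unit ⊕ (Fin m ⊕ Fin m)) (Unit ⊕ (Fin m ⊕ Fin m)) F :=
  Matrix.fromBlocks 1 0 0 (Matrix.J (Fin m) F)

omit [Fintype F] in
theorem J_symm (m : ℕ) : (Matrix.J (Fin m) F)ᵀ = Matrix.J (Fin m) F := by
  rw [Matrix.J_transpose]; ext i j; exact CharTwo.neg_eq _

omit [Fintype F] in
theorem oneJ_symm (m : ℕ) : (oneJ m F)ᵀ = oneJ m F := by
  rw [oneJ, fromBlocks_transpose, J_symm]; simp

theorem projQuot_oneJ (m : ℕ) :
    Nonempty (Cfsg.projQuot (sim (oneJ m F)) ≃* Matrix.symplecticGroup (Fin m) F) := by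
  let φ0 : Matrix.symplecticGroup (Fin m) F →*
      Matrix (Unit ⊕ (Fin m ⊕ Fin m)) (Unit ⊕ (Fin m ⊕ Fin m)) F :=
    { toFun := fun A => Matrix.fromBlocks 1 0 0 (A : Matrix _ _ F)
      map_one' := by simp
      map_mul' := fun A B => by simp [fromBlocks_multiply] }
  refine projQuot_iso _ φ0.toHomUnits (fun A => ⟨1, ?_⟩) (fun h hh => ?_) fun A c hA => ?_
  · show (φ0 A)ᵀ * oneJ m F * φ0 A = _
    rw [Units.val_one, one_smul]
    show (Matrix.fromBlocks 1 0 0 (A : Matrix _ _ F))ᵀ * oneJ m F * Matrix.fromBlocks 1 0 0 (A : Matrix _ _ F) = _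
    rw [oneJ, fromBlocks_transpose, fromBlocks_multiply, fromBlocks_multiply]
    simp [SymplecticGroup.mem_iff'.1 A.2]
  · obtain ⟨c, hc⟩ := hh
    obtain ⟨d, hd⟩ := exists_sqrt_unit c
    rw [← hd] at hc
    obtain ⟨k, hk, rfl⟩ := exists_iso_of_sq hc
    have hkm : (Units.val k)ᵀ * oneJ m F * (Units.val k) = oneJ m F := hk
    -- the first coordinate is kept
    have hdiag : ∀ x : Unit ⊕ (Fin m ⊕ Fin m) → F,
        Matrix.toBilin' (oneJ m F) x x = x (Sum.inl ()) * x (Sum.inl ()) := fun x => by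
      rw [Matrix.toBilin'_apply', oneJ, fromBlocks_mulVec, dotProduct, Fintype.sum_sum_type]
      simp only [zero_mulVec, zero_add, add_zero, Sum.elim_inl, Sum.elim_inr, one_mulVec]
      have h := J_diag m (x ∘ Sum.inr)
      rw [Matrix.toBilin'_apply', dotProduct] at h
      simp only [Function.comp_apply] at h
      rw [h, add_zero]
      simp
    have hrow : ∀ x : Unit ⊕ (Fin m ⊕ Fin m) → F,
        ((Units.val k) *ᵥ x) (Sum.inl ()) = x (Sum.inl ()) := fun x => by
      have e := congrArg (fun X => Matrix.toBilin' X x x) hkm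
      simp only [← Matrix.toBilin'_comp, LinearMap.BilinForm.comp_apply, Matrix.toLin'_apply, hdiag] at e
      rcases mul_self_eq_mul_self_iff.1 e with h2 | h2
      · exact h2
      · rw [h2, CharTwo.neg_eq]
    have hblock : (Units.val k) = Matrix.fromBlocks 1 0 (Units.val k).toBlocks₂₁
        (Units.val k).toBlocks₂₂ := by
      conv_lhs => rw [← fromBlocks_toBlocks (Units.val k)]
      congr 1
      · ext ⟨⟩ ⟨⟩
        have := hrow (Pi.single (.inl ()) 1)
        simpa [toBlocks₁₁] using this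
      · ext ⟨⟩ j
        have := hrow (Pi.single (.inr j) 1)
        simpa [toBlocks₁₂] using this
    generalize (Units.val k).toBlocks₂₁ = C, (Units.val k).toBlocks₂₂ = D at hblock
    rw [hblock, oneJ, fromBlocks_transpose, fromBlocks_multiply, fromBlocks_multiply,
      fromBlocks_inj] at hkm
    simp only [transpose_one, transpose_zero, Matrix.one_mul, Matrix.mul_one, Matrix.zero_mul,
      Matrix.mul_zero, add_zero, zero_add] at hkm
    obtain ⟨-, -, h21, h22⟩ := hkm
    have hD : D ∈ Matrix.symplecticGroup (Fin m) F := SymplecticGroup.mem_iff'.2 h22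
    have hC : C = 0 := by
      have hu : IsUnit (Dᵀ * Matrix.J (Fin m) F).det := by
        rw [det_mul, det_transpose, SymplecticGroup.det_eq_one hD, one_mul]
        exact Matrix.isUnit_det_J _ _
      have := congrArg ((Dᵀ * Matrix.J (Fin m) F)⁻¹ * ·) h21
      simp only [Matrix.nonsing_inv_mul_cancel_left _ _ hu, Matrix.mul_zero] at this
      exact this
    refine ⟨d, ⟨D, hD⟩, ?_⟩
    congr 1
    exact Units.ext (by rw [hblock, hC]; rfl)
  · have h1 := congrArg Units.val hA
    rw [scalar_val] at h1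
    have hc : (c : F) = 1 := by
      have := congrFun (congrFun h1 (.inl ())) (.inl ())
      simpa [φ0] using this.symm
    refine Subtype.ext (Matrix.ext fun i j => ?_)
    have := congrFun (congrFun h1 (.inr i)) (.inr j)
    rw [hc, one_smul] at this
    simpa [φ0, Matrix.one_apply] using this

theorem projQuot_GSp (m : ℕ) :
    Nonempty (Cfsg.projQuot (sim (Matrix.J (Fin m) F)) ≃* Matrix.symplecticGroup (Fin m) F) := by
  refine projQuot_iso _ (Forms.spToGL m F) (fun A => ⟨1, ?_⟩) (fun h hh => ?_) fun A c hA => ?_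
  · rw [Units.val_one, one_smul]
    exact SymplecticGroup.mem_iff'.1 A.2
  · obtain ⟨c, hc⟩ := hh
    obtain ⟨d, hd⟩ := exists_sqrt_unit c
    rw [← hd] at hc
    obtain ⟨k, hk, rfl⟩ := exists_iso_of_sq hc
    exact ⟨d, ⟨(k : Matrix (Fin m ⊕ Fin m) (Fin m ⊕ Fin m) F), SymplecticGroup.mem_iff'.2 hk⟩,
      congrArg _ (Units.ext rfl)⟩
  · have h1 : (A : Matrix (Fin m ⊕ Fin m) (Fin m ⊕ Fin m) F) = (c : F) • 1 := (congrArg Units.val hA).trans (scalar_val c)
    refine Subtype.ext ?_
    rcases Nat.eq_zero_or_pos m with rfl | hm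
    · ext i; exact Fin.elim0 (i.elim id id)
    have h := SymplecticGroup.mem_iff'.1 A.2
    rw [h1, transpose_smul, transpose_one, Matrix.smul_mul, one_mul, Matrix.smul_mul, Matrix.mul_smul,
      mul_one, smul_smul] at h
    have h3 := congrFun (congrFun h (.inl ⟨0, hm⟩)) (.inr ⟨0, hm⟩)
    have hc : (c : F) = 1 := frobenius_inj F 2 (by
      simpa [frobenius_def, pow_two, Matrix.J] using h3)
    rw [h1, hc, one_smul]; rfl

theorem projQuot_odd_two (m : ℕ) :
    Nonempty (Cfsg.PGO F (Cfsg.quadFormOdd m F) ≃* Matrix.symplecticGroup (Fin m) F) := by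
  obtain ⟨e⟩ := Classical.oddCharTwo_equiv (F := F) m
  refine projQuot_iso _ ((Cfsg.isometryGroup F (Cfsg.quadFormOdd m F)).subtype.comp e.symm.toMonoidHom)
    (fun A => ⟨1, fun v => by rw [Units.val_one, one_mul]; exact (e.symm A).2 v v⟩) (fun h hh => ?_)
    fun A c hA => ?_
  · obtain ⟨c, hc⟩ := hh
    obtain ⟨d, hd⟩ := exists_sqrt_unit c
    have hk : (GeneralLinearGroup.scalar _ d)⁻¹ * h ∈ Cfsg.isometryGroup F (Cfsg.quadFormOdd m F) :=
      fun v _ => by
        show Cfsg.quadFormOdd m F ((((GeneralLinearGroup.scalar _ d)⁻¹ * h : GL _ F) : Matrix _ _ F) *ᵥ v) = _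
        rw [← map_inv, Units.val_mul, scalar_val, Matrix.smul_mul, one_mul, smul_mulVec,
          Classical.quadFormOdd_smul, hc, ← hd, Units.val_inv_eq_inv_val]
        field_simp
    refine ⟨d, e ⟨_, hk⟩, ?_⟩
    simp
  · have h1 := (e.symm A).2 (Pi.single (.inl ()) 1) 0
    change Cfsg.quadFormOdd m F ((Units.val (e.symm A).1) *ᵥ _) = _ at h1
    rw [show ((e.symm A).1 : GL _ F) = GeneralLinearGroup.scalar _ c from hA, scalar_val, smul_mulVec,
      one_mulVec, Classical.quadFormOdd_smul] at h1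
    simp only at h1
    have hQ1 : Cfsg.quadFormOdd m F (Pi.single (.inl ()) 1) = 1 := by simp [Cfsg.quadFormOdd]
    rw [hQ1, mul_one] at h1
    have hc : c = 1 := Units.ext (frobenius_inj F 2 (by rw [frobenius_def, h1]; simp [frobenius_def]))
    rw [hc, map_one] at hA
    exact e.symm.injective (Subtype.ext (hA.trans (by rw [map_one]; rfl)))

end two

end Cfsg.Agent.Lib.AutPSL
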